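import Mathlib

set_option autoImplicit false

namespace Cfsg.Agent.Helper7

/-- all fibres of a surjective additive map have the same size. -/
theorem card_fiber_mul {V W : Type*} [AddCommGroup V] [AddCommGroup W] [Finite V] (f : V →+ W)
    (hf : Function.Surjective f) (c : W) :
    Nat.card {y : V // f y = c} * Nat.card W = Nat.card V := by
  classical
  haveI : Finite W := Finite.of_surjective f hf
  haveI : Fintype W := Fintype.ofFinite W
  have hfib : ∀ d : W, Nat.card {y : V // f y = d} = Nat.card {y : V // f y = c} := by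
    intro d
    obtain ⟨y₀, hy₀⟩ := hf (d - c)
    exact Nat.card_congr ⟨fun y => ⟨y.1 - y₀, by rw [map_sub, y.2, hy₀]; abel⟩,
      fun y => ⟨y.1 + y₀, by rw [map_add, y.2, hy₀]; abel⟩,
      fun y => by simp, fun y => by simp⟩
  rw [← Nat.card_congr (Equiv.sigmaFiberEquiv f), Nat.card_sigma]
  simp_rw [hfib]
  rw [Finset.sum_const, Finset.card_univ, smul_eq_mul, Nat.card_eq_fintype_card (α := W), mul_comm]

/-- a non-zero linear equation in `m` unknowns over a field with `q` elements has `q^(m-1)` solutions. -/
theorem card_dot {F : Type*} [Field F] [Fintype F] {q : ℕ} (hF : Fintype.card F = q) {m : ℕ}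
    (x : Fin m → F) (hx : x ≠ 0) (c : F) :
    Nat.card {y : Fin m → F // ∑ i, x i * y i = c} = q ^ (m - 1) := by
  classical
  let f : (Fin m → F) →+ F :=
    { toFun := fun y => ∑ i, x i * y i
      map_zero' := by simp
      map_add' := by intro y z; simp [mul_add, Finset.sum_add_distrib] }
  have hf : Function.Surjective f := by
    intro d
    obtain ⟨i, hi⟩ := Function.ne_iff.mp hx
    refine ⟨Pi.single i (d / x i), ?_⟩
    show ∑ j, x j * (Pi.single i (d / x i) : Fin m → F) j = d
    rw [Finset.sum_eq_single i]
    · rw [Pi.single_eq_same]; field_simp [show x i ≠ 0 from hi]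
    · intro j _ hj
      rw [Pi.single_eq_of_ne hj, mul_zero]
    · intro h; exact absurd (Finset.mem_univ i) h
  have h1 := card_fiber_mul f hf c
  have hm : 1 ≤ m := by
    by_contra h0
    have : m = 0 := by omega
    subst this
    exact hx (Subsingleton.elim _ _)
  have hq : 0 < q := by rw [← hF]; exact Fintype.card_pos
  have h2 : Nat.card (Fin m → F) = q ^ (m - 1) * q := by
    rw [Nat.card_fun, Nat.card_fin, Nat.card_eq_fintype_card, hF, ← pow_succ, Nat.sub_add_cancel hm]
  rw [h2, Nat.card_eq_fintype_card (α := F), hF] at h1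
  exact Nat.eq_of_mul_eq_mul_right hq h1

end Cfsg.Agent.Helper7
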