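import Mathlib
import Cfsg.Prelude.Def_Classical

set_option autoImplicit false

namespace Cfsg.Agent.Helper7

section herm

variable {F : Type*} [Field F] [Fintype F] {q : ℕ}

theorem herm_two_le (hF : Fintype.card F = q ^ 2) : 2 ≤ q := by
  by_contra h
  have h1 : q ≤ 1 := by omega
  have h2 : 2 ≤ Fintype.card F := Fintype.one_lt_card
  rw [hF] at h2
  have : q ^ 2 ≤ 1 := by
    calc q ^ 2 ≤ 1 ^ 2 := Nat.pow_le_pow_left h1 2
      _ = 1 := by norm_num
  omega

theorem herm_mul_sub (hq : 2 ≤ q) : (q + 1) * (q - 1) = q ^ 2 - 1 := by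
  obtain ⟨r, rfl⟩ : ∃ r, q = r + 1 := ⟨q - 1, by omega⟩
  simp only [Nat.add_sub_cancel]
  have : (r + 1) ^ 2 = (r + 1 + 1) * r + 1 := by ring
  rw [this, Nat.add_sub_cancel]

/-- the set of nonzero norms. -/
def normSet (F : Type*) [Field F] (q : ℕ) : Set F := {c : F | c ≠ 0 ∧ c ^ (q - 1) = 1}

theorem norm_mem_normSet (hF : Fintype.card F = q ^ 2) (t : F) (ht : t ≠ 0) :
    t * t ^ q ∈ normSet F q := by
  have hq := herm_two_le hF
  refine ⟨mul_ne_zero ht (pow_ne_zero _ ht), ?_⟩
  have h1 := FiniteField.pow_card_sub_one_eq_one t ht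
  rw [hF, ← herm_mul_sub hq, pow_mul] at h1
  rw [← pow_succ', h1]

theorem normSet_mul {a b : F} (ha : a ∈ normSet F q) (hb : b ∈ normSet F q) :
    a * b ∈ normSet F q :=
  ⟨mul_ne_zero ha.1 hb.1, by rw [mul_pow, ha.2, hb.2, mul_one]⟩

theorem neg_one_mem_normSet (hF : Fintype.card F = q ^ 2) : (-1 : F) ∈ normSet F q := by
  have hq := herm_two_le hF
  refine ⟨neg_ne_zero.mpr one_ne_zero, ?_⟩
  rcases Nat.even_or_odd q with he | ho
  · have h2 : Fintype.card F % 2 = 0 := by
      rw [hF]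
      obtain ⟨j, rfl⟩ := he
      have : (j + j) ^ 2 = 2 * (2 * j * j) := by ring
      rw [this]; simp
    have hchar := FiniteField.even_card_iff_char_two.mpr h2
    haveI : CharP F 2 := ringChar.of_eq hchar
    rw [CharTwo.neg_eq, one_pow]
  · have : Even (q - 1) := by
      obtain ⟨j, rfl⟩ := ho
      exact ⟨j, by omega⟩
    exact this.neg_one_pow

/-- counting in the unit group: the norm map onto `normSet` is surjective and `normSet` has `q-1`
elements. -/
theorem normSet_facts (hF : Fintype.card F = q ^ 2) :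
    (∀ c ∈ normSet F q, ∃ t : F, t ≠ 0 ∧ t * t ^ q = c) ∧ Nat.card (normSet F q) = q - 1 := by
  classical
  have hq := herm_two_le hF
  let φ : Fˣ →* Fˣ := powMonoidHom (q + 1)
  let ψ : Fˣ →* Fˣ := powMonoidHom (q - 1)
  have hle : φ.range ≤ ψ.ker := by
    rintro _ ⟨u, rfl⟩
    rw [MonoidHom.mem_ker]
    show (u ^ (q + 1)) ^ (q - 1) = 1
    rw [← pow_mul, herm_mul_sub hq, ← hF]
    ext
    rw [Units.val_pow_eq_pow_val, Units.val_one]
    exact FiniteField.pow_card_sub_one_eq_one _ u.ne_zero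
  have hker1 : Nat.card φ.ker ≤ q + 1 := by
    have h := IsCyclic.card_pow_eq_one_le (α := Fˣ) (n := q + 1) (by omega)
    have h2 : Nat.card φ.ker = (Finset.univ.filter (fun a : Fˣ => a ^ (q + 1) = 1)).card := by
      rw [Nat.card_eq_fintype_card, Fintype.card_subtype]
      congr 1
      ext a
      simp only [Finset.mem_filter, Finset.mem_univ, true_and]
      exact MonoidHom.mem_ker
    rw [h2]; exact h
  have hker2 : Nat.card ψ.ker ≤ q - 1 := by
    have h := IsCyclic.card_pow_eq_one_le (α := Fˣ) (n := q - 1) (by omega)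
    have h2 : Nat.card ψ.ker = (Finset.univ.filter (fun a : Fˣ => a ^ (q - 1) = 1)).card := by
      rw [Nat.card_eq_fintype_card, Fintype.card_subtype]
      congr 1
      ext a
      simp only [Finset.mem_filter, Finset.mem_univ, true_and]
      exact MonoidHom.mem_ker
    rw [h2]; exact h
  have hcard : Nat.card φ.ker * Nat.card φ.range = q ^ 2 - 1 := by
    rw [← Subgroup.index_ker, Subgroup.card_mul_index, Nat.card_eq_fintype_card,
      Fintype.card_units, hF]
  have hrange_le : Nat.card φ.range ≤ Nat.card ψ.ker := Subgroup.card_le_of_le hle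
  have hrange : Nat.card φ.range = q - 1 := by
    have h1 : (q + 1) * (q - 1) ≤ (q + 1) * Nat.card φ.range := by
      rw [herm_mul_sub hq, ← hcard]
      exact Nat.mul_le_mul_right _ hker1
    have h2 := Nat.le_of_mul_le_mul_left h1 (by omega)
    omega
  have heq : φ.range = ψ.ker :=
    Subgroup.eq_of_le_of_card_ge hle (by rw [hrange]; exact hker2)
  have hkercard : Nat.card ψ.ker = q - 1 := by rw [← heq, hrange]
  refine ⟨?_, ?_⟩
  · rintro c ⟨hc0, hc1⟩
    have hmem : Units.mk0 c hc0 ∈ ψ.ker := by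
      rw [MonoidHom.mem_ker]
      show (Units.mk0 c hc0) ^ (q - 1) = 1
      ext
      rw [Units.val_pow_eq_pow_val, Units.val_one]
      exact hc1
    rw [← heq] at hmem
    obtain ⟨w, hw⟩ := hmem
    refine ⟨(w : F), w.ne_zero, ?_⟩
    have h3 : ((w ^ (q + 1) : Fˣ) : F) = c := by
      have : w ^ (q + 1) = Units.mk0 c hc0 := hw
      rw [this]; rfl
    rw [Units.val_pow_eq_pow_val] at h3
    rw [← pow_succ', h3]
  · rw [← hkercard]
    refine Nat.card_congr ⟨fun c => ⟨Units.mk0 c.1 c.2.1, ?_⟩, fun u => ⟨(u.1 : F), u.1.ne_zero, ?_⟩,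
      fun c => rfl, fun u => ?_⟩
    · rw [MonoidHom.mem_ker]
      show (Units.mk0 c.1 c.2.1) ^ (q - 1) = 1
      ext
      rw [Units.val_pow_eq_pow_val, Units.val_one]
      exact c.2.2
    · have h := MonoidHom.mem_ker.mp u.2
      have h2 : (u.1 ^ (q - 1) : Fˣ) = 1 := h
      have h3 := congrArg (fun x : Fˣ => (x : F)) h2
      simp only [Units.val_pow_eq_pow_val, Units.val_one] at h3
      exact h3
    · apply Subtype.ext
      ext
      rfl

/-- values of the Hermitian norm lie in the fixed field: `0` or a nonzero norm. -/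
theorem herm_value (hF : Fintype.card F = q ^ 2) (n : ℕ) (v : Fin n → F) :
    Cfsg.hermForm n F q v v = 0 ∨ Cfsg.hermForm n F q v v ∈ normSet F q := by
  classical
  have hq := herm_two_le hF
  obtain ⟨p, hp⟩ := CharP.exists F
  obtain ⟨e, hpp, he⟩ := FiniteField.card F p
  haveI : Fact p.Prime := ⟨hpp⟩
  have hqd : q ∣ p ^ (e : ℕ) := by rw [← he, hF]; exact Dvd.intro_left (q ^ 1) (by ring)
  obtain ⟨f, -, hf⟩ := (Nat.dvd_prime_pow hpp).mp hqd
  have hfix : (Cfsg.hermForm n F q v v) ^ q = Cfsg.hermForm n F q v v := by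
    unfold Cfsg.hermForm
    rw [hf, sum_pow_char_pow]
    refine Finset.sum_congr rfl (fun i _ => ?_)
    rw [← hf, mul_pow, ← pow_mul, ← sq, ← hF, FiniteField.pow_card, mul_comm]
  by_cases h0 : Cfsg.hermForm n F q v v = 0
  · left; exact h0
  · right
    refine ⟨h0, ?_⟩
    have h1 : Cfsg.hermForm n F q v v * (Cfsg.hermForm n F q v v) ^ (q - 1) =
        Cfsg.hermForm n F q v v * 1 := by
      rw [← pow_succ', Nat.sub_add_cancel (by omega), hfix, mul_one]
    exact mul_left_cancel₀ h0 h1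

/-- scaling: every nonzero norm value is attained as often as `1`. -/
theorem herm_scale (hF : Fintype.card F = q ^ 2) (n : ℕ) (c : F) (hc : c ∈ normSet F q) :
    Nat.card {v : Fin n → F // Cfsg.hermForm n F q v v = c} =
      Nat.card {v : Fin n → F // Cfsg.hermForm n F q v v = 1} := by
  obtain ⟨t, ht, htc⟩ := (normSet_facts hF).1 c hc
  have hsc : ∀ (s : F) (v : Fin n → F), Cfsg.hermForm n F q (s • v) (s • v) =
      (s * s ^ q) * Cfsg.hermForm n F q v v := by
    intro s v
    unfold Cfsg.hermForm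
    rw [Finset.mul_sum]
    refine Finset.sum_congr rfl (fun i _ => ?_)
    simp only [Pi.smul_apply, smul_eq_mul, mul_pow]
    ring
  symm
  refine Nat.card_congr ⟨fun v => ⟨t • v.1, by rw [hsc, v.2, mul_one, htc]⟩,
    fun v => ⟨t⁻¹ • v.1, ?_⟩, fun v => ?_, fun v => ?_⟩
  · rw [hsc, v.2, ← htc, inv_pow]
    field_simp
  · apply Subtype.ext
    show t⁻¹ • (t • v.1) = v.1
    rw [smul_smul, inv_mul_cancel₀ ht, one_smul]
  · apply Subtype.ext
    show t • (t⁻¹ • v.1) = v.1
    rw [smul_smul, mul_inv_cancel₀ ht, one_smul]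

/-- recursion for the number of isotropic vectors. -/
theorem herm_rec (hF : Fintype.card F = q ^ 2) (n : ℕ) :
    Nat.card {v : Fin (n + 1) → F // Cfsg.hermForm (n + 1) F q v v = 0} =
      Nat.card {v : Fin n → F // Cfsg.hermForm n F q v v = 0} +
        (q ^ 2 - 1) * Nat.card {v : Fin n → F // Cfsg.hermForm n F q v v = 1} := by
  classical
  have hsplit : ∀ v : Fin (n + 1) → F, Cfsg.hermForm (n + 1) F q v v =
      v 0 * v 0 ^ q + Cfsg.hermForm n F q (Fin.tail v) (Fin.tail v) := by
    intro v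
    unfold Cfsg.hermForm
    rw [Fin.sum_univ_succ]
    rfl
  let e : {v : Fin (n + 1) → F // Cfsg.hermForm (n + 1) F q v v = 0} ≃
      (Σ t : F, {w : Fin n → F // Cfsg.hermForm n F q w w = -(t * t ^ q)}) :=
    { toFun := fun v => ⟨v.1 0, ⟨Fin.tail v.1, by
        have h := v.2
        rw [hsplit] at h
        exact eq_neg_of_add_eq_zero_right h⟩⟩
      invFun := fun p => ⟨Fin.cons p.1 p.2.1, by
        rw [hsplit, Fin.cons_zero, Fin.tail_cons, p.2.2]
        ring⟩
      left_inv := by
        intro v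
        apply Subtype.ext
        exact Fin.cons_self_tail v.1
      right_inv := by
        rintro ⟨t, w, hw⟩
        rfl }
  rw [Nat.card_congr e, Nat.card_sigma]
  have hterm : ∀ t : F, Nat.card {w : Fin n → F // Cfsg.hermForm n F q w w = -(t * t ^ q)} =
      if t = 0 then Nat.card {v : Fin n → F // Cfsg.hermForm n F q v v = 0}
      else Nat.card {v : Fin n → F // Cfsg.hermForm n F q v v = 1} := by
    intro t
    have hq := herm_two_le hF
    split_ifs with ht
    · subst ht
      have : -((0 : F) * 0 ^ q) = 0 := by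
        rw [zero_mul, neg_zero]
      rw [this]
    · apply herm_scale hF
      have h1 := normSet_mul (neg_one_mem_normSet hF) (norm_mem_normSet hF t ht)
      rwa [neg_one_mul] at h1
  simp_rw [hterm]
  rw [← Finset.add_sum_erase Finset.univ _ (Finset.mem_univ (0 : F)), if_pos rfl]
  congr 1
  rw [Finset.sum_congr rfl (fun x hx => if_neg (Finset.ne_of_mem_erase hx)), Finset.sum_const,
    Finset.card_erase_of_mem (Finset.mem_univ _), Finset.card_univ, smul_eq_mul, hF]

/-- the total count. -/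
theorem herm_total (hF : Fintype.card F = q ^ 2) (n : ℕ) :
    q ^ (2 * n) = Nat.card {v : Fin n → F // Cfsg.hermForm n F q v v = 0} +
        (q - 1) * Nat.card {v : Fin n → F // Cfsg.hermForm n F q v v = 1} := by
  classical
  have h1 : Nat.card (Fin n → F) = q ^ (2 * n) := by
    rw [Nat.card_fun, Nat.card_fin, Nat.card_eq_fintype_card, hF, pow_mul]
  rw [← h1, ← Nat.card_congr (Equiv.sigmaFiberEquiv (fun v : Fin n → F => Cfsg.hermForm n F q v v)),
    Nat.card_sigma]
  have hterm : ∀ c : F, Nat.card {v : Fin n → F // Cfsg.hermForm n F q v v = c} =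
      if c ∈ normSet F q then Nat.card {v : Fin n → F // Cfsg.hermForm n F q v v = 1}
      else if c = 0 then Nat.card {v : Fin n → F // Cfsg.hermForm n F q v v = 0} else 0 := by
    intro c
    split_ifs with hc hc0
    · exact herm_scale hF n c hc
    · rw [hc0]
    · haveI : IsEmpty {v : Fin n → F // Cfsg.hermForm n F q v v = c} := by
        refine ⟨fun v => ?_⟩
        rcases herm_value hF n v.1 with h | h
        · exact hc0 (v.2 ▸ h)
        · exact hc (v.2 ▸ h)
      exact Nat.card_of_isEmpty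
  rw [Finset.sum_congr rfl (fun c _ => hterm c)]
  rw [← Finset.sum_filter_add_sum_filter_not Finset.univ (fun c : F => c ∈ normSet F q)]
  rw [Finset.sum_congr rfl (fun c hc => if_pos (Finset.mem_filter.mp hc).2),
    Finset.sum_congr (s₂ := Finset.univ.filter (fun c : F => c ∉ normSet F q)) rfl
      (fun c hc => if_neg (Finset.mem_filter.mp hc).2), Finset.sum_const, smul_eq_mul]
  have hcardK : (Finset.univ.filter (fun c : F => c ∈ normSet F q)).card = q - 1 := by
    rw [← (normSet_facts hF).2, Nat.card_eq_fintype_card, Fintype.card_subtype]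
  rw [hcardK, add_comm]
  congr 1
  have h0 : (0 : F) ∈ Finset.univ.filter (fun c : F => c ∉ normSet F q) := by
    rw [Finset.mem_filter]
    exact ⟨Finset.mem_univ _, fun h => h.1 rfl⟩
  rw [Finset.sum_eq_single_of_mem (0 : F) h0, if_pos rfl]
  intro c _ hc
  rw [if_neg hc]

/-- the closed formulas, over `ℤ` and multiplied by `q`. -/
theorem herm_int (hF : Fintype.card F = q ^ 2) (n : ℕ) :
    ((Nat.card {v : Fin n → F // Cfsg.hermForm n F q v v = 0} : ℕ) : ℤ) * q =
        (q : ℤ) ^ (2 * n) + (-1) ^ n * ((q : ℤ) ^ (n + 1) - (q : ℤ) ^ n) ∧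
    ((Nat.card {v : Fin n → F // Cfsg.hermForm n F q v v = 1} : ℕ) : ℤ) * q =
        (q : ℤ) ^ n * ((q : ℤ) ^ n - (-1) ^ n) := by
  have hq := herm_two_le hF
  have hq1 : (q : ℤ) - 1 ≠ 0 := by
    have : (2 : ℤ) ≤ q := by exact_mod_cast hq
    omega
  induction n with
  | zero =>
    have ha : Nat.card {v : Fin 0 → F // Cfsg.hermForm 0 F q v v = 0} = 1 := by
      have : ∀ v : Fin 0 → F, Cfsg.hermForm 0 F q v v = 0 := by
        intro v; unfold Cfsg.hermForm; simp
      rw [Nat.card_congr (Equiv.subtypeUnivEquiv this)]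
      simp
    have ht := herm_total hF 0
    rw [ha] at ht
    have hb : Nat.card {v : Fin 0 → F // Cfsg.hermForm 0 F q v v = 1} = 0 := by
      have h1 : (q - 1) * Nat.card {v : Fin 0 → F // Cfsg.hermForm 0 F q v v = 1} = 0 := by
        rw [Nat.mul_zero, pow_zero] at ht; omega
      rcases Nat.mul_eq_zero.mp h1 with h | h
      · omega
      · exact h
    rw [ha, hb]
    constructor
    · simp
    · simp
  | succ n ih =>
    obtain ⟨iha, ihb⟩ := ih
    have hr := herm_rec hF n
    have ht := herm_total hF (n + 1)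
    have hr' : ((Nat.card {v : Fin (n + 1) → F // Cfsg.hermForm (n + 1) F q v v = 0} : ℕ) : ℤ) =
        (Nat.card {v : Fin n → F // Cfsg.hermForm n F q v v = 0} : ℤ) +
        ((q : ℤ) ^ 2 - 1) * (Nat.card {v : Fin n → F // Cfsg.hermForm n F q v v = 1} : ℤ) := by
      rw [hr]
      have h1 : 1 ≤ q ^ 2 := Nat.one_le_pow _ _ (by omega)
      push_cast [Nat.cast_sub h1]
      ring
    have ht' : (q : ℤ) ^ (2 * (n + 1)) =
        (Nat.card {v : Fin (n + 1) → F // Cfsg.hermForm (n + 1) F q v v = 0} : ℤ) +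
        ((q : ℤ) - 1) * (Nat.card {v : Fin (n + 1) → F // Cfsg.hermForm (n + 1) F q v v = 1} : ℤ) := by
      have h1 : 1 ≤ q := by omega
      have := congrArg (Nat.cast : ℕ → ℤ) ht
      push_cast [Nat.cast_sub h1] at this
      exact this
    have hA : ((Nat.card {v : Fin (n + 1) → F // Cfsg.hermForm (n + 1) F q v v = 0} : ℕ) : ℤ) * q =
        (q : ℤ) ^ (2 * (n + 1)) + (-1) ^ (n + 1) * ((q : ℤ) ^ (n + 1 + 1) - (q : ℤ) ^ (n + 1)) := by
      rw [hr']
      have e1 : ((Nat.card {v : Fin n → F // Cfsg.hermForm n F q v v = 0} : ℤ) +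
          ((q : ℤ) ^ 2 - 1) * (Nat.card {v : Fin n → F // Cfsg.hermForm n F q v v = 1} : ℤ)) * q =
          (Nat.card {v : Fin n → F // Cfsg.hermForm n F q v v = 0} : ℤ) * q +
          ((q : ℤ) ^ 2 - 1) * ((Nat.card {v : Fin n → F // Cfsg.hermForm n F q v v = 1} : ℤ) * q) := by
        ring
      rw [e1, iha, ihb]
      ring
    refine ⟨hA, ?_⟩
    have hB : ((q : ℤ) - 1) * (((Nat.card {v : Fin (n + 1) → F // Cfsg.hermForm (n + 1) F q v v = 1} : ℕ) : ℤ) * q) =
        ((q : ℤ) - 1) * ((q : ℤ) ^ (n + 1) * ((q : ℤ) ^ (n + 1) - (-1) ^ (n + 1))) := by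
      have e2 : ((q : ℤ) - 1) * (((Nat.card {v : Fin (n + 1) → F // Cfsg.hermForm (n + 1) F q v v = 1} : ℕ) : ℤ) * q) =
          (q : ℤ) ^ (2 * (n + 1)) * q -
          ((Nat.card {v : Fin (n + 1) → F // Cfsg.hermForm (n + 1) F q v v = 0} : ℕ) : ℤ) * q := by
        rw [ht']; ring
      rw [e2, hA]
      ring
    exact mul_left_cancel₀ hq1 hB

end herm

end Cfsg.Agent.Helper7
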