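import Mathlib
import Cfsg.Agent.Helper7.PRegClass2
import Cfsg.Agent.Helper7.RelSylow
import Cfsg.Agent.Helper7.CoprimeAct

set_option autoImplicit false

universe u

namespace Cfsg.Agent.Helper7

/-- The join of two commuting commutative subgroups is commutative. -/
theorem sup_comm_of_comm {G : Type*} [Group G] (A B : Subgroup G)
    (hA : ∀ a ∈ A, ∀ a' ∈ A, a * a' = a' * a) (hB : ∀ b ∈ B, ∀ b' ∈ B, b * b' = b' * b)
    (hAB : ∀ a ∈ A, ∀ b ∈ B, a * b = b * a) :
    ∀ u ∈ A ⊔ B, ∀ v ∈ A ⊔ B, u * v = v * u := by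
  have h1 : A ⊔ B ≤ Subgroup.centralizer (A : Set G) ⊓ Subgroup.centralizer (B : Set G) := by
    apply sup_le
    · intro a ha
      refine Subgroup.mem_inf.2 ⟨?_, ?_⟩
      · rw [Subgroup.mem_centralizer_iff]
        intro a' ha'
        exact hA a' ha' a ha
      · rw [Subgroup.mem_centralizer_iff]
        intro b hb
        exact (hAB a ha b hb).symm
    · intro b hb
      refine Subgroup.mem_inf.2 ⟨?_, ?_⟩
      · rw [Subgroup.mem_centralizer_iff]
        intro a ha
        exact hAB a ha b hb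
      · rw [Subgroup.mem_centralizer_iff]
        intro b' hb'
        exact hB b' hb' b hb
  intro u hu v hv
  obtain ⟨huA, huB⟩ := Subgroup.mem_inf.1 (h1 hu)
  rw [Subgroup.mem_centralizer_iff] at huA huB
  have h2 : A ⊔ B ≤ Subgroup.centralizer ({u} : Set G) := by
    apply sup_le
    · intro a ha
      rw [Subgroup.mem_centralizer_singleton_iff]
      exact huA a ha
    · intro b hb
      rw [Subgroup.mem_centralizer_singleton_iff]
      exact huB b hb
  have h3 := h2 hv
  rw [Subgroup.mem_centralizer_singleton_iff] at h3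
  exact h3.symm

/-- A `p`-subgroup of a subgroup of index prime to `p` lies in a Sylow `p`-subgroup of the whole
group contained in that subgroup. -/
theorem exists_sylow_between {G : Type*} [Group G] [Finite G] {p : ℕ} [Fact p.Prime]
    (C : Subgroup G) (hC : ¬ p ∣ C.index) (X : Subgroup G) (hX : IsPGroup p X) (hXC : X ≤ C) :
    ∃ Q : Sylow p G, (Q : Subgroup G) ≤ C ∧ X ≤ Q := by
  have hpg : IsPGroup p (X.subgroupOf C) :=
    hX.comap_of_injective C.subtype C.subtype_injective
  obtain ⟨Q', hQ'⟩ := hpg.exists_le_sylow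
  have hQpg : IsPGroup p (Q'.1.map C.subtype) := Q'.isPGroup'.map _
  have hidx : ¬ p ∣ (Q'.1.map C.subtype).index := by
    rw [Subgroup.index_map_subtype]
    intro h
    rcases (Nat.Prime.dvd_mul (Fact.out : p.Prime)).1 h with h | h
    · exact Q'.not_dvd_index h
    · exact hC h
  refine ⟨hQpg.toSylow hidx, ?_, ?_⟩
  · intro x hx
    have hx' : x ∈ Q'.1.map C.subtype := hx
    obtain ⟨c, -, rfl⟩ := hx'
    exact c.2
  · intro x hx
    show x ∈ Q'.1.map C.subtype
    exact ⟨⟨x, hXC hx⟩, hQ' (Subgroup.mem_subgroupOf.2 hx), rfl⟩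

/-- Every `p`-element has class size prime to `p`. -/
def PClassCoprime (p : ℕ) (G : Type*) [Group G] : Prop :=
  ∀ x : G, (∃ k : ℕ, orderOf x = p ^ k) → ¬ p ∣ (Subgroup.centralizer ({x} : Set G)).index

theorem PClassCoprime.normal {p : ℕ} {G : Type*} [Group G] [Finite G]
    (h : PClassCoprime p G) (M : Subgroup G) [M.Normal] : PClassCoprime p M := by
  intro x hx
  have hxo : ∃ k : ℕ, orderOf (x : G) = p ^ k := by rwa [Subgroup.orderOf_coe]
  have hk := h x hxo
  have he : Subgroup.centralizer ({x} : Set M) =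
      (Subgroup.centralizer ({(x : G)} : Set G)).subgroupOf M := by
    ext c
    rw [Subgroup.mem_subgroupOf, Subgroup.mem_centralizer_singleton_iff,
      Subgroup.mem_centralizer_singleton_iff]
    constructor
    · intro hc
      have := congrArg Subtype.val hc
      simpa using this
    · intro hc
      exact Subtype.ext (by simpa using hc)
  have hd : (Subgroup.centralizer ({(x : G)} : Set G)).relIndex M ∣
      (Subgroup.centralizer ({(x : G)} : Set G)).index := by
    rw [← relIndex_sup_eq_relIndex_of_le_normalizer _ M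
      (by rw [Subgroup.normalizer_eq_top]; exact le_top)]
    exact Subgroup.relIndex_dvd_index_of_le le_sup_left
  rw [he]
  intro hd'
  exact hk (hd'.trans hd)

theorem PClassCoprime.quotient {p : ℕ} (hp : p.Prime) {G : Type*} [Group G] [Finite G]
    (h : PClassCoprime p G) (N : Subgroup G) [N.Normal] : PClassCoprime p (G ⧸ N) := by
  intro y hy
  obtain ⟨k, hk⟩ := hy
  obtain ⟨g, rfl⟩ := QuotientGroup.mk_surjective y
  obtain ⟨a, m, hpm, ho⟩ := Nat.exists_eq_pow_mul_and_not_dvd (orderOf_pos g).ne' p hp.ne_one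
  have hcop : Nat.Coprime m (orderOf (g : G ⧸ N)) := by
    rw [hk]
    exact (Nat.Coprime.pow_left k ((Nat.Prime.coprime_iff_not_dvd hp).2 hpm)).symm
  obtain ⟨j, hj⟩ := exists_pow_eq_self_of_coprime hcop
  have hxm : ((g ^ m) ^ j) ^ (p ^ a) = 1 := by
    rw [← pow_mul, ← pow_mul]
    have e1 : m * (j * p ^ a) = (p ^ a * m) * j := by ring
    rw [e1, ← ho, pow_mul, pow_orderOf_eq_one, one_pow]
  have hxo : ∃ k' : ℕ, orderOf ((g ^ m) ^ j) = p ^ k' := by
    obtain ⟨k', -, hk'⟩ := (Nat.dvd_prime_pow hp).1 (orderOf_dvd_of_pow_eq_one hxm)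
    exact ⟨k', hk'⟩
  have hxy : (((g ^ m) ^ j : G) : G ⧸ N) = (g : G ⧸ N) := by
    rw [QuotientGroup.mk_pow, QuotientGroup.mk_pow]
    exact hj
  have hk1 := h _ hxo
  rw [← hxy]
  set x := (g ^ m) ^ j
  have hle : (Subgroup.centralizer ({x} : Set G)).map (QuotientGroup.mk' N) ≤
      Subgroup.centralizer ({(x : G ⧸ N)} : Set (G ⧸ N)) := by
    rintro _ ⟨c, hc, rfl⟩
    have hc' : c ∈ Subgroup.centralizer ({x} : Set G) := hc
    rw [Subgroup.mem_centralizer_singleton_iff] at hc' ⊢
    show (c : G ⧸ N) * (x : G ⧸ N) = (x : G ⧸ N) * (c : G ⧸ N)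
    rw [← QuotientGroup.mk_mul, ← QuotientGroup.mk_mul, hc']
  have h1 := Subgroup.index_dvd_of_le hle
  have h2 := Subgroup.index_map_dvd (Subgroup.centralizer ({x} : Set G))
    (QuotientGroup.mk'_surjective N)
  intro hd
  exact hk1 (hd.trans (h1.trans h2))

/-- Reduction for abelian Sylow subgroups: if all `p`-elements have class size prime to `p` and
the Sylow `p`-subgroups of a normal subgroup `N` and of `G ⧸ N` are abelian, then so are those
of `G`. -/
theorem sylow_comm_of_normal_of_quotient {G : Type*} [Group G] [Finite G] (p : ℕ) [Fact p.Prime]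
    (h : PClassCoprime p G) (N : Subgroup G) [N.Normal]
    (hN : ∀ S : Sylow p N, ∀ a ∈ S, ∀ b ∈ S, a * b = b * a)
    (hQ : ∀ S : Sylow p (G ⧸ N), ∀ a ∈ S, ∀ b ∈ S, a * b = b * a)
    (P : Sylow p G) : ∀ x ∈ P, ∀ y ∈ P, x * y = y * x := by
  classical
  have hp : p.Prime := Fact.out
  -- `p`-subgroups of `N` of index prime to `p` in `N` are commutative
  have hcommN : ∀ R : Subgroup G, IsPGroup p R → R ≤ N → ¬ p ∣ R.relIndex N →
      ∀ a ∈ R, ∀ b ∈ R, a * b = b * a := by
    intro R hR hRN hidx a ha b hb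
    have hR' : IsPGroup p (R.subgroupOf N) :=
      hR.comap_of_injective N.subtype N.subtype_injective
    have hidx' : ¬ p ∣ (R.subgroupOf N).index := hidx
    have h1 := hN (hR'.toSylow hidx') ⟨a, hRN ha⟩
      (by rw [IsPGroup.mem_toSylow, Subgroup.mem_subgroupOf]; exact ha) ⟨b, hRN hb⟩
      (by rw [IsPGroup.mem_toSylow, Subgroup.mem_subgroupOf]; exact hb)
    exact congrArg Subtype.val h1
  have hidxN : ∀ S : Sylow p G, ¬ p ∣ ((S : Subgroup G) ⊓ N).relIndex N := by
    intro S hd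
    rw [Subgroup.inf_relIndex_right, ← relIndex_sup_eq_relIndex_of_le_normalizer (S : Subgroup G) N
      (by rw [Subgroup.normalizer_eq_top]; exact le_top)] at hd
    exact S.not_dvd_index (hd.trans (Subgroup.relIndex_dvd_index_of_le le_sup_left))
  have hpgN : ∀ S : Sylow p G, IsPGroup p ((S : Subgroup G) ⊓ N : Subgroup G) :=
    fun S => S.isPGroup'.to_le inf_le_left
  -- commutators of `P` lie in `N`
  have hPN : ∀ a ∈ P, ∀ b ∈ P, a * b * a⁻¹ * b⁻¹ ∈ (P : Subgroup G) ⊓ N := by
    intro a ha b hb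
    refine Subgroup.mem_inf.2 ⟨?_, ?_⟩
    · exact Subgroup.mul_mem _ (Subgroup.mul_mem _ (Subgroup.mul_mem _ ha hb)
        (Subgroup.inv_mem _ ha)) (Subgroup.inv_mem _ hb)
    · have hmap : IsPGroup p ((P : Subgroup G).map (QuotientGroup.mk' N)) := P.isPGroup'.map _
      obtain ⟨S, hS⟩ := hmap.exists_le_sylow
      have h1 := hQ S _ (hS (Subgroup.mem_map_of_mem _ ha)) _ (hS (Subgroup.mem_map_of_mem _ hb))
      rw [← QuotientGroup.eq_one_iff]
      have h2 : ((a * b * a⁻¹ * b⁻¹ : G) : G ⧸ N) =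
          (QuotientGroup.mk' N a) * (QuotientGroup.mk' N b) * (QuotientGroup.mk' N a)⁻¹ *
            (QuotientGroup.mk' N b)⁻¹ := by
        simp
      rw [h2, h1]
      group
  -- Step 1: `P` centralizes `P ⊓ N`
  have step1 : ∀ x ∈ P, ∀ u ∈ (P : Subgroup G) ⊓ N, x * u = u * x := by
    intro x hx u hu
    obtain ⟨k, hk⟩ := orderOf_eq_prime_pow_of_mem_sylow P x hx
    have hC := h x ⟨k, hk⟩
    obtain ⟨P₁, hP₁C, -⟩ := exists_sylow_le_of_not_dvd_index _ hC 1 (Subgroup.one_mem _) 0
      (by simp)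
    set R : Subgroup G := (P₁ : Subgroup G) ⊓ N with hR
    have hRx : ∀ r ∈ R, r * x = x * r := by
      intro r hr
      have := hP₁C (Subgroup.mem_inf.1 hr).1
      rwa [Subgroup.mem_centralizer_singleton_iff] at this
    have hRcomm := hcommN R (hpgN P₁) inf_le_right (hidxN P₁)
    have hZcomm : ∀ a ∈ Subgroup.zpowers x, ∀ b ∈ Subgroup.zpowers x, a * b = b * a := by
      intro a ha b hb
      obtain ⟨i, rfl⟩ := Subgroup.mem_zpowers_iff.1 ha
      obtain ⟨j, rfl⟩ := Subgroup.mem_zpowers_iff.1 hb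
      rw [← zpow_add, ← zpow_add, add_comm]
    have hRZ : ∀ r ∈ R, ∀ b ∈ Subgroup.zpowers x, r * b = b * r := by
      intro r hr b hb
      obtain ⟨j, rfl⟩ := Subgroup.mem_zpowers_iff.1 hb
      exact Commute.zpow_right (hRx r hr) j
    set S₁ : Subgroup G := R ⊔ Subgroup.zpowers x with hS₁
    have hS₁comm := sup_comm_of_comm R (Subgroup.zpowers x) hRcomm hZcomm hRZ
    have hZpg : IsPGroup p (Subgroup.zpowers x) := by
      rw [IsPGroup.iff_card, Nat.card_zpowers]
      exact ⟨k, hk⟩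
    have hS₁pg : IsPGroup p S₁ := by
      apply IsPGroup.to_sup_of_normal_left' (hpgN P₁) hZpg
      apply le_normalizer_of_forall_conj_mem
      intro z hz r hr
      have e1 : z * r * z⁻¹ = r := by
        rw [← hRZ r hr z hz, mul_inv_cancel_right]
      rw [e1]
      exact hr
    set T : Subgroup G := S₁ ⊔ N with hT
    have hidxT : ¬ p ∣ S₁.relIndex T := by
      rw [hT, relIndex_sup_eq_relIndex_of_le_normalizer S₁ N
        (by rw [Subgroup.normalizer_eq_top]; exact le_top), ← Subgroup.inf_relIndex_right]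
      intro hd
      have hle : R ≤ S₁ ⊓ N := le_inf le_sup_left inf_le_right
      exact hidxN P₁ (hd.trans (Subgroup.relIndex_dvd_of_le_left N hle))
    set Q : Subgroup G := ((P : Subgroup G) ⊓ N) ⊔ Subgroup.zpowers x with hQdef
    have hQP : Q ≤ (P : Subgroup G) := by
      apply sup_le inf_le_left
      rw [Subgroup.zpowers_le]
      exact hx
    have hQpg : IsPGroup p Q := P.isPGroup'.to_le hQP
    have hQT : Q ≤ T := by
      apply sup_le
      · exact le_trans inf_le_right le_sup_right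
      · exact le_trans le_sup_right le_sup_left
    obtain ⟨c, -, hc⟩ := exists_conj_le_of_not_dvd_relIndex T S₁ Q hS₁pg hidxT hQpg hQT
    have hxQ : x ∈ Q := (le_sup_right : Subgroup.zpowers x ≤ Q) (Subgroup.mem_zpowers x)
    have huQ : u ∈ Q := (le_sup_left : (P : Subgroup G) ⊓ N ≤ Q) hu
    have h1 := hS₁comm _ (hc x hxQ) _ (hc u huQ)
    have e1 : c * x * c⁻¹ * (c * u * c⁻¹) = c * (x * u) * c⁻¹ := by group
    have e2 : c * u * c⁻¹ * (c * x * c⁻¹) = c * (u * x) * c⁻¹ := by group
    rw [e1, e2] at h1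
    exact mul_left_cancel (mul_right_cancel h1)
  -- main argument
  intro x hx y hy
  obtain ⟨k, hk⟩ := orderOf_eq_prime_pow_of_mem_sylow P x hx
  have hC := h x ⟨k, hk⟩
  set PN : Subgroup G := (P : Subgroup G) ⊓ N with hPNdef
  have hPNC : PN ≤ Subgroup.centralizer ({x} : Set G) := by
    intro u hu
    rw [Subgroup.mem_centralizer_singleton_iff]
    exact (step1 x hx u hu).symm
  obtain ⟨P₂, hP₂C, hP₂⟩ := exists_sylow_between _ hC PN (hpgN P) hPNC
  -- `P₂ ⊓ N = PN`
  have hP₂N : (P₂ : Subgroup G) ⊓ N ≤ PN := by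
    have hle : PN ≤ (P₂ : Subgroup G) ⊓ N := le_inf hP₂ inf_le_right
    have h1 : PN.relIndex ((P₂ : Subgroup G) ⊓ N) * ((P₂ : Subgroup G) ⊓ N).relIndex N =
        PN.relIndex N := Subgroup.relIndex_mul_relIndex _ _ _ hle inf_le_right
    have h2 : PN.relIndex ((P₂ : Subgroup G) ⊓ N) ∣ Nat.card ((P₂ : Subgroup G) ⊓ N : Subgroup G) :=
      Subgroup.relIndex_dvd_card _ _
    obtain ⟨i, hi⟩ := IsPGroup.iff_card.1 (hpgN P₂)
    rw [hi] at h2
    obtain ⟨j, -, hj⟩ := (Nat.dvd_prime_pow hp).1 h2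
    have hj0 : j = 0 := by
      by_contra hne
      apply hidxN P
      rw [← h1, hj]
      exact Dvd.dvd.mul_right (dvd_pow_self p hne) _
    rw [hj0, pow_zero, Subgroup.relIndex_eq_one] at hj
    exact hj
  set M₀ : Subgroup G := Subgroup.normalizer (PN : Set G) with hM₀
  have hP₂M : (P₂ : Subgroup G) ≤ M₀ := by
    apply le_normalizer_of_forall_conj_mem
    intro g hg u hu
    apply hP₂N
    refine Subgroup.mem_inf.2 ⟨?_, ?_⟩
    · exact Subgroup.mul_mem _ (Subgroup.mul_mem _ hg (hP₂ hu)) (Subgroup.inv_mem _ hg)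
    · exact Subgroup.Normal.conj_mem inferInstance u (Subgroup.mem_inf.1 hu).2 g
  have hPM : (P : Subgroup G) ≤ M₀ := by
    apply le_normalizer_of_forall_conj_mem
    intro g hg u hu
    refine Subgroup.mem_inf.2 ⟨?_, ?_⟩
    · exact Subgroup.mul_mem _ (Subgroup.mul_mem _ hg (Subgroup.mem_inf.1 hu).1)
        (Subgroup.inv_mem _ hg)
    · exact Subgroup.Normal.conj_mem inferInstance u (Subgroup.mem_inf.1 hu).2 g
  haveI hnorm : (PN.subgroupOf M₀).Normal := Subgroup.normal_in_normalizer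
  have hxM : x ∈ M₀ := hPM hx
  -- class size of `x` in `M₀` is prime to `p`
  have hidx : ¬ p ∣ (Subgroup.centralizer ({(⟨x, hxM⟩ : M₀)} : Set M₀)).index := by
    have hle : (P₂ : Subgroup G).subgroupOf M₀ ≤
        Subgroup.centralizer ({(⟨x, hxM⟩ : M₀)} : Set M₀) := by
      intro c hc
      rw [Subgroup.mem_subgroupOf] at hc
      have := hP₂C hc
      rw [Subgroup.mem_centralizer_singleton_iff] at this ⊢
      exact Subtype.ext this
    intro hd
    have h1 := hd.trans (Subgroup.index_dvd_of_le hle)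
    have h2 : (P₂ : Subgroup G).relIndex M₀ * M₀.index = (P₂ : Subgroup G).index :=
      Subgroup.relIndex_mul_index hP₂M
    apply P₂.not_dvd_index
    rw [← h2]
    exact Dvd.dvd.mul_right h1 _
  have hcop : (Nat.card (PN.subgroupOf M₀)).Coprime
      (Subgroup.centralizer ({(⟨x, hxM⟩ : M₀)} : Set M₀)).index := by
    have hpg : IsPGroup p (PN.subgroupOf M₀) :=
      (hpgN P).comap_of_injective M₀.subtype M₀.subtype_injective
    obtain ⟨i, hi⟩ := IsPGroup.iff_card.1 hpg
    rw [hi]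
    exact Nat.Coprime.pow_left i ((Nat.Prime.coprime_iff_not_dvd hp).2 hidx)
  have hfinal := commute_of_index_coprime (PN.subgroupOf M₀) (⟨x, hxM⟩ : M₀)
    ((P : Subgroup G).subgroupOf M₀)
    (by
      intro c hc n hn
      rw [Subgroup.mem_subgroupOf] at hc hn
      exact Subtype.ext (step1 c hc n hn))
    (by
      intro c hc
      rw [Subgroup.mem_subgroupOf] at hc ⊢
      exact hPN x hx c hc)
    hcop ⟨y, hPM hy⟩ (by rw [Subgroup.mem_subgroupOf]; exact hy)
  exact congrArg Subtype.val hfinal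

end Cfsg.Agent.Helper7
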