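import Mathlib
import Cfsg.Prelude.Def_Transfer
import Cfsg.Agent.Helper7.CoprimeAct
import Cfsg.Agent.Helper7.OddNormCent
import Cfsg.Agent.Helper3.SchurZ
import Cfsg.Agent.Lead.Hall

set_option autoImplicit false

universe u

namespace Cfsg.Agent.Helper7

open Cfsg

/-- A `p`-subgroup `Q` normalizing a nontrivial `p`-subgroup `C` centralizes a nontrivial
element of `C`. -/
theorem exists_ne_one_fixed_of_pGroup {G : Type u} [Group G] [Finite G] (p : ℕ) [Fact p.Prime]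
    (Q C : Subgroup G) (hQ : IsPGroup p Q) (hC : IsPGroup p C)
    (hQC : Q ≤ Subgroup.normalizer (C : Set G)) (hne : C ≠ ⊥) :
    ∃ c ∈ C, c ≠ 1 ∧ ∀ q ∈ Q, q * c * q⁻¹ = c := by
  letI := conjMulDistribMulAction Q C hQC
  have hcard : p ∣ Nat.card C := by
    obtain ⟨k, hk⟩ := IsPGroup.iff_card.1 hC
    have hk0 : k ≠ 0 := by
      rintro rfl
      rw [pow_zero] at hk
      exact hne (Subgroup.card_eq_one.mp hk)
    rw [hk]
    exact dvd_pow_self p hk0
  have h1 : (1 : C) ∈ MulAction.fixedPoints Q C := by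
    intro g
    exact smul_one g
  obtain ⟨b, hb, hne'⟩ := hQ.exists_fixed_point_of_prime_dvd_card_of_fixed_point C hcard h1
  refine ⟨b.1, b.2, ?_, ?_⟩
  · intro h
    exact hne' (Subtype.ext h.symm)
  · intro q hq
    exact congrArg Subtype.val (hb ⟨q, hq⟩)

/-- The data of a normal `p`-complement of a subgroup `A`, expressed in the ambient group. -/
theorem hasNormalPComplement_data {G : Type u} [Group G] [Finite G] (p : ℕ) [Fact p.Prime]
    (A : Subgroup G) (h : HasNormalPComplement p A) :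
    ∃ K Q : Subgroup G, K ≤ A ∧ Q ≤ A ∧ (∀ a ∈ A, ∀ k ∈ K, a * k * a⁻¹ ∈ K) ∧ IsPGroup p Q ∧
      (Nat.card K).Coprime p ∧ (∀ a ∈ A, ∃ k ∈ K, ∃ q ∈ Q, a = k * q) ∧
      Nat.card K * Nat.card Q = Nat.card A := by
  obtain ⟨P, M, hMn, hMc⟩ := h
  have hp : p.Prime := Fact.out
  have h1 : Nat.card (M.map A.subtype) = Nat.card M :=
    Subgroup.card_map_of_injective A.subtype_injective
  have h1' : Nat.card ((P : Subgroup A).map A.subtype) = Nat.card (P : Subgroup A) :=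
    Subgroup.card_map_of_injective A.subtype_injective
  have h2 : Nat.card M * Nat.card (P : Subgroup A) = Nat.card A := hMc.card_mul_card
  refine ⟨M.map A.subtype, (P : Subgroup A).map A.subtype, Subgroup.map_subtype_le _,
    Subgroup.map_subtype_le _, ?_, P.2.map _, ?_, ?_, ?_⟩
  · intro a ha k hk
    obtain ⟨m, hm, rfl⟩ := Subgroup.mem_map.1 hk
    exact Subgroup.mem_map.2 ⟨⟨a, ha⟩ * m * ⟨a, ha⟩⁻¹, hMn.conj_mem m hm ⟨a, ha⟩, rfl⟩
  · have h3 := P.card_eq_multiplicity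
    have hpos : 0 < Nat.card A := Nat.card_pos
    have h4 : Nat.card M = Nat.card A / p ^ (Nat.card A).factorization p := by
      apply Nat.eq_div_of_mul_eq_left (pow_pos hp.pos _).ne'
      rw [← h3]
      exact h2
    rw [h1, h4]
    exact (Nat.coprime_ordCompl hp hpos.ne').symm
  · intro a ha
    obtain ⟨⟨m, q⟩, hmq, -⟩ := hMc.existsUnique ⟨a, ha⟩
    refine ⟨m.1.1, Subgroup.mem_map.2 ⟨m.1, m.2, rfl⟩, q.1.1,
      Subgroup.mem_map.2 ⟨q.1, q.2, rfl⟩, ?_⟩
    have := congrArg Subtype.val hmq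
    exact this.symm
  · rw [h1, h1']
    exact h2

/-- Two complements of a normal `p`-subgroup `N`, each having a normal `p`-complement, are
conjugate by an element of `N` as soon as one of them has no nontrivial fixed points on `N`. -/
theorem complement_conj_of_normal_pComplement {G : Type u} [Group G] [Finite G] {p : ℕ}
    [Fact p.Prime] (N : Subgroup G) [hNn : N.Normal] (hN : IsPGroup p N) (A A₁ : Subgroup G)
    (hA : A.IsComplement' N) (hA₁ : A₁.IsComplement' N)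
    (hAp : Cfsg.HasNormalPComplement p A) (hA₁p : Cfsg.HasNormalPComplement p A₁)
    (hC₁ : ∀ n : G, n ∈ N → (∀ a : G, a ∈ A₁ → a * n * a⁻¹ = n) → n = 1) :
    ∃ n : G, n ∈ N ∧ A₁ = A.map (MulAut.conj n).toMonoidHom := by
  have hp : p.Prime := Fact.out
  obtain ⟨K, Q, hKA, hQA, hKn, hQp, hKcop, hKQ, hKQcard⟩ := hasNormalPComplement_data p A hAp
  obtain ⟨K₁, Q₁, hK₁A, hQ₁A, hK₁n, hQ₁p, hK₁cop, hKQ₁, hKQ₁card⟩ :=
    hasNormalPComplement_data p A₁ hA₁p
  have hcA : Nat.card A * Nat.card N = Nat.card G := hA.card_mul_card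
  have hcA₁ : Nat.card A₁ * Nat.card N = Nat.card G := hA₁.card_mul_card
  have hNpos : 0 < Nat.card N := Nat.card_pos
  have hAA₁ : Nat.card A = Nat.card A₁ :=
    Nat.eq_of_mul_eq_mul_right hNpos (hcA.trans hcA₁.symm)
  obtain ⟨c, hc⟩ := IsPGroup.iff_card.1 hN
  obtain ⟨a, ha⟩ := IsPGroup.iff_card.1 hQp
  obtain ⟨b, hb⟩ := IsPGroup.iff_card.1 hQ₁p
  have hKK₁ : Nat.card K = Nat.card K₁ := by
    have e : Nat.card K * p ^ a = Nat.card K₁ * p ^ b := by
      rw [← ha, ← hb, hKQcard, hKQ₁card, hAA₁]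
    apply Nat.dvd_antisymm
    · have h1 : Nat.card K ∣ Nat.card K₁ * p ^ b := Dvd.intro _ e
      exact (Nat.Coprime.pow_right b hKcop).dvd_of_dvd_mul_right h1
    · have h1 : Nat.card K₁ ∣ Nat.card K * p ^ a := Dvd.intro _ e.symm
      exact (Nat.Coprime.pow_right a hK₁cop).dvd_of_dvd_mul_right h1
  have hcopNK : (Nat.card N).Coprime (Nat.card K) := by
    rw [hc]
    exact Nat.Coprime.pow_left c hKcop.symm
  have hNK : N ⊓ K = ⊥ := (Subgroup.disjoint_of_coprime_natCard hcopNK).eq_bot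
  have hNK₁ : N ⊓ K₁ = ⊥ := by
    apply (Subgroup.disjoint_of_coprime_natCard _).eq_bot
    rw [← hKK₁]
    exact hcopNK
  -- `N ⊔ K` is normal
  have hA_norm : A ≤ Subgroup.normalizer ((N ⊔ K : Subgroup G) : Set G) := by
    intro x hx
    apply mem_normalizer_of_forall_conj_mem
    intro y hy
    have h1 : x * y * x⁻¹ ∈ (N ⊔ K).map (MulAut.conj x).toMonoidHom :=
      Subgroup.mem_map.2 ⟨y, hy, rfl⟩
    rw [Subgroup.map_sup] at h1
    refine (sup_le ?_ ?_ : _ ≤ N ⊔ K) h1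
    · intro z hz
      obtain ⟨n, hn, rfl⟩ := Subgroup.mem_map.1 hz
      exact Subgroup.mem_sup_left (hNn.conj_mem n hn x)
    · intro z hz
      obtain ⟨k, hk, rfl⟩ := Subgroup.mem_map.1 hz
      exact Subgroup.mem_sup_right (hKn x hx k hk)
  haveI hNKn : (N ⊔ K).Normal := by
    rw [← Subgroup.normalizer_eq_top_iff, eq_top_iff]
    intro g _
    obtain ⟨⟨x, n⟩, hxn, -⟩ := hA.existsUnique g
    rw [← hxn]
    exact Subgroup.mul_mem _ (hA_norm x.2) (Subgroup.le_normalizer (Subgroup.mem_sup_left n.2))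
  have hcardNK : Nat.card (N ⊔ K : Subgroup G) = Nat.card K * Nat.card N := by
    rw [sup_comm]
    exact Lead.card_sup_of_inf_eq_bot K N (by rw [inf_comm]; exact hNK)
  have hcardNK₁ : Nat.card (N ⊔ K₁ : Subgroup G) = Nat.card K₁ * Nat.card N := by
    rw [sup_comm]
    exact Lead.card_sup_of_inf_eq_bot K₁ N (by rw [inf_comm]; exact hNK₁)
  have hindex : (N ⊔ K).index = Nat.card Q := by
    have h2 := Subgroup.card_mul_index (N ⊔ K)
    rw [hcardNK, ← hcA, ← hKQcard] at h2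
    have h3 : Nat.card K * Nat.card N * (N ⊔ K).index = Nat.card K * Nat.card N * Nat.card Q := by
      rw [h2]; ring
    have hKpos : 0 < Nat.card K := Nat.card_pos
    exact Nat.eq_of_mul_eq_mul_left (Nat.mul_pos hKpos hNpos) h3
  have hK₁le : K₁ ≤ N ⊔ K := by
    rw [← Subgroup.relIndex_eq_one]
    have h1 : (N ⊔ K).relIndex K₁ ∣ (N ⊔ K).index := Subgroup.relIndex_dvd_index_of_normal _ _
    have h2 : (N ⊔ K).relIndex K₁ ∣ Nat.card K₁ := Subgroup.relIndex_dvd_card _ _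
    rw [hindex, ha] at h1
    have h3 : (Nat.card K₁).Coprime (p ^ a) := Nat.Coprime.pow_right a hK₁cop
    exact (h3.coprime_dvd_left h2).eq_one_of_dvd h1
  have hsup : N ⊔ K = N ⊔ K₁ := by
    symm
    apply Subgroup.eq_of_le_of_card_ge (sup_le le_sup_left hK₁le)
    rw [hcardNK, hcardNK₁, hKK₁]
  obtain ⟨x, hxN, hx⟩ := Helper3.sz_conj_rel N K K₁
    (by rw [Subgroup.normalizer_eq_top]; exact le_top) hNK hNK₁ hsup hcopNK
    (Or.inl (by haveI := hN.isNilpotent; infer_instance))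
  refine ⟨x, hxN, ?_⟩
  -- `C_N(K₁) = 1`
  have hCbot : N ⊓ Subgroup.centralizer (K₁ : Set G) = ⊥ := by
    by_contra hne
    have hQ₁norm : Q₁ ≤ Subgroup.normalizer
        ((N ⊓ Subgroup.centralizer (K₁ : Set G) : Subgroup G) : Set G) := by
      apply le_normalizer_of_forall_conj_mem
      intro q hq y hy
      refine ⟨hNn.conj_mem y hy.1 q, ?_⟩
      show q * y * q⁻¹ ∈ Subgroup.centralizer (K₁ : Set G)
      rw [Subgroup.mem_centralizer_iff]
      intro k hk
      have h1 : q⁻¹ * k * q⁻¹⁻¹ ∈ K₁ := hK₁n q⁻¹ (A₁.inv_mem (hQ₁A hq)) k hk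
      have h2 := (Subgroup.mem_centralizer_iff.1 hy.2) _ h1
      calc k * (q * y * q⁻¹) = q * ((q⁻¹ * k * q⁻¹⁻¹) * y) * q⁻¹ := by group
        _ = q * (y * (q⁻¹ * k * q⁻¹⁻¹)) * q⁻¹ := by rw [h2]
        _ = q * y * q⁻¹ * k := by group
    obtain ⟨c', hc'C, hc'1, hc'⟩ := exists_ne_one_fixed_of_pGroup p Q₁ _ hQ₁p
      (hN.to_le inf_le_left) hQ₁norm hne
    apply hc'1
    apply hC₁ c' hc'C.1
    intro a' ha'
    obtain ⟨k, hk, q, hq, rfl⟩ := hKQ₁ a' ha'
    have h2 := (Subgroup.mem_centralizer_iff.1 hc'C.2) k hk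
    calc k * q * c' * (k * q)⁻¹ = k * (q * c' * q⁻¹) * k⁻¹ := by group
      _ = k * c' * k⁻¹ := by rw [hc' q hq]
      _ = c' * k * k⁻¹ := by rw [h2]
      _ = c' := by group
  have hNN : Subgroup.normalizer (K₁ : Set G) ⊓ N = ⊥ := by
    rw [eq_bot_iff]
    rintro n ⟨hn1, hn2⟩
    have hnC : n ∈ N ⊓ Subgroup.centralizer (K₁ : Set G) := by
      refine ⟨hn2, ?_⟩
      show n ∈ Subgroup.centralizer (K₁ : Set G)
      rw [Subgroup.mem_centralizer_iff]
      intro k hk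
      have h1 : n * k * n⁻¹ * k⁻¹ ∈ K₁ :=
        K₁.mul_mem ((Subgroup.mem_normalizer_iff.1 hn1 k).1 hk) (K₁.inv_mem hk)
      have h2 : n * k * n⁻¹ * k⁻¹ ∈ N := by
        have e : n * k * n⁻¹ * k⁻¹ = n * (k * n⁻¹ * k⁻¹) := by group
        rw [e]
        exact N.mul_mem hn2 (hNn.conj_mem _ (N.inv_mem hn2) k)
      have h3 : n * k * n⁻¹ * k⁻¹ ∈ N ⊓ K₁ := ⟨h2, h1⟩
      rw [hNK₁, Subgroup.mem_bot] at h3
      calc k * n = (n * k * n⁻¹ * k⁻¹)⁻¹ * (n * k) := by group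
        _ = n * k := by rw [h3, inv_one, one_mul]
    rw [hCbot] at hnC
    exact hnC
  have hA₁norm : A₁ ≤ Subgroup.normalizer (K₁ : Set G) :=
    le_normalizer_of_forall_conj_mem _ _ hK₁n
  have hA'norm : A.map (MulAut.conj x).toMonoidHom ≤ Subgroup.normalizer (K₁ : Set G) := by
    apply le_normalizer_of_forall_conj_mem
    intro y hy k hk
    obtain ⟨a', ha', rfl⟩ := Subgroup.mem_map.1 hy
    rw [← hx] at hk ⊢
    obtain ⟨k', hk', rfl⟩ := Subgroup.mem_map.1 hk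
    refine Subgroup.mem_map.2 ⟨a' * k' * a'⁻¹, hKn a' ha' k' hk', ?_⟩
    simp only [MulEquiv.coe_toMonoidHom, MulAut.conj_apply]
    group
  have hcardle : Nat.card (Subgroup.normalizer (K₁ : Set G)) ≤ Nat.card A₁ := by
    have h1 := Lead.card_sup_of_inf_eq_bot (Subgroup.normalizer (K₁ : Set G)) N hNN
    have h2 : Nat.card (Subgroup.normalizer (K₁ : Set G) ⊔ N : Subgroup G) ≤ Nat.card G :=
      Subgroup.card_le_card_group _
    rw [h1, ← hcA₁] at h2
    exact Nat.le_of_mul_le_mul_right h2 hNpos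
  have e1 : A₁ = Subgroup.normalizer (K₁ : Set G) :=
    Subgroup.eq_of_le_of_card_ge hA₁norm hcardle
  have e2 : A.map (MulAut.conj x).toMonoidHom = Subgroup.normalizer (K₁ : Set G) := by
    apply Subgroup.eq_of_le_of_card_ge hA'norm
    rw [Subgroup.card_map_of_injective (MulAut.conj x).injective, hAA₁]
    exact hcardle
  rw [e1, e2]

end Cfsg.Agent.Helper7
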