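import Mathlib
import Cfsg.Agent.Lead.PGroupFrattini

set_option autoImplicit false

namespace Cfsg.Agent.Helper7

universe u

/-- The Frattini quotient of a finite `p`-group as an `𝔽_p`-vector space, packaged. -/
theorem exists_frattini_module {G : Type u} [Group G] [Finite G] (p : ℕ) [Fact p.Prime]
    (hPG : IsPGroup p G) :
    ∃ (V : Type u) (_ : AddCommGroup V) (_ : Module (ZMod p) V) (_ : Finite V)
      (f : G →* Multiplicative V), Function.Surjective f ∧ f.ker = frattini G := by
  classical
  haveI : (frattini G).Normal := inferInstance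
  have hcomm : ∀ a b : G ⧸ frattini G, a * b = b * a := by
    intro a b
    induction a using QuotientGroup.induction_on with
    | H a =>
    induction b using QuotientGroup.induction_on with
    | H b =>
    rw [← QuotientGroup.mk_mul, ← QuotientGroup.mk_mul, QuotientGroup.eq]
    apply Cfsg.Agent.Lead.commutator_le_frattini_of_isPGroup p hPG
    have h : (a * b)⁻¹ * (b * a) = b⁻¹ * a⁻¹ * b⁻¹⁻¹ * a⁻¹⁻¹ := by
      simp [mul_assoc]
    rw [h]
    exact Subgroup.commutator_mem_commutator (H₁ := ⊤) (H₂ := ⊤) (g₁ := b⁻¹) (g₂ := a⁻¹)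
      (Subgroup.mem_top _) (Subgroup.mem_top _)
  letI cg : CommGroup (G ⧸ frattini G) :=
    { (inferInstance : Group (G ⧸ frattini G)) with
      mul_comm := hcomm }
  letI md : Module (ZMod p) (Additive (G ⧸ frattini G)) :=
    AddCommGroup.zmodModule (by
      intro x
      induction x using Additive.rec with
      | ofMul x =>
      induction x using QuotientGroup.induction_on with
      | H x =>
      rw [← ofMul_pow, ← QuotientGroup.mk_pow]
      have := Cfsg.Agent.Lead.pow_mem_frattini_of_isPGroup p hPG x
      rw [(QuotientGroup.eq_one_iff _).mpr this]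
      rfl)
  let f : G →* Multiplicative (Additive (G ⧸ frattini G)) :=
    { toFun := fun x => Multiplicative.ofAdd (Additive.ofMul (QuotientGroup.mk x))
      map_one' := rfl
      map_mul' := fun _ _ => rfl }
  have hf : Function.Surjective f := by
    intro y
    obtain ⟨x, hx⟩ := QuotientGroup.mk_surjective (Additive.toMul (Multiplicative.toAdd y))
    exact ⟨x, by show Multiplicative.ofAdd (Additive.ofMul (QuotientGroup.mk x)) = y; rw [hx]; rfl⟩
  have hker : f.ker = frattini G := by
    ext x
    rw [MonoidHom.mem_ker]
    show (QuotientGroup.mk x : G ⧸ frattini G) = 1 ↔ _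
    exact QuotientGroup.eq_one_iff x
  exact ⟨Additive (G ⧸ frattini G), inferInstance, md, inferInstance, f, hf, hker⟩

section span

variable {P V : Type*} [Group P] [Finite P] [AddCommGroup V] (p : ℕ) [Fact p.Prime]
  [Module (ZMod p) V]

theorem span_eq_top_of_closure_eq_top (f : P →* Multiplicative V) (hf : Function.Surjective f)
    (T : Set P) (hT : Subgroup.closure T = ⊤) :
    Submodule.span (ZMod p) ((fun x => Multiplicative.toAdd (f x)) '' T) = ⊤ := by
  rw [eq_top_iff]
  intro v _
  set W := Submodule.span (ZMod p) ((fun x => Multiplicative.toAdd (f x)) '' T) with hW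
  let H' : Subgroup P := (AddSubgroup.toSubgroup W.toAddSubgroup).comap f
  have h1 : Subgroup.closure T ≤ H' := by
    rw [Subgroup.closure_le]
    intro x hx
    show f x ∈ AddSubgroup.toSubgroup W.toAddSubgroup
    have : Multiplicative.toAdd (f x) ∈ W := Submodule.subset_span ⟨x, hx, rfl⟩
    exact this
  rw [hT] at h1
  obtain ⟨x, hx⟩ := hf (Multiplicative.ofAdd v)
  have h2 : x ∈ H' := h1 (Subgroup.mem_top x)
  have h3 : f x ∈ AddSubgroup.toSubgroup W.toAddSubgroup := h2
  rw [hx] at h3
  exact h3

theorem closure_eq_top_of_span_eq_top (f : P →* Multiplicative V)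
    (hker : f.ker ≤ frattini P) (T : Set P)
    (hspan : Submodule.span (ZMod p) ((fun x => Multiplicative.toAdd (f x)) '' T) = ⊤) :
    Subgroup.closure T = ⊤ := by
  apply frattini_nongenerating
  rw [eq_top_iff]
  refine le_trans ?_ (sup_le_sup_left hker _)
  rw [← Subgroup.comap_map_eq]
  intro x _
  rw [Subgroup.mem_comap]
  set K := Subgroup.map f (Subgroup.closure T) with hK
  let W' : Submodule (ZMod p) V := AddSubgroup.toZModSubmodule p (AddSubgroup.toSubgroup.symm K)
  have h1 : Submodule.span (ZMod p) ((fun x => Multiplicative.toAdd (f x)) '' T) ≤ W' := by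
    rw [Submodule.span_le]
    rintro _ ⟨y, hy, rfl⟩
    show f y ∈ K
    exact Subgroup.mem_map_of_mem _ (Subgroup.subset_closure hy)
  rw [hspan] at h1
  have h2 : Multiplicative.toAdd (f x) ∈ W' := h1 Submodule.mem_top
  exact h2

theorem finrank_of_frattini_index [Finite V] (f : P →* Multiplicative V)
    (hf : Function.Surjective f) {n : ℕ} (hn : f.ker.index = p ^ n) :
    Module.finrank (ZMod p) V = n := by
  have hp : p.Prime := Fact.out
  have hcardV : Nat.card V = p ^ n := by
    rw [← hn, Subgroup.index_ker, MonoidHom.range_eq_top.mpr hf, Subgroup.card_top]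
    rfl
  haveI : Fintype V := Fintype.ofFinite _
  have h := Module.card_eq_pow_finrank (K := ZMod p) (V := V)
  rw [ZMod.card, ← Nat.card_eq_fintype_card, hcardV] at h
  exact (Nat.pow_right_injective hp.two_le h).symm

end span

end Cfsg.Agent.Helper7
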