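import Mathlib
import Cfsg.Agent.S0023
import Cfsg.Agent.Helper7.FrattiniQuot

set_option autoImplicit false

namespace Cfsg.Agent.Helper7

/-- Coprime external action: there is an invariant Sylow `p`-subgroup. -/
theorem exists_invariant_sylow_ext {A G : Type*} [Group A] [Finite A] [Group G] [Finite G]
    [MulDistribMulAction A G] (hcop : (Nat.card A).Coprime (Nat.card G))
    (hsol : Group.IsSolvable A ∨ Group.IsSolvable G) (p : ℕ) [Fact p.Prime] :
    ∃ P : Sylow p G, ∀ a : A, ∀ x ∈ (P : Subgroup G), a • x ∈ (P : Subgroup G) := by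
  classical
  let φ : A →* MulAut G := MulDistribMulAction.toMulAut A G
  haveI : Finite (G ⋊[φ] A) := Finite.of_equiv (G × A) SemidirectProduct.equivProd.symm
  let il : G →* G ⋊[φ] A := SemidirectProduct.inl
  let ir : A →* G ⋊[φ] A := SemidirectProduct.inr
  have hil : Function.Injective il := SemidirectProduct.inl_injective
  have hir : Function.Injective ir := SemidirectProduct.inr_injective
  have hKn : (il.range).Normal := by
    have : il.range = (SemidirectProduct.rightHom : G ⋊[φ] A →* A).ker :=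
      SemidirectProduct.range_inl_eq_ker_rightHom
    rw [this]; infer_instance
  have hcK : Nat.card il.range = Nat.card G :=
    (Nat.card_congr (MonoidHom.ofInjective hil).toEquiv).symm
  have hcA : Nat.card ir.range = Nat.card A :=
    (Nat.card_congr (MonoidHom.ofInjective hir).toEquiv).symm
  have hAK : ir.range ≤ Subgroup.normalizer (il.range : Set (G ⋊[φ] A)) := by
    rw [Subgroup.normalizer_eq_top]; exact le_top
  have hsol' : Group.IsSolvable ir.range ∨ Group.IsSolvable il.range := by
    rcases hsol with h | h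
    · left
      exact Group.isSolvable_of_surjective (f := ir.rangeRestrict) ir.rangeRestrict_surjective
    · right
      exact Group.isSolvable_of_surjective (f := il.rangeRestrict) il.rangeRestrict_surjective
  obtain ⟨P, hP⟩ := Cfsg.Agent.S0023.result ir.range il.range hAK (by rw [hcK, hcA]; exact hcop)
    hsol' p
  set P' : Subgroup (G ⋊[φ] A) := (P : Subgroup il.range).map il.range.subtype with hP'
  have hP'le : P' ≤ il.range := by
    rintro _ ⟨y, -, rfl⟩
    exact y.2
  have hcP' : Nat.card P' = p ^ (Nat.card G).factorization p := by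
    rw [hP', Subgroup.card_map_of_injective (Subgroup.subtype_injective _), P.card_eq_multiplicity,
      hcK]
  have hcQ : Nat.card (P'.comap il) = p ^ (Nat.card G).factorization p := by
    rw [← hcP', ← Subgroup.card_map_of_injective hil, Subgroup.map_comap_eq_self hP'le]
  refine ⟨Sylow.ofCard (P'.comap il) hcQ, ?_⟩
  intro a x hx
  have hx' : il x ∈ P' := hx
  have hn : ir a ∈ Subgroup.normalizer (P' : Set (G ⋊[φ] A)) := hP ⟨a, rfl⟩
  have h1 := (Subgroup.mem_normalizer_iff.mp hn (il x)).mp hx'
  have h2 : il (a • x) = ir a * il x * (ir a)⁻¹ := by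
    have := SemidirectProduct.inl_aut (φ := φ) a x
    rw [← map_inv ir a]
    exact this
  show il (a • x) ∈ P'
  rw [h2]; exact h1

/-- Maschke's theorem for a representation, in terms of invariant submodules. -/
theorem rep_exists_compl {k A V : Type*} [Field k] [Group A] [Finite A] [AddCommGroup V]
    [Module k V] (hne : (Nat.card A : k) ≠ 0) (ρ : Representation k A V) (W : Submodule k V)
    (hW : ∀ a, ∀ v ∈ W, ρ a v ∈ W) :
    ∃ W' : Submodule k V, (∀ a, ∀ v ∈ W', ρ a v ∈ W') ∧ W ⊓ W' = ⊥ ∧ W ⊔ W' = ⊤ := by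
  haveI : NeZero (Nat.card A : k) := ⟨hne⟩
  let σ : Subrepresentation ρ := ⟨W, fun g v hv => hW g v hv⟩
  obtain ⟨σ', hσ'⟩ := exists_isCompl σ
  refine ⟨σ'.toSubmodule, fun a v hv => σ'.apply_mem_toSubmodule a hv, ?_, ?_⟩
  · have := congrArg Subrepresentation.toSubmodule hσ'.inf_eq_bot
    exact this
  · have := congrArg Subrepresentation.toSubmodule hσ'.sup_eq_top
    exact this

/-- the Frattini subgroup is invariant under any action by automorphisms. -/
theorem frattini_smul_mem {A G : Type*} [Group A] [Group G] [MulDistribMulAction A G]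
    (a : A) (x : G) (hx : x ∈ frattini G) : a • x ∈ frattini G := by
  have h := Subgroup.characteristic_iff_map_eq.mp (frattini_characteristic (G := G))
    (MulDistribMulAction.toMulAut A G a)
  rw [← h]
  exact ⟨x, hx, rfl⟩

/-- Maschke for the Frattini quotient of a `p`-group under a `p'`-group of operators. -/
theorem exists_invariant_compl_frattini {A G : Type*} [Group A] [Finite A] [Group G] [Finite G]
    [MulDistribMulAction A G] (p : ℕ) [Fact p.Prime] (hG : IsPGroup p G)
    (hA : ¬ p ∣ Nat.card A) (L : Subgroup G)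
    (hL : ∀ a : A, ∀ x ∈ L, a • x ∈ L) :
    ∃ L' : Subgroup G, frattini G ≤ L' ∧ (∀ a : A, ∀ x ∈ L', a • x ∈ L') ∧
      L ⊓ L' ≤ frattini G ∧ L ⊔ L' = ⊤ := by
  classical
  obtain ⟨V, i1, i2, i3, f, hf, hker⟩ := exists_frattini_module p hG
  -- the induced maps
  have hkerle : ∀ a : A, f.ker ≤ (f.comp (MulDistribMulAction.toMulAut A G a).toMonoidHom).ker := by
    intro a x hx
    rw [MonoidHom.mem_ker]
    have h1 : a • x ∈ f.ker := by
      rw [hker] at hx ⊢
      exact frattini_smul_mem a x hx
    exact MonoidHom.mem_ker.mp h1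
  let ψ : A → (Multiplicative V →* Multiplicative V) := fun a =>
    f.liftOfSurjective hf ⟨f.comp (MulDistribMulAction.toMulAut A G a).toMonoidHom, hkerle a⟩
  have hψ : ∀ a x, ψ a (f x) = f (a • x) := by
    intro a x
    exact MonoidHom.liftOfRightInverse_comp_apply f _ _ _ x
  let L0 : A → (V →ₗ[ZMod p] V) := fun a =>
    (AddMonoidHom.toMultiplicative.symm (ψ a)).toZModLinearMap p
  have hL0 : ∀ a x, L0 a (Multiplicative.toAdd (f x)) = Multiplicative.toAdd (f (a • x)) := by
    intro a x
    show Multiplicative.toAdd (ψ a (Multiplicative.ofAdd (Multiplicative.toAdd (f x)))) = _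
    rw [ofAdd_toAdd, hψ]
  have hsurj : ∀ v : V, ∃ x, Multiplicative.toAdd (f x) = v := fun v => by
    obtain ⟨x, hx⟩ := hf (Multiplicative.ofAdd v)
    exact ⟨x, by rw [hx]; rfl⟩
  let ρ : Representation (ZMod p) A V :=
    { toFun := L0
      map_one' := by
        apply LinearMap.ext
        intro v
        obtain ⟨x, rfl⟩ := hsurj v
        rw [hL0, one_smul]; rfl
      map_mul' := by
        intro a b
        apply LinearMap.ext
        intro v
        obtain ⟨x, rfl⟩ := hsurj v
        rw [Module.End.mul_apply, hL0, hL0, hL0, mul_smul] }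
  have hρ : ∀ a x, ρ a (Multiplicative.toAdd (f x)) = Multiplicative.toAdd (f (a • x)) := hL0
  let W : Submodule (ZMod p) V :=
    AddSubgroup.toZModSubmodule p (AddSubgroup.toSubgroup.symm (L.map f))
  have hWmem : ∀ v : V, v ∈ W ↔ ∃ x ∈ L, Multiplicative.toAdd (f x) = v := by
    intro v
    show Multiplicative.ofAdd v ∈ L.map f ↔ _
    rw [Subgroup.mem_map]
    constructor
    · rintro ⟨x, hx, hxv⟩
      exact ⟨x, hx, by rw [hxv]; rfl⟩
    · rintro ⟨x, hx, rfl⟩
      exact ⟨x, hx, rfl⟩
  have hWinv : ∀ a, ∀ v ∈ W, ρ a v ∈ W := by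
    intro a v hv
    obtain ⟨x, hx, rfl⟩ := (hWmem v).mp hv
    rw [hρ]
    exact (hWmem _).mpr ⟨a • x, hL a x hx, rfl⟩
  have hne : (Nat.card A : ZMod p) ≠ 0 := by
    intro h0
    exact hA ((ZMod.natCast_eq_zero_iff _ _).mp h0)
  obtain ⟨W', hW'inv, hinf, hsup⟩ := rep_exists_compl hne ρ W hWinv
  let L' : Subgroup G := (AddSubgroup.toSubgroup W'.toAddSubgroup).comap f
  have hL'mem : ∀ x : G, x ∈ L' ↔ Multiplicative.toAdd (f x) ∈ W' := fun x => Iff.rfl
  have hfrL' : frattini G ≤ L' := by
    intro x hx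
    rw [hL'mem]
    rw [← hker] at hx
    rw [MonoidHom.mem_ker.mp hx]
    exact W'.zero_mem
  refine ⟨L', hfrL', ?_, ?_, ?_⟩
  · intro a x hx
    rw [hL'mem] at hx ⊢
    rw [← hρ]
    exact hW'inv a _ hx
  · rintro x ⟨hxL, hxL'⟩
    have h1 : Multiplicative.toAdd (f x) ∈ W ⊓ W' :=
      ⟨(hWmem _).mpr ⟨x, hxL, rfl⟩, (hL'mem x).mp hxL'⟩
    rw [hinf, Submodule.mem_bot] at h1
    rw [← hker, MonoidHom.mem_ker]
    exact h1
  · rw [eq_top_iff]
    intro x _
    have h1 : Multiplicative.toAdd (f x) ∈ W ⊔ W' := by rw [hsup]; trivial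
    obtain ⟨w, hw, w', hw', hww⟩ := Submodule.mem_sup.mp h1
    obtain ⟨y, hy, rfl⟩ := (hWmem w).mp hw
    obtain ⟨y', rfl⟩ := hsurj w'
    have hy' : y' ∈ L' := (hL'mem y').mpr hw'
    have hz : (y * y')⁻¹ * x ∈ f.ker := by
      rw [MonoidHom.mem_ker, map_mul, map_inv, map_mul]
      have h2 : f x = f y * f y' := by
        have : Multiplicative.toAdd (f x) = Multiplicative.toAdd (f y * f y') := by
          rw [toAdd_mul]; exact hww.symm
        exact this
      rw [h2]; simp
    rw [hker] at hz
    have hx : x = y * (y' * ((y * y')⁻¹ * x)) := by group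
    rw [hx]
    exact Subgroup.mul_mem_sup hy (L'.mul_mem hy' (hfrL' hz))

end Cfsg.Agent.Helper7
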