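import Mathlib
import Cfsg.Agent.Helper7.FrobFpf

set_option autoImplicit false

namespace Cfsg.Agent.Helper7

open Cfsg

/-- A fixed-point-free action of a nontrivial finite group `Q` on a nontrivial finite group `A`
gives a Frobenius group with complement `Q` and kernel of order `|A|`. -/
theorem frobenius_of_fpf_action {A Q : Type} [Group A] [Group Q] [Finite A] [Finite Q]
    (ρ : Q →* MulAut A) (hA : Nontrivial A) (hQ : Nontrivial Q)
    (hfpf : ∀ q : Q, q ≠ 1 → ∀ a : A, ρ q a = a → a = 1) :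
    ∃ (L : Type) (_ : Group L) (_ : Finite L) (H : Subgroup L), Cfsg.IsFrobeniusComplement H ∧
      Nonempty (H ≃* Q) ∧ Nat.card (Cfsg.frobeniusKernel H) = Nat.card A := by
  haveI : Finite (A ⋊[ρ] Q) := Finite.of_equiv _ SemidirectProduct.equivProd.symm
  let N : Subgroup (A ⋊[ρ] Q) := (SemidirectProduct.inl : A →* A ⋊[ρ] Q).range
  let H0 : Subgroup (A ⋊[ρ] Q) := (SemidirectProduct.inr : Q →* A ⋊[ρ] Q).range
  haveI hNn : N.Normal := by
    show ((SemidirectProduct.inl : A →* A ⋊[ρ] Q).range).Normal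
    rw [SemidirectProduct.range_inl_eq_ker_rightHom]; infer_instance
  have hN1 : N ≠ ⊥ := by
    obtain ⟨a, ha⟩ := exists_ne (1 : A)
    intro h
    have h1 : (SemidirectProduct.inl a : A ⋊[ρ] Q) ∈ N := ⟨a, rfl⟩
    rw [h, Subgroup.mem_bot] at h1
    exact ha (SemidirectProduct.inl_injective (h1.trans (map_one _).symm))
  have hH1 : H0 ≠ ⊥ := by
    obtain ⟨q, hq⟩ := exists_ne (1 : Q)
    intro h
    have h1 : (SemidirectProduct.inr q : A ⋊[ρ] Q) ∈ H0 := ⟨q, rfl⟩
    rw [h, Subgroup.mem_bot] at h1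
    exact hq (SemidirectProduct.inr_injective (h1.trans (map_one _).symm))
  have hNH : N ⊓ H0 = ⊥ := by
    rw [eq_bot_iff]
    rintro x ⟨⟨a, rfl⟩, ⟨q, hq⟩⟩
    rw [Subgroup.mem_bot]
    have h1 : q = 1 := by
      have h2 := congrArg SemidirectProduct.right hq
      simpa using h2
    rw [h1, map_one] at hq
    exact hq.symm
  have hfpf' : ∀ h ∈ H0, h ≠ 1 → ∀ n ∈ N, n * h = h * n → n = 1 := by
    rintro _ ⟨q, rfl⟩ hq1 _ ⟨a, rfl⟩ hcomm
    have hq : q ≠ 1 := fun h => hq1 (by rw [h, map_one])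
    have h1 := congrArg SemidirectProduct.left hcomm
    simp only [SemidirectProduct.mul_left, SemidirectProduct.left_inl, SemidirectProduct.right_inl,
      SemidirectProduct.left_inr, SemidirectProduct.right_inr, map_one, MulAut.one_apply, mul_one,
      one_mul] at h1
    rw [hfpf q hq a h1.symm, map_one]
  obtain ⟨hF, hker⟩ := frobenius_of_fpf N H0 hN1 hH1 hNH hfpf'
  refine ⟨↥(N ⊔ H0), inferInstance, inferInstance, H0.subgroupOf (N ⊔ H0), hF, ⟨?_⟩, ?_⟩
  · exact (Subgroup.subgroupOfEquivOfLe le_sup_right).trans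
      (MonoidHom.ofInjective SemidirectProduct.inr_injective).symm
  · rw [hker]
    have h1 : Nat.card (N.subgroupOf (N ⊔ H0)) = Nat.card N :=
      Nat.card_congr (Subgroup.subgroupOfEquivOfLe le_sup_left).toEquiv
    have h2 : Nat.card N = Nat.card A :=
      Nat.card_congr (MonoidHom.ofInjective SemidirectProduct.inl_injective).symm.toEquiv
    exact h1.trans h2

section QuatLift

variable {M : Type*} [Group M] (n : ℕ) (x y : M)

/-- `x ^ i` for `i : ZMod (2n)`. -/
def zp (i : ZMod (2 * n)) : M := x ^ i.val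


theorem zp_add [NeZero n] (hx : x ^ (2 * n) = 1) (i j : ZMod (2 * n)) :
    zp n x (i + j) = zp n x i * zp n x j := by
  unfold zp
  rw [ZMod.val_add, ← pow_eq_pow_mod _ hx, pow_add]

theorem zp_zero [NeZero n] : zp n x 0 = 1 := by
  unfold zp
  rw [ZMod.val_zero, pow_zero]

theorem zp_neg [NeZero n] (hx : x ^ (2 * n) = 1) (i : ZMod (2 * n)) : zp n x (-i) = (zp n x i)⁻¹ := by
  rw [eq_inv_iff_mul_eq_one, ← zp_add n x hx, neg_add_cancel, zp_zero]

theorem zp_sub [NeZero n] (hx : x ^ (2 * n) = 1) (i j : ZMod (2 * n)) :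
    zp n x (i - j) = zp n x i * (zp n x j)⁻¹ := by
  rw [sub_eq_add_neg, zp_add n x hx, zp_neg n x hx]

theorem zp_n [NeZero n] (hx : x ^ (2 * n) = 1) : zp n x (n : ZMod (2 * n)) = x ^ n := by
  unfold zp
  rw [ZMod.val_natCast, ← pow_eq_pow_mod _ hx]

theorem zp_conj (hxy : y * x * y⁻¹ = x⁻¹) (i : ZMod (2 * n)) :
    y * zp n x i = (zp n x i)⁻¹ * y := by
  unfold zp
  have h1 : y * x ^ i.val * y⁻¹ = (x ^ i.val)⁻¹ := by
    rw [← conj_pow, hxy, inv_pow]
  rw [← h1]; group

theorem zp_conj' (hxy : y * x * y⁻¹ = x⁻¹) (i : ZMod (2 * n)) :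
    zp n x i * y = y * (zp n x i)⁻¹ := by
  have h1 := zp_conj n x y hxy i
  have h2 : y * (zp n x i)⁻¹ = (zp n x i)⁻¹⁻¹ * (y * zp n x i) * (zp n x i)⁻¹ := by
    rw [h1]; group
  rw [h2]; group

/-- The homomorphism from the dicyclic group determined by `x`, `y` with `x^(2n) = 1`,
`y² = xⁿ`, `y x y⁻¹ = x⁻¹`. -/
def quatLift [NeZero n] (hx : x ^ (2 * n) = 1) (hy : y * y = x ^ n) (hxy : y * x * y⁻¹ = x⁻¹) :
    QuaternionGroup n →* M where
  toFun q := match q with
    | QuaternionGroup.a i => zp n x i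
    | QuaternionGroup.xa i => y * zp n x i
  map_one' := zp_zero n x
  map_mul' := by
    rintro (i | i) (j | j)
    · show zp n x (i + j) = zp n x i * zp n x j
      exact zp_add n x hx i j
    · show y * zp n x (j - i) = zp n x i * (y * zp n x j)
      rw [sub_eq_neg_add, zp_add n x hx, zp_neg n x hx, ← mul_assoc (zp n x i),
        zp_conj' n x y hxy, mul_assoc]
    · show y * zp n x (i + j) = y * zp n x i * zp n x j
      rw [zp_add n x hx, mul_assoc]
    · show zp n x ((n : ZMod (2 * n)) + j - i) = y * zp n x i * (y * zp n x j)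
      rw [add_sub_assoc, sub_eq_neg_add, zp_add n x hx, zp_add n x hx, zp_neg n x hx,
        zp_n n x hx, ← hy, mul_assoc y (zp n x i), ← mul_assoc (zp n x i),
        zp_conj' n x y hxy]
      group

theorem quatLift_a [NeZero n] (hx : x ^ (2 * n) = 1) (hy : y * y = x ^ n) (hxy : y * x * y⁻¹ = x⁻¹)
    (i : ZMod (2 * n)) : quatLift n x y hx hy hxy (QuaternionGroup.a i) = x ^ i.val := rfl

theorem quatLift_xa [NeZero n] (hx : x ^ (2 * n) = 1) (hy : y * y = x ^ n) (hxy : y * x * y⁻¹ = x⁻¹)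
    (i : ZMod (2 * n)) : quatLift n x y hx hy hxy (QuaternionGroup.xa i) = y * x ^ i.val := rfl

end QuatLift

end Cfsg.Agent.Helper7
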