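import Mathlib
import Cfsg.Agent.Helper7.FrobConstruct
import Cfsg.Agent.Helper3.Signalizer2
import Cfsg.Agent.Lead.Hall
import Cfsg.Agent.S0016

set_option autoImplicit false

namespace Cfsg.Agent.Helper7

universe u

/-- Subgroups of equal order are isomorphic. -/
def IsoProp (T : Type u) [Group T] : Prop :=
  ∀ H K : Subgroup T, Nat.card H = Nat.card K → Nonempty (H ≃* K)

theorem IsoProp.comm {T : Type u} [Group T] (h : IsoProp T) {H K : Subgroup T}
    (hc : Nat.card H = Nat.card K) (hH : ∀ x ∈ H, ∀ y ∈ H, x * y = y * x) :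
    ∀ x ∈ K, ∀ y ∈ K, x * y = y * x := by
  obtain ⟨e⟩ := h K H hc.symm
  intro x hx y hy
  have h1 := hH (e ⟨x, hx⟩) (e ⟨x, hx⟩).2 (e ⟨y, hy⟩) (e ⟨y, hy⟩).2
  have h2 : e (⟨x, hx⟩ * ⟨y, hy⟩) = e (⟨y, hy⟩ * ⟨x, hx⟩) := by
    rw [map_mul, map_mul]
    exact Subtype.ext h1
  exact congrArg Subtype.val (e.injective h2)

theorem IsoProp.pow {T : Type u} [Group T] (h : IsoProp T) {H K : Subgroup T}
    (hc : Nat.card H = Nat.card K) (n : ℕ) (hH : ∀ x ∈ H, x ^ n = 1) :
    ∀ x ∈ K, x ^ n = 1 := by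
  obtain ⟨e⟩ := h K H hc.symm
  intro x hx
  have h1 := hH (e ⟨x, hx⟩) (e ⟨x, hx⟩).2
  have h2 : e (⟨x, hx⟩ ^ n) = 1 := by
    rw [map_pow]
    exact Subtype.ext h1
  have h3 := e.injective (h2.trans (map_one e).symm)
  exact congrArg Subtype.val h3

/-- A set of pairwise commuting elements generates a commutative subgroup. -/
theorem closure_comm {G : Type u} [Group G] (S : Set G)
    (hS : ∀ x ∈ S, ∀ y ∈ S, x * y = y * x) :
    ∀ x ∈ Subgroup.closure S, ∀ y ∈ Subgroup.closure S, x * y = y * x := by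
  have h1 : Subgroup.closure S ≤ Subgroup.centralizer S := by
    rw [Subgroup.closure_le]
    intro x hx
    rw [SetLike.mem_coe, Subgroup.mem_centralizer_iff]
    intro y hy
    exact hS y hy x hx
  have h2 : Subgroup.closure S ≤ Subgroup.centralizer (Subgroup.closure S : Set G) := by
    rw [Subgroup.closure_le]
    intro x hx
    rw [SetLike.mem_coe, Subgroup.mem_centralizer_iff]
    intro y hy
    exact (Subgroup.mem_centralizer_iff.1 (h1 hy) x hx).symm
  intro x hx y hy
  exact Subgroup.mem_centralizer_iff.1 (h2 hy) x hx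

/-- Strict inclusion of subgroups of a `p`-group multiplies the order by at least `p`. -/
theorem pgroup_card_lt {T : Type u} [Group T] [Finite T] {p : ℕ} [Fact p.Prime]
    (hT : IsPGroup p T) {H K : Subgroup T} (h : H < K) : p * Nat.card H ≤ Nat.card K := by
  obtain ⟨j, hj⟩ := IsPGroup.iff_card.1 (hT.to_subgroup H)
  obtain ⟨i, hi⟩ := IsPGroup.iff_card.1 (hT.to_subgroup K)
  have hp : p.Prime := Fact.out
  have hd : Nat.card H ∣ Nat.card K := Subgroup.card_dvd_of_le h.le
  rw [hj, hi] at hd ⊢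
  have hji : j ≤ i := (Nat.pow_dvd_pow_iff_le_right hp.one_lt).1 hd
  have hne : j ≠ i := by
    rintro rfl
    exact h.ne (Subgroup.eq_of_le_of_card_ge h.le (by rw [hj, hi]))
  have hlt : j + 1 ≤ i := by omega
  calc p * p ^ j = p ^ (j + 1) := by ring
    _ ≤ p ^ i := Nat.pow_le_pow_right hp.pos hlt

/-- Generalized quaternion groups of order at least 16 fail the isomorphism property. -/
theorem quat_not_isoProp (n : ℕ) (hn : 2 ≤ n) {T : Type u} [Group T] [Finite T]
    (e : T ≃* QuaternionGroup (2 ^ n)) (h : IsoProp T) : False := by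
  haveI : NeZero (2 ^ n) := ⟨by positivity⟩
  have hn4 : 4 ≤ 2 ^ n := by
    calc 4 = 2 ^ 2 := by norm_num
      _ ≤ 2 ^ n := Nat.pow_le_pow_right (by norm_num) hn
  obtain ⟨g, hg2, hg1⟩ : ∃ g : Multiplicative (ZMod 2), g * g = 1 ∧ g ≠ 1 :=
    ⟨Multiplicative.ofAdd 1, by decide, by decide⟩
  have hpow : ∀ m : ℕ, g ^ (2 * m) = 1 := fun m => by rw [pow_mul, pow_two, hg2, one_pow]
  obtain ⟨m, hm⟩ : ∃ m, 2 ^ n = 2 * m := ⟨2 ^ (n - 1), by rw [← pow_succ']; congr 1; omega⟩
  let f1 : QuaternionGroup (2 ^ n) →* Multiplicative (ZMod 2) :=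
    quatLift (2 ^ n) 1 g (one_pow _) (by rw [one_pow]; exact hg2) (by simp)
  let f2 : QuaternionGroup (2 ^ n) →* Multiplicative (ZMod 2) :=
    quatLift (2 ^ n) g 1 (hpow _) (by rw [hm, hpow, mul_one])
      (by rw [one_mul, inv_one, mul_one]; exact eq_inv_of_mul_eq_one_left hg2)
  have hf1a : ∀ i, f1 (QuaternionGroup.a i) = 1 := fun i => by
    show (1 : Multiplicative (ZMod 2)) ^ i.val = 1
    exact one_pow _
  have hf1x : ∀ i, f1 (QuaternionGroup.xa i) = g := fun i => by
    show g * (1 : Multiplicative (ZMod 2)) ^ i.val = g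
    rw [one_pow, mul_one]
  have hf2a : ∀ i, f2 (QuaternionGroup.a i) = g ^ i.val := fun i => rfl
  have hf2x : ∀ i, f2 (QuaternionGroup.xa i) = 1 * g ^ i.val := fun i => rfl
  have hidx : ∀ f : T →* Multiplicative (ZMod 2), (∃ t, f t = g) →
      Nat.card f.ker * 2 = Nat.card T := by
    rintro f ⟨t, ht⟩
    have h1 := Subgroup.card_mul_index f.ker
    rw [Subgroup.index_ker] at h1
    have h2 : Nat.card f.range = 2 := by
      have h3 : Nat.card f.range ∣ 2 := by
        have h4 := Subgroup.card_subgroup_dvd_card f.range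
        rwa [Nat.card_congr Multiplicative.toAdd, Nat.card_zmod] at h4
      rcases (Nat.dvd_prime Nat.prime_two).1 h3 with h4 | h4
      · exfalso
        have h5 : f.range = ⊥ := Subgroup.card_eq_one.1 h4
        have h6 : g ∈ f.range := ⟨t, ht⟩
        rw [h5, Subgroup.mem_bot] at h6
        exact hg1 h6
      · exact h4
    rw [h2] at h1
    exact h1
  have hval1 : ((1 : ZMod (2 * 2 ^ n))).val = 1 := by
    have h1 : (1 : ZMod (2 * 2 ^ n)) = ((1 : ℕ) : ZMod (2 * 2 ^ n)) := by norm_num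
    rw [h1, ZMod.val_natCast]
    exact Nat.mod_eq_of_lt (by omega)
  have hval2 : ((2 : ZMod (2 * 2 ^ n))).val = 2 := by
    have h1 : (2 : ZMod (2 * 2 ^ n)) = ((2 : ℕ) : ZMod (2 * 2 ^ n)) := by norm_num
    rw [h1, ZMod.val_natCast]
    exact Nat.mod_eq_of_lt (by omega)
  have hc1 := hidx (f1.comp e.toMonoidHom) ⟨e.symm (QuaternionGroup.xa 0), by
    show f1 (e (e.symm (QuaternionGroup.xa 0))) = g
    rw [MulEquiv.apply_symm_apply, hf1x]⟩
  have hc2 := hidx (f2.comp e.toMonoidHom) ⟨e.symm (QuaternionGroup.a 1), by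
    show f2 (e (e.symm (QuaternionGroup.a 1))) = g
    rw [MulEquiv.apply_symm_apply, hf2a, hval1, pow_one]⟩
  have hcard : Nat.card (f1.comp e.toMonoidHom).ker = Nat.card (f2.comp e.toMonoidHom).ker := by
    have h3 : Nat.card (f1.comp e.toMonoidHom).ker * 2 = Nat.card (f2.comp e.toMonoidHom).ker * 2 :=
      hc1.trans hc2.symm
    omega
  have hK1 : ∀ x ∈ (f1.comp e.toMonoidHom).ker, ∀ y ∈ (f1.comp e.toMonoidHom).ker,
      x * y = y * x := by
    have key : ∀ x ∈ (f1.comp e.toMonoidHom).ker, ∃ i, e x = QuaternionGroup.a i := by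
      intro x hx
      rw [MonoidHom.mem_ker] at hx
      have hx' : f1 (e x) = 1 := hx
      rcases hex : e x with i | i
      · exact ⟨i, rfl⟩
      · rw [hex, hf1x] at hx'
        exact absurd hx' hg1
    intro x hx y hy
    obtain ⟨i, hi⟩ := key x hx
    obtain ⟨j, hj⟩ := key y hy
    apply e.injective
    rw [map_mul, map_mul, hi, hj, QuaternionGroup.a_mul_a, QuaternionGroup.a_mul_a, add_comm]
  have hK2 := h.comm hcard hK1
  have hx2 : e.symm (QuaternionGroup.a 2) ∈ (f2.comp e.toMonoidHom).ker := by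
    rw [MonoidHom.mem_ker]
    show f2 (e (e.symm (QuaternionGroup.a 2))) = 1
    rw [MulEquiv.apply_symm_apply, hf2a, hval2, pow_two, hg2]
  have hy2 : e.symm (QuaternionGroup.xa 0) ∈ (f2.comp e.toMonoidHom).ker := by
    rw [MonoidHom.mem_ker]
    show f2 (e (e.symm (QuaternionGroup.xa 0))) = 1
    rw [MulEquiv.apply_symm_apply, hf2x, ZMod.val_zero, pow_zero, mul_one]
  have h5 := hK2 _ hx2 _ hy2
  rw [← map_mul, ← map_mul] at h5
  have h6 := e.symm.injective h5
  rw [QuaternionGroup.a_mul_xa, QuaternionGroup.xa_mul_a] at h6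
  have h7 : (0 : ZMod (2 * 2 ^ n)) - 2 = 0 + 2 := by injection h6
  have h8 : ((4 : ℕ) : ZMod (2 * 2 ^ n)) = 0 := by
    push_cast
    linear_combination -h7
  rw [ZMod.natCast_eq_zero_iff] at h8
  have h9 := Nat.le_of_dvd (by norm_num) h8
  omega

end Cfsg.Agent.Helper7
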