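import Mathlib
import Cfsg.Agent.Helper7.EqOrdP

set_option autoImplicit false

namespace Cfsg.Agent.Helper7

universe u

open scoped Pointwise

/-- With at least two subgroups of order `p`, the isomorphism property forces exponent `p`. -/
theorem exp_p_of_two_subgroups {T : Type u} [Group T] [Finite T] {p : ℕ} [Fact p.Prime]
    (hT : IsPGroup p T) (h : IsoProp T) (H₁ H₂ : Subgroup T) (hH₁ : Nat.card H₁ = p)
    (hH₂ : Nat.card H₂ = p) (hne : H₁ ≠ H₂) : ∀ x : T, x ^ p = 1 := by
  have hp : p.Prime := Fact.out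
  haveI : Nontrivial T := by
    have h1 : 1 < Nat.card T := by
      have := Subgroup.card_le_card_group H₁
      have := hp.one_lt
      omega
    exact Finite.one_lt_card_iff_nontrivial.1 h1
  haveI := hT.center_nontrivial
  have hdvd : p ∣ Nat.card (Subgroup.center T) := by
    obtain ⟨k, hk⟩ := IsPGroup.iff_card.1 (hT.to_subgroup (Subgroup.center T))
    have hk0 : k ≠ 0 := by
      rintro rfl
      rw [pow_zero] at hk
      have := Finite.one_lt_card_iff_nontrivial.2 (inferInstance : Nontrivial (Subgroup.center T))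
      omega
    rw [hk]
    exact dvd_pow_self p hk0
  obtain ⟨z, hz⟩ := exists_prime_orderOf_dvd_card' p hdvd
  have hzc : ∀ g : T, g * (z : T) = (z : T) * g := fun g => Subgroup.mem_center_iff.1 z.2 g
  have hzp : ∀ c ∈ Subgroup.zpowers (z : T), ∀ g : T, g * c = c * g := by
    intro c hc g
    obtain ⟨k, rfl⟩ := Subgroup.mem_zpowers_iff.1 hc
    exact ((Commute.zpow_right (hzc g) k)).eq
  have hZcard : Nat.card (Subgroup.zpowers (z : T)) = p := by
    rw [Nat.card_zpowers, Subgroup.orderOf_coe, hz]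
  haveI hZn : (Subgroup.zpowers (z : T)).Normal := by
    refine ⟨fun n hn g => ?_⟩
    have : g * n * g⁻¹ = n := by rw [hzp n hn g, mul_inv_cancel_right]
    rwa [this]
  obtain ⟨U, hU, hUZ⟩ : ∃ U : Subgroup T, Nat.card U = p ∧ U ≠ Subgroup.zpowers (z : T) := by
    by_cases h1 : H₁ = Subgroup.zpowers (z : T)
    · exact ⟨H₂, hH₂, fun h2 => hne (h1.trans h2.symm)⟩
    · exact ⟨H₁, hH₁, h1⟩
  have hinf : U ⊓ Subgroup.zpowers (z : T) = ⊥ := by
    have h1 : Nat.card (U ⊓ Subgroup.zpowers (z : T) : Subgroup T) ∣ p := by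
      rw [← hU]; exact Subgroup.card_dvd_of_le inf_le_left
    rcases (Nat.dvd_prime hp).1 h1 with h2 | h2
    · exact Subgroup.card_eq_one.1 h2
    · exfalso
      have h3 : U ⊓ Subgroup.zpowers (z : T) = U :=
        Subgroup.eq_of_le_of_card_ge inf_le_left (by rw [h2, hU])
      have h4 : U ≤ Subgroup.zpowers (z : T) := by rw [← h3]; exact inf_le_right
      exact hUZ (Subgroup.eq_of_le_of_card_ge h4 (by rw [hU, hZcard]))
  have hcardE : Nat.card (U ⊔ Subgroup.zpowers (z : T) : Subgroup T) = p * p := by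
    rw [Cfsg.Agent.Lead.card_sup_of_inf_eq_bot U (Subgroup.zpowers (z : T)) hinf, hU, hZcard]
  have hexpE : ∀ x ∈ (U ⊔ Subgroup.zpowers (z : T) : Subgroup T), x ^ p = 1 := by
    intro x hx
    have hx' : x ∈ ((U ⊔ Subgroup.zpowers (z : T) : Subgroup T) : Set T) := hx
    rw [Subgroup.mul_normal] at hx'
    obtain ⟨a, ha, b, hb, rfl⟩ := Set.mem_mul.1 hx'
    have hab : Commute a b := hzp b hb a
    rw [hab.mul_pow]
    have ha1 : a ^ p = 1 := by
      have h1 : orderOf a ∣ p := by rw [← hU]; exact Subgroup.orderOf_dvd_natCard U ha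
      exact orderOf_dvd_iff_pow_eq_one.1 h1
    have hb1 : b ^ p = 1 := by
      have h1 : orderOf b ∣ p := by
        rw [← hZcard]; exact Subgroup.orderOf_dvd_natCard _ hb
      exact orderOf_dvd_iff_pow_eq_one.1 h1
    rw [ha1, hb1, one_mul]
  intro x
  by_contra hx
  have hex : ∃ k : ℕ, x ^ p ^ k = 1 := hT x
  classical
  have hk2 : 2 ≤ Nat.find hex := by
    by_contra hlt
    have hspec := Nat.find_spec hex
    have hcases : Nat.find hex = 0 ∨ Nat.find hex = 1 := by omega
    rcases hcases with h0 | h1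
    · rw [h0, pow_zero, pow_one] at hspec
      exact hx (by rw [hspec, one_pow])
    · rw [h1, pow_one] at hspec
      exact hx hspec
  have hy2 : (x ^ p ^ (Nat.find hex - 2)) ^ p ^ 2 = 1 := by
    rw [← pow_mul, ← pow_add]
    have e : Nat.find hex - 2 + 2 = Nat.find hex := by omega
    rw [e]
    exact Nat.find_spec hex
  have hy1 : (x ^ p ^ (Nat.find hex - 2)) ^ p ≠ 1 := by
    rw [← pow_mul, ← pow_succ]
    have e : Nat.find hex - 2 + 1 = Nat.find hex - 1 := by omega
    rw [e]
    exact Nat.find_min hex (by omega)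
  have hord : orderOf (x ^ p ^ (Nat.find hex - 2)) = p ^ 2 := by
    have h1 : orderOf (x ^ p ^ (Nat.find hex - 2)) ∣ p ^ 2 := orderOf_dvd_of_pow_eq_one hy2
    obtain ⟨m, hm, hm'⟩ := (Nat.dvd_prime_pow hp).1 h1
    have hm2 : m = 2 := by
      by_contra hne2
      have hm1 : m ≤ 1 := by omega
      apply hy1
      apply orderOf_dvd_iff_pow_eq_one.1
      rw [hm']
      calc p ^ m ∣ p ^ 1 := Nat.pow_dvd_pow p hm1
        _ = p := pow_one p
    rw [hm', hm2]
  have hcardC : Nat.card (U ⊔ Subgroup.zpowers (z : T) : Subgroup T)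
      = Nat.card (Subgroup.zpowers (x ^ p ^ (Nat.find hex - 2))) := by
    rw [hcardE, Nat.card_zpowers, hord, pow_two]
  exact hy1 (h.pow hcardC p hexpE _ (Subgroup.mem_zpowers _))

end Cfsg.Agent.Helper7
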