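import Mathlib
import Cfsg.Agent.Helper7.EqOrdP2

set_option autoImplicit false

namespace Cfsg.Agent.Helper7

universe u

/-- A nonabelian `p`-group of exponent `p` with the isomorphism property has order `p³`. -/
theorem card_of_nonabelian_exp {T : Type u} [Group T] [Finite T] {p : ℕ} [Fact p.Prime]
    (hT : IsPGroup p T) (h : IsoProp T) (hexp : ∀ x : T, x ^ p = 1)
    (hna : ¬ ∀ x y : T, x * y = y * x) : p ≠ 2 ∧ Nat.card T = p ^ 3 := by
  have hp : p.Prime := Fact.out
  refine ⟨?_, ?_⟩
  · rintro rfl
    apply hna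
    intro x y
    have hx : x⁻¹ = x := inv_eq_of_mul_eq_one_left (by rw [← pow_two]; exact hexp x)
    have hy : y⁻¹ = y := inv_eq_of_mul_eq_one_left (by rw [← pow_two]; exact hexp y)
    have hxy : (x * y)⁻¹ = x * y :=
      inv_eq_of_mul_eq_one_left (by rw [← pow_two]; exact hexp (x * y))
    calc x * y = (x * y)⁻¹ := hxy.symm
      _ = y⁻¹ * x⁻¹ := mul_inv_rev x y
      _ = y * x := by rw [hx, hy]
  · obtain ⟨n, hn⟩ := IsPGroup.iff_card.1 hT
    have hn3 : 3 ≤ n := by
      by_contra hlt
      apply hna
      have hcases : n = 0 ∨ n = 1 ∨ n = 2 := by omega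
      rcases hcases with rfl | rfl | rfl
      · rw [pow_zero] at hn
        haveI : Subsingleton T := (Nat.card_eq_one_iff_unique.1 hn).1
        intro x y
        exact Subsingleton.elim _ _
      · rw [pow_one] at hn
        haveI := isCyclic_of_prime_card hn
        intro x y
        obtain ⟨g, hg⟩ := IsCyclic.exists_generator (α := T)
        obtain ⟨s, rfl⟩ := Subgroup.mem_zpowers_iff.1 (hg x)
        obtain ⟨t, rfl⟩ := Subgroup.mem_zpowers_iff.1 (hg y)
        rw [← zpow_add, ← zpow_add, add_comm]
      · exact IsPGroup.commutative_of_card_eq_prime_sq hn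
    suffices hle : n ≤ 3 by
      have h3 : n = 3 := le_antisymm hle hn3
      rw [hn, h3]
    by_contra hn4
    push_neg at hn4
    have hZtop : Subgroup.center T ≠ ⊤ := by
      intro htop
      apply hna
      intro x y
      have hy : y ∈ Subgroup.center T := by rw [htop]; trivial
      exact Subgroup.mem_center_iff.1 hy x
    haveI : Nontrivial (T ⧸ Subgroup.center T) := by
      by_contra hnt
      rw [not_nontrivial_iff_subsingleton] at hnt
      apply hZtop
      rw [eq_top_iff]
      intro t _
      rw [← QuotientGroup.eq_one_iff]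
      exact Subsingleton.elim _ _
    have hQ : IsPGroup p (T ⧸ Subgroup.center T) := hT.to_quotient _
    haveI := hQ.center_nontrivial
    obtain ⟨ū, hū⟩ := exists_ne (1 : Subgroup.center (T ⧸ Subgroup.center T))
    obtain ⟨u, hu⟩ := QuotientGroup.mk_surjective (ū : T ⧸ Subgroup.center T)
    have huZ : u ∉ Subgroup.center T := by
      intro hmem
      apply hū
      apply Subtype.ext
      rw [← hu]
      exact (QuotientGroup.eq_one_iff u).2 hmem
    have hcm : ∀ t : T, t * u * t⁻¹ * u⁻¹ ∈ Subgroup.center T := by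
      intro t
      rw [← QuotientGroup.eq_one_iff]
      have h1 := Subgroup.mem_center_iff.1 ū.2 (t : T ⧸ Subgroup.center T)
      rw [QuotientGroup.mk_mul, QuotientGroup.mk_mul, QuotientGroup.mk_mul, QuotientGroup.mk_inv,
        QuotientGroup.mk_inv, hu, h1]
      group
    have hcentral : ∀ t g : T, g * (t * u * t⁻¹ * u⁻¹) = (t * u * t⁻¹ * u⁻¹) * g :=
      fun t g => Subgroup.mem_center_iff.1 (hcm t) g
    obtain ⟨y, hy⟩ : ∃ y : T, y * u ≠ u * y := by
      by_contra hall
      push_neg at hall
      exact huZ (Subgroup.mem_center_iff.2 hall)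
    obtain ⟨c, hc⟩ : ∃ c : T, c = y * u * y⁻¹ * u⁻¹ := ⟨_, rfl⟩
    have hcZ : c ∈ Subgroup.center T := by rw [hc]; exact hcm y
    have hcg : ∀ g : T, g * c = c * g := fun g => Subgroup.mem_center_iff.1 hcZ g
    have hyu : y * u * y⁻¹ = c * u := by rw [hc]; group
    have hcard1 : ∀ t : T, Nat.card (Subgroup.zpowers t) ∣ p := by
      intro t
      rw [Nat.card_zpowers]
      exact orderOf_dvd_of_pow_eq_one (hexp t)
    have hcn : (Subgroup.zpowers c).Normal := by
      refine ⟨fun n hn g => ?_⟩
      obtain ⟨k, rfl⟩ := Subgroup.mem_zpowers_iff.1 hn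
      have h1 : Commute g (c ^ k) := Commute.zpow_right (hcg g) k
      have h2 : g * c ^ k * g⁻¹ = c ^ k := by rw [h1.eq, mul_inv_cancel_right]
      rwa [h2]
    have hNcard : Nat.card (Subgroup.zpowers c ⊔ Subgroup.zpowers u : Subgroup T) ∣ p * p := by
      have h1 := Cfsg.Agent.Helper3.card_sup_dvd_mul_of_le_normalizer (Subgroup.zpowers c)
        (Subgroup.zpowers u) (by rw [Subgroup.normalizer_eq_top_iff.2 hcn]; exact le_top)
      exact h1.trans (Nat.mul_dvd_mul (hcard1 c) (hcard1 u))
    have hyN : Subgroup.zpowers y ≤ Subgroup.normalizer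
        ((Subgroup.zpowers c ⊔ Subgroup.zpowers u : Subgroup T) : Set T) := by
      rw [Subgroup.zpowers_le]
      apply Subgroup.mem_normalizer_fintype
      intro n hn
      have hmap : (Subgroup.zpowers c ⊔ Subgroup.zpowers u).map (MulAut.conj y).toMonoidHom
          ≤ Subgroup.zpowers c ⊔ Subgroup.zpowers u := by
        rw [Subgroup.map_sup, MonoidHom.map_zpowers, MonoidHom.map_zpowers]
        refine sup_le ?_ ?_
        · rw [Subgroup.zpowers_le]
          show y * c * y⁻¹ ∈ Subgroup.zpowers c ⊔ Subgroup.zpowers u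
          rw [hcg y, mul_inv_cancel_right]
          exact Subgroup.mem_sup_left (Subgroup.mem_zpowers c)
        · rw [Subgroup.zpowers_le]
          show y * u * y⁻¹ ∈ Subgroup.zpowers c ⊔ Subgroup.zpowers u
          rw [hyu]
          exact Subgroup.mul_mem _ (Subgroup.mem_sup_left (Subgroup.mem_zpowers c))
            (Subgroup.mem_sup_right (Subgroup.mem_zpowers u))
      exact hmap ⟨n, hn, rfl⟩
    have hKcard : Nat.card ((Subgroup.zpowers c ⊔ Subgroup.zpowers u) ⊔ Subgroup.zpowers y :
        Subgroup T) ∣ p * p * p := by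
      have h1 := Cfsg.Agent.Helper3.card_sup_dvd_mul_of_le_normalizer
        (Subgroup.zpowers c ⊔ Subgroup.zpowers u) (Subgroup.zpowers y) hyN
      exact h1.trans (Nat.mul_dvd_mul hNcard (hcard1 y))
    have huK : u ∈ ((Subgroup.zpowers c ⊔ Subgroup.zpowers u) ⊔ Subgroup.zpowers y : Subgroup T) :=
      Subgroup.mem_sup_left (Subgroup.mem_sup_right (Subgroup.mem_zpowers u))
    have hyK : y ∈ ((Subgroup.zpowers c ⊔ Subgroup.zpowers u) ⊔ Subgroup.zpowers y : Subgroup T) :=
      Subgroup.mem_sup_right (Subgroup.mem_zpowers y)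
    -- a large abelian subgroup
    have hZbot : (⊥ : Subgroup T) < Subgroup.center T := by
      rw [bot_lt_iff_ne_bot]
      intro hbot
      have h1 : c ∈ (⊥ : Subgroup T) := hbot ▸ hcZ
      rw [Subgroup.mem_bot] at h1
      apply hy
      have h2 : y * u * y⁻¹ = u := by rw [hyu, h1, one_mul]
      calc y * u = y * u * y⁻¹ * y := by group
        _ = u * y := by rw [h2]
    have hZp : p ≤ Nat.card (Subgroup.center T) := by
      have h1 := pgroup_card_lt hT hZbot
      rwa [Subgroup.card_bot, mul_one] at h1
    have hS₂ : ∀ a ∈ (Subgroup.center T : Set T) ∪ {u},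
        ∀ b ∈ (Subgroup.center T : Set T) ∪ {u}, a * b = b * a := by
      rintro a (ha | ha) b hb
      · exact (Subgroup.mem_center_iff.1 ha b).symm
      · rcases hb with hb | hb
        · exact Subgroup.mem_center_iff.1 hb a
        · rw [Set.mem_singleton_iff] at ha hb
          rw [ha, hb]
    have hA₂comm := closure_comm _ hS₂
    have hZA₂ : Subgroup.center T < Subgroup.closure ((Subgroup.center T : Set T) ∪ {u}) := by
      refine lt_of_le_of_ne ?_ ?_
      · intro t ht
        exact Subgroup.subset_closure (Or.inl ht)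
      · intro heq
        apply huZ
        rw [heq]
        exact Subgroup.subset_closure (Or.inr rfl)
    have hA₂card := pgroup_card_lt hT hZA₂
    have hbig : ∃ A : Subgroup T, (∀ a ∈ A, ∀ b ∈ A, a * b = b * a) ∧ p ^ 3 ≤ Nat.card A := by
      by_cases hb : p ^ 3 ≤ Nat.card (Subgroup.closure ((Subgroup.center T : Set T) ∪ {u}))
      · exact ⟨_, hA₂comm, hb⟩
      · push_neg at hb
        have hZcard : Nat.card (Subgroup.center T) = p := by
          obtain ⟨j, hj⟩ := IsPGroup.iff_card.1 (hT.to_subgroup (Subgroup.center T))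
          rw [hj] at hZp hA₂card ⊢
          have h1 : p * p ^ j < p ^ 3 := lt_of_le_of_lt hA₂card hb
          have h2 : p ^ (j + 1) < p ^ 3 := by rwa [pow_succ, mul_comm]
          have h3 : j + 1 < 3 := (Nat.pow_lt_pow_iff_right hp.one_lt).1 h2
          have h4 : j ≠ 0 := by
            rintro rfl
            rw [pow_zero] at hZp
            have := hp.one_lt
            omega
          have h5 : j = 1 := by omega
          rw [h5, pow_one]
        let ψ : T →* T := MonoidHom.mk' (fun t => t * u * t⁻¹ * u⁻¹) (by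
          intro t s
          have h1 := hcentral s t
          have h2 := hcentral s (t * u * t⁻¹ * u⁻¹)
          calc t * s * u * (t * s)⁻¹ * u⁻¹
              = t * (s * u * s⁻¹ * u⁻¹) * u * t⁻¹ * u⁻¹ := by group
            _ = (s * u * s⁻¹ * u⁻¹) * t * u * t⁻¹ * u⁻¹ := by rw [h1]
            _ = (s * u * s⁻¹ * u⁻¹) * (t * u * t⁻¹ * u⁻¹) := by group
            _ = (t * u * t⁻¹ * u⁻¹) * (s * u * s⁻¹ * u⁻¹) := h2.symm)
        have hψ : ∀ t, ψ t = t * u * t⁻¹ * u⁻¹ := fun t => rfl
        have hrange : Nat.card ψ.range ≤ p := by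
          rw [← hZcard]
          apply Subgroup.card_le_of_le
          rintro _ ⟨t, rfl⟩
          exact hcm t
        have hkercard : p ^ 3 ≤ Nat.card ψ.ker := by
          have h1 := Subgroup.card_mul_index ψ.ker
          rw [Subgroup.index_ker, hn] at h1
          have h2 : p ^ 4 ≤ p ^ n := Nat.pow_le_pow_right hp.pos hn4
          have h3 : Nat.card ψ.ker * Nat.card ψ.range ≤ Nat.card ψ.ker * p :=
            Nat.mul_le_mul_left _ hrange
          have h4 : p ^ 3 * p ≤ Nat.card ψ.ker * p := by
            calc p ^ 3 * p = p ^ 4 := by ring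
              _ ≤ p ^ n := h2
              _ = Nat.card ψ.ker * Nat.card ψ.range := h1.symm
              _ ≤ Nat.card ψ.ker * p := h3
          exact Nat.le_of_mul_le_mul_right h4 hp.pos
        have hA₂ker : Subgroup.closure ((Subgroup.center T : Set T) ∪ {u}) ≤ ψ.ker := by
          rw [Subgroup.closure_le]
          rintro t (ht | ht)
          · rw [SetLike.mem_coe, MonoidHom.mem_ker, hψ]
            have h1 := Subgroup.mem_center_iff.1 ht u
            rw [← h1]
            group
          · rw [Set.mem_singleton_iff] at ht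
            rw [SetLike.mem_coe, MonoidHom.mem_ker, hψ, ht]
            group
        have hlt : Subgroup.closure ((Subgroup.center T : Set T) ∪ {u}) < ψ.ker := by
          refine lt_of_le_of_ne hA₂ker ?_
          intro heq
          rw [heq] at hb
          omega
        obtain ⟨w, hwk, hwA⟩ := SetLike.exists_of_lt hlt
        have hwu : w * u = u * w := by
          rw [MonoidHom.mem_ker, hψ] at hwk
          calc w * u = (w * u * w⁻¹ * u⁻¹) * (u * w) := by group
            _ = u * w := by rw [hwk, one_mul]
        have hS₃ : ∀ a ∈ (Subgroup.center T : Set T) ∪ {u, w},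
            ∀ b ∈ (Subgroup.center T : Set T) ∪ {u, w}, a * b = b * a := by
          rintro a (ha | ha) b hb
          · exact (Subgroup.mem_center_iff.1 ha b).symm
          · rcases hb with hb | hb
            · exact Subgroup.mem_center_iff.1 hb a
            · rw [Set.mem_insert_iff, Set.mem_singleton_iff] at ha hb
              rcases ha with ha | ha <;> rcases hb with hb | hb <;> rw [ha, hb]
              · exact hwu.symm
              · exact hwu
        have hA₂A₃ : Subgroup.closure ((Subgroup.center T : Set T) ∪ {u})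
            < Subgroup.closure ((Subgroup.center T : Set T) ∪ {u, w}) := by
          refine lt_of_le_of_ne ?_ ?_
          · apply Subgroup.closure_mono
            rintro t (ht | ht)
            · exact Or.inl ht
            · exact Or.inr (Or.inl ht)
          · intro heq
            apply hwA
            rw [heq]
            exact Subgroup.subset_closure (Or.inr (Or.inr rfl))
        refine ⟨_, closure_comm _ hS₃, ?_⟩
        have h5 := pgroup_card_lt hT hA₂A₃
        calc p ^ 3 = p * (p * p) := by ring
          _ = p * (p * Nat.card (Subgroup.center T)) := by rw [hZcard]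
          _ ≤ p * Nat.card (Subgroup.closure ((Subgroup.center T : Set T) ∪ {u})) :=
            Nat.mul_le_mul_left _ hA₂card
          _ ≤ _ := h5
    obtain ⟨A, hAcomm, hAcard⟩ := hbig
    obtain ⟨j, hj⟩ := IsPGroup.iff_card.1 (hT.to_subgroup
      ((Subgroup.zpowers c ⊔ Subgroup.zpowers u) ⊔ Subgroup.zpowers y : Subgroup T))
    obtain ⟨i, hi⟩ := IsPGroup.iff_card.1 (hT.to_subgroup A)
    have hj3 : j ≤ 3 := by
      have h1 : p ^ j ∣ p ^ 3 := by
        rw [← hj]
        have e : p ^ 3 = p * p * p := by ring
        rw [e]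
        exact hKcard
      exact (Nat.pow_dvd_pow_iff_le_right hp.one_lt).1 h1
    have hi3 : 3 ≤ i := by
      rw [hi] at hAcard
      exact (Nat.pow_le_pow_iff_right hp.one_lt).1 hAcard
    have hdvd : p ^ j ∣ Nat.card A := by
      rw [hi]
      exact Nat.pow_dvd_pow p (by omega)
    obtain ⟨K', hK'⟩ := Sylow.exists_subgroup_card_pow_prime p hdvd
    have hcard' : Nat.card (K'.map A.subtype) = Nat.card
        ((Subgroup.zpowers c ⊔ Subgroup.zpowers u) ⊔ Subgroup.zpowers y : Subgroup T) := by
      rw [Subgroup.card_map_of_injective A.subtype_injective, hK', hj]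
    have hcomm' : ∀ a ∈ K'.map A.subtype, ∀ b ∈ K'.map A.subtype, a * b = b * a := by
      rintro _ ⟨a, -, rfl⟩ _ ⟨b, -, rfl⟩
      exact hAcomm a a.2 b b.2
    have hKcomm := h.comm hcard' hcomm'
    exact hy (hKcomm y hyK u huK)

/-- Structure of `p`-groups in which subgroups of the same order are isomorphic. -/
theorem isoProp_structure {T : Type u} [Group T] [Finite T] {p : ℕ} [Fact p.Prime]
    (hT : IsPGroup p T) (h : IsoProp T) :
    IsCyclic T ∨ ((∀ x y : T, x * y = y * x) ∧ ∀ x : T, x ^ p = 1) ∨
    (p = 2 ∧ Nonempty (T ≃* QuaternionGroup 2)) ∨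
    (p ≠ 2 ∧ (¬ ∀ x y : T, x * y = y * x) ∧ Nat.card T = p ^ 3 ∧ ∀ x : T, x ^ p = 1) := by
  by_cases huniq : ∀ H K : Subgroup T, Nat.card H = p → Nat.card K = p → H = K
  · rcases Cfsg.Agent.S0016.result p hT huniq with hc | ⟨hp2, n, ⟨e⟩⟩
    · exact Or.inl hc
    · rcases Nat.lt_or_ge n 2 with hn | hn
      · have hcases : n = 0 ∨ n = 1 := by omega
        rcases hcases with rfl | rfl
        · left
          haveI : IsCyclic (QuaternionGroup (2 ^ 0)) := by
            rw [pow_zero]; exact QuaternionGroup.quaternionGroup_one_isCyclic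
          exact isCyclic_of_surjective e.symm e.symm.surjective
        · right; right; left
          rw [pow_one] at e
          exact ⟨hp2, ⟨e⟩⟩
      · exact (quat_not_isoProp n hn e h).elim
  · push_neg at huniq
    obtain ⟨H₁, H₂, hH₁, hH₂, hne⟩ := huniq
    have hexp := exp_p_of_two_subgroups hT h H₁ H₂ hH₁ hH₂ hne
    by_cases hcomm : ∀ x y : T, x * y = y * x
    · exact Or.inr (Or.inl ⟨hcomm, hexp⟩)
    · obtain ⟨hp2, hcard⟩ := card_of_nonabelian_exp hT h hexp hcomm
      exact Or.inr (Or.inr (Or.inr ⟨hp2, hcomm, hcard, hexp⟩))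

end Cfsg.Agent.Helper7
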