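import Mathlib
import Cfsg.Prelude.Def_Classical
import Cfsg.Agent.Helper7.QuadCount

set_option autoImplicit false

namespace Cfsg.Agent.Helper7.OrthChain

open Matrix

/-- a generic counting lemma: a surjection from a group whose fibres are the cosets of `K` -/
theorem card_of_fibration {H : Type*} [Group H] (K : Subgroup H) {X : Type*} (π : H → X)
    (hsurj : Function.Surjective π) (hfib : ∀ g g' : H, π g = π g' ↔ g⁻¹ * g' ∈ K) :
    Nat.card H = Nat.card X * Nat.card K := by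
  let f : H ⧸ K → X := Quotient.lift π (by
    intro a b hab
    rw [hfib]
    exact QuotientGroup.leftRel_apply.mp hab)
  have hf : Function.Bijective f := by
    constructor
    · intro x y
      induction x using QuotientGroup.induction_on with
      | H a =>
        induction y using QuotientGroup.induction_on with
        | H b =>
          intro hab
          have h1 : π a = π b := hab
          exact QuotientGroup.eq.mpr ((hfib a b).mp h1)
    · intro x
      obtain ⟨g, hg⟩ := hsurj x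
      exact ⟨QuotientGroup.mk g, hg⟩
  rw [← Nat.card_congr (Equiv.ofBijective f hf)]
  exact Subgroup.card_eq_card_quotient_mul_card_subgroup K

variable {F : Type*} [Field F] {ι : Type} [Fintype ι] [DecidableEq ι]

/-- the data of a quadratic form with its polar form -/
structure QData (Q : (ι → F) → F) (B : (ι → F) → (ι → F) → F) : Prop where
  polar : ∀ u v, Q (u + v) = Q u + Q v + B u v
  smul : ∀ (c : F) v, Q (c • v) = c ^ 2 * Q v
  add_left : ∀ u u' v, B (u + u') v = B u v + B u' v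
  smul_left : ∀ (c : F) u v, B (c • u) v = c * B u v
  symm : ∀ u v, B u v = B v u

namespace QData

variable {Q : (ι → F) → F} {B : (ι → F) → (ι → F) → F} (h : QData Q B)
include h

lemma add_right (u v v' : ι → F) : B u (v + v') = B u v + B u v' := by
  rw [h.symm, h.add_left, h.symm v, h.symm v']

lemma smul_right (c : F) (u v : ι → F) : B u (c • v) = c * B u v := by
  rw [h.symm, h.smul_left, h.symm]

lemma Q_zero : Q 0 = 0 := by
  have := h.smul 0 0
  simpa using this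

lemma B_zero_left (v : ι → F) : B 0 v = 0 := by
  have := h.smul_left 0 0 v
  simpa using this

lemma B_zero_right (v : ι → F) : B v 0 = 0 := by
  rw [h.symm, h.B_zero_left]

lemma B_self (v : ι → F) : B v v = 2 * Q v := by
  have h1 := h.polar v v
  have h2 := h.smul 2 v
  rw [two_smul] at h2
  rw [h2] at h1
  linear_combination (-1 : F) * h1

lemma neg_left (u v : ι → F) : B (-u) v = - B u v := by
  have := h.smul_left (-1) u v
  rwa [neg_one_smul, neg_one_mul] at this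

lemma neg_right (u v : ι → F) : B u (-v) = - B u v := by
  rw [h.symm, h.neg_left, h.symm]

lemma sub_left (u u' v : ι → F) : B (u - u') v = B u v - B u' v := by
  rw [sub_eq_add_neg, h.add_left, h.neg_left, sub_eq_add_neg]

lemma sub_right (u v v' : ι → F) : B u (v - v') = B u v - B u v' := by
  rw [sub_eq_add_neg, h.add_right, h.neg_right, sub_eq_add_neg]

lemma Q_neg (v : ι → F) : Q (-v) = Q v := by
  have := h.smul (-1) v
  rw [neg_one_smul] at this
  rw [this]
  ring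

lemma Q_sub (u v : ι → F) : Q (u - v) = Q u + Q v - B u v := by
  rw [sub_eq_add_neg, h.polar, h.Q_neg, h.neg_right]
  ring

/-- isometries preserve the polar form -/
lemma B_of_isom (T : (ι → F) →ₗ[F] (ι → F)) (hT : ∀ v, Q (T v) = Q v) (u v : ι → F) :
    B (T u) (T v) = B u v := by
  have h1 := h.polar (T u) (T v)
  rw [← map_add, hT, hT, hT, h.polar] at h1
  linear_combination (-1 : F) * h1

/-- reflection (orthogonal transvection) along `w` -/
def refl (w : ι → F) : (ι → F) →ₗ[F] (ι → F) where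
  toFun v := v - (B v w / Q w) • w
  map_add' u v := by
    rw [h.add_left]
    module
  map_smul' c v := by
    rw [h.smul_left, RingHom.id_apply]
    module

/-- Siegel transformation -/
def siegel (a x : ι → F) : (ι → F) →ₗ[F] (ι → F) where
  toFun v := v + B v a • x - (B v x + Q x * B v a) • a
  map_add' u v := by
    rw [h.add_left, h.add_left]
    module
  map_smul' c v := by
    rw [h.smul_left, h.smul_left, RingHom.id_apply]
    module

lemma refl_apply (w v : ι → F) : h.refl w v = v - (B v w / Q w) • w := rfl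

lemma siegel_apply (a x v : ι → F) :
    h.siegel a x v = v + B v a • x - (B v x + Q x * B v a) • a := rfl

lemma Q_refl (w : ι → F) (hw : Q w ≠ 0) (v : ι → F) : Q (h.refl w v) = Q v := by
  rw [h.refl_apply, h.Q_sub, h.smul, h.smul_right]
  field_simp
  ring

lemma Q_siegel (a x : ι → F) (ha : Q a = 0) (hax : B a x = 0) (v : ι → F) :
    Q (h.siegel a x v) = Q v := by
  rw [h.siegel_apply]
  obtain ⟨s, hs⟩ : ∃ s, s = B v a := ⟨_, rfl⟩
  rw [← hs]
  obtain ⟨t, ht⟩ : ∃ t, t = B v x + Q x * s := ⟨_, rfl⟩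
  rw [← ht]
  have e1 : Q (v + s • x - t • a) = Q (v + s • x) + Q (t • a) - B (v + s • x) (t • a) := h.Q_sub _ _
  have e2 : Q (v + s • x) = Q v + Q (s • x) + B v (s • x) := h.polar _ _
  have e3 : Q (s • x) = s ^ 2 * Q x := h.smul _ _
  have e4 : B v (s • x) = s * B v x := h.smul_right _ _ _
  have e5 : Q (t • a) = t ^ 2 * Q a := h.smul _ _
  have e6 : B (v + s • x) (t • a) = t * B (v + s • x) a := h.smul_right _ _ _
  have e7 : B (v + s • x) a = B v a + B (s • x) a := h.add_left _ _ _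
  have e8 : B (s • x) a = s * B x a := h.smul_left _ _ _
  have e9 : B x a = 0 := by rw [h.symm]; exact hax
  rw [e1, e2, e3, e4, e5, e6, e7, e8, e9, ha, ht, ← hs]
  ring

/-- an isometry given as a linear map gives an element of the isometry group -/
lemma exists_gl (hns : ∀ v, (∀ u, B u v = 0) → Q v = 0 → v = 0)
    (T : (ι → F) →ₗ[F] (ι → F)) (hT : ∀ v, Q (T v) = Q v) :
    ∃ g : GL ι F, g ∈ Cfsg.isometryGroup F Q ∧ ∀ v, (g : Matrix ι ι F) *ᵥ v = T v := by
  have hmv : ∀ v, LinearMap.toMatrix' T *ᵥ v = T v := fun v => by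
    rw [← Matrix.toLin'_apply, Matrix.toLin'_toMatrix']
  have hdet : (LinearMap.toMatrix' T).det ≠ 0 := by
    intro hd
    obtain ⟨v, hv0, hv⟩ := Matrix.exists_mulVec_eq_zero_iff.mpr hd
    rw [hmv] at hv
    apply hv0
    have h2 := hT v
    rw [hv, h.Q_zero] at h2
    apply hns v
    · intro u
      have h1 := hT (u + v)
      rw [map_add, hv, add_zero, hT, h.polar] at h1
      linear_combination (-1 : F) * h1 + h2
    · exact h2.symm
  refine ⟨Matrix.GeneralLinearGroup.mkOfDetNeZero _ hdet, ?_, hmv⟩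
  intro u v
  show Q (LinearMap.toMatrix' T *ᵥ u) = Q u
  rw [hmv, hT]

end QData

/-- admissible maps: isometries mapping `U` to `U` and fixing everything orthogonal to `U` -/
def Adm {F : Type*} [Field F] {ι : Type} (Q : (ι → F) → F) (B : (ι → F) → (ι → F) → F)
    (U : Submodule F (ι → F)) (T : (ι → F) →ₗ[F] (ι → F)) : Prop :=
  (∀ v, Q (T v) = Q v) ∧ (∀ v ∈ U, T v ∈ U) ∧ (∀ y, (∀ u ∈ U, B y u = 0) → T y = y)

namespace QData

variable {Q : (ι → F) → F} {B : (ι → F) → (ι → F) → F} (h : QData Q B)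
include h

omit h in
lemma adm_comp {U : Submodule F (ι → F)} {T1 T2 : (ι → F) →ₗ[F] (ι → F)}
    (h1 : Adm Q B U T1) (h2 : Adm Q B U T2) : Adm Q B U (T1.comp T2) :=
  ⟨fun v => by rw [LinearMap.comp_apply, h1.1, h2.1], fun v hv => h1.2.1 _ (h2.2.1 v hv),
    fun y hy => by rw [LinearMap.comp_apply, h2.2.2 y hy, h1.2.2 y hy]⟩

lemma adm_refl (U : Submodule F (ι → F)) (w : ι → F) (hwU : w ∈ U) (hw : Q w ≠ 0) :
    Adm Q B U (h.refl w) :=
  ⟨h.Q_refl w hw, fun v hv => by
    rw [h.refl_apply]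
    exact U.sub_mem hv (U.smul_mem _ hwU), fun y hy => by
    rw [h.refl_apply, hy w hwU, zero_div, zero_smul, sub_zero]⟩

lemma adm_siegel (U : Submodule F (ι → F)) (a x : ι → F) (haU : a ∈ U) (hxU : x ∈ U)
    (ha : Q a = 0) (hax : B a x = 0) : Adm Q B U (h.siegel a x) :=
  ⟨h.Q_siegel a x ha hax, fun v hv => by
    rw [h.siegel_apply]
    exact U.sub_mem (U.add_mem hv (U.smul_mem _ hxU)) (U.smul_mem _ haU), fun y hy => by
    rw [h.siegel_apply, hy a haU, hy x hxU]
    simp⟩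

lemma move_sing_aux (U : Submodule F (ι → F)) (a a' : ι → F) (haU : a ∈ U) (ha'U : a' ∈ U)
    (ha : Q a = 0) (ha' : Q a' = 0) (hne : B a a' ≠ 0) :
    ∃ T, Adm Q B U T ∧ T a = a' := by
  have hQ : Q (a - a') = - B a a' := by rw [h.Q_sub, ha, ha']; ring
  have hw : Q (a - a') ≠ 0 := by rw [hQ]; exact neg_ne_zero.mpr hne
  refine ⟨h.refl (a - a'), h.adm_refl U _ (U.sub_mem haU ha'U) hw, ?_⟩
  have hB : B a (a - a') = - B a a' := by rw [h.sub_right, h.B_self, ha]; ring
  rw [h.refl_apply, hB, hQ, div_self (neg_ne_zero.mpr hne), one_smul]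
  abel

lemma exists_c (U : Submodule F (ι → F)) (hU : ∀ v ∈ U, v ≠ 0 → ∃ z ∈ U, B v z ≠ 0)
    (a a' : ι → F) (haU : a ∈ U) (ha'U : a' ∈ U) (ha : Q a = 0)
    (ha0 : a ≠ 0) (ha'0 : a' ≠ 0) (hz : B a a' = 0) :
    ∃ c ∈ U, Q c = 0 ∧ B a c ≠ 0 ∧ B a' c ≠ 0 := by
  obtain ⟨y0, hy0U, hy0⟩ := hU a haU ha0
  obtain ⟨y, hyU, hy⟩ : ∃ y ∈ U, B a y = 1 :=
    ⟨(B a y0)⁻¹ • y0, U.smul_mem _ hy0U, by rw [h.smul_right, inv_mul_cancel₀ hy0]⟩
  obtain ⟨b, hbU, hQb, hab⟩ : ∃ b ∈ U, Q b = 0 ∧ B a b = 1 := by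
    refine ⟨y - Q y • a, U.sub_mem hyU (U.smul_mem _ haU), ?_, ?_⟩
    · rw [h.Q_sub, h.smul, ha, h.smul_right, h.symm y a, hy]; ring
    · rw [h.sub_right, h.smul_right, h.B_self, ha, hy]; ring
  by_cases hα : B a' b = 0
  · obtain ⟨z, hzU, hz'⟩ := hU a' ha'U ha'0
    obtain ⟨x, hxU, hxa, hxb, ha'x⟩ : ∃ x ∈ U, B x a = 0 ∧ B x b = 0 ∧ B a' x ≠ 0 := by
      refine ⟨z - B z b • a - B z a • b,
        U.sub_mem (U.sub_mem hzU (U.smul_mem _ haU)) (U.smul_mem _ hbU), ?_, ?_, ?_⟩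
      · rw [h.sub_left, h.sub_left, h.smul_left, h.smul_left, h.B_self, ha, h.symm b a, hab]; ring
      · rw [h.sub_left, h.sub_left, h.smul_left, h.smul_left, hab, h.B_self, hQb]; ring
      · rw [h.sub_right, h.sub_right, h.smul_right, h.smul_right, h.symm a' a, hz, hα]
        simpa using hz'
    refine ⟨b + x - Q x • a, U.sub_mem (U.add_mem hbU hxU) (U.smul_mem _ haU), ?_, ?_, ?_⟩
    · rw [h.Q_sub, h.polar, h.smul, ha, hQb, h.smul_right, h.add_left, h.symm b a, hab, hxa,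
        h.symm b x, hxb]
      ring
    · rw [h.sub_right, h.add_right, h.smul_right, h.B_self, ha, hab, h.symm a x, hxa]
      simp
    · rw [h.sub_right, h.add_right, h.smul_right, hα, h.symm a' a, hz]
      simpa using ha'x
  · exact ⟨b, hbU, hQb, by rw [hab]; exact one_ne_zero, hα⟩

lemma move_sing (U : Submodule F (ι → F)) (hU : ∀ v ∈ U, v ≠ 0 → ∃ z ∈ U, B v z ≠ 0)
    (a a' : ι → F) (haU : a ∈ U) (ha'U : a' ∈ U) (ha : Q a = 0) (ha' : Q a' = 0)
    (ha0 : a ≠ 0) (ha'0 : a' ≠ 0) :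
    ∃ T, Adm Q B U T ∧ T a = a' := by
  by_cases hne : B a a' = 0
  · obtain ⟨c, hcU, hQc, hac, ha'c⟩ := h.exists_c U hU a a' haU ha'U ha ha0 ha'0 hne
    obtain ⟨T1, hT1, hT1a⟩ := h.move_sing_aux U a c haU hcU ha hQc hac
    obtain ⟨T2, hT2, hT2c⟩ := h.move_sing_aux U c a' hcU ha'U hQc ha' (by rw [h.symm]; exact ha'c)
    exact ⟨T2.comp T1, adm_comp hT2 hT1, by rw [LinearMap.comp_apply, hT1a, hT2c]⟩
  · exact h.move_sing_aux U a a' haU ha'U ha ha' hne

lemma move_second (U : Submodule F (ι → F)) (a b0 b : ι → F) (haU : a ∈ U) (hb0U : b0 ∈ U)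
    (hbU : b ∈ U) (ha : Q a = 0) (hb0 : Q b0 = 0) (hb : Q b = 0) (hab0 : B a b0 = 1)
    (hab : B a b = 1) :
    ∃ T, Adm Q B U T ∧ T a = a ∧ T b0 = b := by
  obtain ⟨x, hx⟩ : ∃ x, x = b - b0 - B b b0 • a := ⟨_, rfl⟩
  have hxU : x ∈ U := by
    rw [hx]; exact U.sub_mem (U.sub_mem hbU hb0U) (U.smul_mem _ haU)
  have hax : B a x = 0 := by
    rw [hx, h.sub_right, h.sub_right, h.smul_right, h.B_self, ha, hab, hab0]; ring
  have hb0x : B b0 x = 0 := by
    rw [hx, h.sub_right, h.sub_right, h.smul_right, h.B_self, hb0, h.symm b0 a, hab0, h.symm b0 b]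
    ring
  have hQx : Q x = - B b b0 := by
    rw [hx, h.Q_sub, h.Q_sub, h.smul, ha, hb, hb0, h.smul_right, h.sub_left, h.symm b a,
      h.symm b0 a, hab, hab0]
    ring
  refine ⟨h.siegel a x, h.adm_siegel U a x haU hxU ha hax, ?_, ?_⟩
  · rw [h.siegel_apply, h.B_self, ha, hax]
    simp
  · rw [h.siegel_apply, hb0x, h.symm b0 a, hab0, hQx, hx]
    module

end QData

/-- general inverse action lemma -/
lemma gl_inv_mulVec (g : GL ι F) (u w : ι → F) (hg : (g : Matrix ι ι F) *ᵥ u = w) :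
    ((g⁻¹ : GL ι F) : Matrix ι ι F) *ᵥ w = u := by
  rw [← hg, Matrix.mulVec_mulVec, ← Units.val_mul, inv_mul_cancel, Units.val_one,
    Matrix.one_mulVec]

/-- isometries fixing a set of vectors pointwise -/
def fixG (Q : (ι → F) → F) (S : Set (ι → F)) : Subgroup (GL ι F) where
  carrier := {g | g ∈ Cfsg.isometryGroup F Q ∧ ∀ s ∈ S, (g : Matrix ι ι F) *ᵥ s = s}
  mul_mem' := by
    intro a b ha hb
    refine ⟨mul_mem ha.1 hb.1, fun s hs => ?_⟩
    rw [Units.val_mul, ← Matrix.mulVec_mulVec, hb.2 s hs, ha.2 s hs]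
  one_mem' := ⟨one_mem _, fun s _ => by simp⟩
  inv_mem' := by
    intro a ha
    exact ⟨inv_mem ha.1, fun s hs => gl_inv_mulVec a s s (ha.2 s hs)⟩

lemma mem_fixG (Q : (ι → F) → F) (S : Set (ι → F)) (g : GL ι F) :
    g ∈ fixG Q S ↔ g ∈ Cfsg.isometryGroup F Q ∧ ∀ s ∈ S, (g : Matrix ι ι F) *ᵥ s = s := Iff.rfl

lemma mem_isom (Q : (ι → F) → F) (g : GL ι F) :
    g ∈ Cfsg.isometryGroup F Q ↔ ∀ v, Q ((g : Matrix ι ι F) *ᵥ v) = Q v := by
  constructor
  · intro hg v
    exact hg v v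
  · intro hg u v
    exact hg u

lemma fixG_empty (Q : (ι → F) → F) : fixG Q (∅ : Set (ι → F)) = Cfsg.isometryGroup F Q := by
  ext g
  simp [mem_fixG]

lemma fixG_mono (Q : (ι → F) → F) {S S' : Set (ι → F)} (hSS : S ⊆ S') : fixG Q S' ≤ fixG Q S :=
  fun _ hg => ⟨hg.1, fun s hs => hg.2 s (hSS hs)⟩

/-- the orbit-stabiliser step for pointwise stabilisers -/
lemma card_fixG_step (Q : (ι → F) → F) (S : Set (ι → F)) (x : ι → F) (X : Set (ι → F))
    (hmaps : ∀ g ∈ fixG Q S, (g : Matrix ι ι F) *ᵥ x ∈ X)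
    (hsurj : ∀ a ∈ X, ∃ g ∈ fixG Q S, (g : Matrix ι ι F) *ᵥ x = a) :
    Nat.card (fixG Q S) = Nat.card X * Nat.card (fixG Q (insert x S)) := by
  have hle : fixG Q (insert x S) ≤ fixG Q S := fixG_mono Q (Set.subset_insert x S)
  let π : fixG Q S → X := fun g => ⟨(g.1 : Matrix ι ι F) *ᵥ x, hmaps g.1 g.2⟩
  have hsurj' : Function.Surjective π := by
    rintro ⟨a, ha⟩
    obtain ⟨g, hg, hga⟩ := hsurj a ha
    exact ⟨⟨g, hg⟩, Subtype.ext hga⟩
  have hfib : ∀ g g' : fixG Q S,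
      π g = π g' ↔ g⁻¹ * g' ∈ (fixG Q (insert x S)).subgroupOf (fixG Q S) := by
    intro g g'
    rw [Subgroup.mem_subgroupOf]
    have hmem : ((g⁻¹ * g' : fixG Q S) : GL ι F) ∈ fixG Q S := (g⁻¹ * g').2
    have hval : (((g⁻¹ * g' : fixG Q S) : GL ι F) : Matrix ι ι F) *ᵥ x =
        ((g.1⁻¹ : GL ι F) : Matrix ι ι F) *ᵥ ((g'.1 : Matrix ι ι F) *ᵥ x) := by
      rw [Matrix.mulVec_mulVec]
      rfl
    constructor
    · intro hpi
      have h1 : (g.1 : Matrix ι ι F) *ᵥ x = (g'.1 : Matrix ι ι F) *ᵥ x := congrArg Subtype.val hpi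
      refine ⟨hmem.1, ?_⟩
      intro s hs
      rcases Set.mem_insert_iff.mp hs with hsx | hs
      · rw [hsx, hval, ← h1]
        exact gl_inv_mulVec g.1 _ _ rfl
      · exact hmem.2 s hs
    · intro hfix
      have h1 := hfix.2 x (Set.mem_insert x S)
      rw [hval] at h1
      apply Subtype.ext
      show (g.1 : Matrix ι ι F) *ᵥ x = (g'.1 : Matrix ι ι F) *ᵥ x
      have h2 := gl_inv_mulVec (g.1⁻¹) _ _ h1
      rw [inv_inv] at h2
      exact h2
  rw [card_of_fibration ((fixG Q (insert x S)).subgroupOf (fixG Q S)) π hsurj' hfib]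
  congr 1
  exact Nat.card_congr (Subgroup.subgroupOfEquivOfLe hle).toEquiv

namespace QData

variable {Q : (ι → F) → F} {B : (ι → F) → (ι → F) → F} (h : QData Q B)
include h

/-- the orthogonal complement of a set -/
def perp (S : Set (ι → F)) : Submodule F (ι → F) where
  carrier := {v | ∀ s ∈ S, B v s = 0}
  add_mem' := by
    intro a b ha hb s hs
    rw [h.add_left, ha s hs, hb s hs, add_zero]
  zero_mem' := fun s _ => h.B_zero_left s
  smul_mem' := by
    intro c a ha s hs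
    rw [h.smul_left, ha s hs, mul_zero]

lemma mem_perp (S : Set (ι → F)) (v : ι → F) : v ∈ h.perp S ↔ ∀ s ∈ S, B v s = 0 := Iff.rfl

lemma B_gl (g : GL ι F) (hg : g ∈ Cfsg.isometryGroup F Q) (u v : ι → F) :
    B ((g : Matrix ι ι F) *ᵥ u) ((g : Matrix ι ι F) *ᵥ v) = B u v :=
  h.B_of_isom (Matrix.mulVecLin (g : Matrix ι ι F)) (fun w => hg w w) u v

lemma adm_fix {S : Set (ι → F)} {T : (ι → F) →ₗ[F] (ι → F)} (hT : Adm Q B (h.perp S) T)
    (s : ι → F) (hs : s ∈ S) : T s = s :=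
  hT.2.2 s (fun u hu => by rw [h.symm]; exact hu s hs)

lemma stageA (hns : ∀ v, (∀ u, B u v = 0) → Q v = 0 → v = 0) (S : Set (ι → F))
    (hU : ∀ v ∈ h.perp S, v ≠ 0 → ∃ z ∈ h.perp S, B v z ≠ 0)
    (e : ι → F) (heU : e ∈ h.perp S) (hQe : Q e = 0) (he0 : e ≠ 0) :
    Nat.card (fixG Q S) = Nat.card {a : ι → F | a ∈ h.perp S ∧ Q a = 0 ∧ a ≠ 0} *
      Nat.card (fixG Q (insert e S)) := by
  apply card_fixG_step
  · intro g hg
    refine ⟨?_, ?_, ?_⟩
    · intro s hs
      have h1 := h.B_gl g hg.1 e s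
      rw [hg.2 s hs] at h1
      rw [h1]
      exact heU s hs
    · rw [(mem_isom Q g).mp hg.1, hQe]
    · intro h0
      apply he0
      have h1 := gl_inv_mulVec g e 0 h0
      rw [Matrix.mulVec_zero] at h1
      exact h1.symm
  · rintro a ⟨haU, hQa, ha0⟩
    obtain ⟨T, hT, hTe⟩ := h.move_sing (h.perp S) hU e a heU haU hQe hQa he0 ha0
    obtain ⟨g, hg, hgv⟩ := h.exists_gl hns T hT.1
    refine ⟨g, ⟨hg, fun s hs => ?_⟩, ?_⟩
    · rw [hgv]
      exact h.adm_fix hT s hs
    · rw [hgv, hTe]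

lemma stageB (hns : ∀ v, (∀ u, B u v = 0) → Q v = 0 → v = 0) (S : Set (ι → F))
    (e f : ι → F) (heU : e ∈ h.perp S) (hfU : f ∈ h.perp S) (hQe : Q e = 0) (hQf : Q f = 0)
    (hef : B e f = 1) :
    Nat.card (fixG Q (insert e S)) = Nat.card {b : ι → F | b ∈ h.perp S ∧ Q b = 0 ∧ B e b = 1} *
      Nat.card (fixG Q (insert f (insert e S))) := by
  apply card_fixG_step
  · intro g hg
    have hge : (g : Matrix ι ι F) *ᵥ e = e := hg.2 e (Set.mem_insert e S)
    refine ⟨?_, ?_, ?_⟩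
    · intro s hs
      have h1 := h.B_gl g hg.1 f s
      rw [hg.2 s (Set.mem_insert_of_mem e hs)] at h1
      rw [h1]
      exact hfU s hs
    · rw [(mem_isom Q g).mp hg.1, hQf]
    · have h1 := h.B_gl g hg.1 e f
      rw [hge] at h1
      rw [h1, hef]
  · rintro b ⟨hbU, hQb, heb⟩
    obtain ⟨T, hT, hTe, hTf⟩ := h.move_second (h.perp S) e f b heU hfU hbU hQe hQf hQb hef heb
    obtain ⟨g, hg, hgv⟩ := h.exists_gl hns T hT.1
    refine ⟨g, ⟨hg, fun s hs => ?_⟩, ?_⟩
    · rw [hgv]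
      rcases Set.mem_insert_iff.mp hs with hse | hs
      · rw [hse, hTe]
      · exact h.adm_fix hT s hs
    · rw [hgv, hTf]

/-- the second orbit is in bijection with the next orthogonal complement -/
lemma card_Y (S : Set (ι → F)) (e f : ι → F) (heU : e ∈ h.perp S) (hfU : f ∈ h.perp S)
    (hQe : Q e = 0) (hQf : Q f = 0) (hef : B e f = 1) :
    Nat.card {b : ι → F | b ∈ h.perp S ∧ Q b = 0 ∧ B e b = 1} =
      Nat.card (h.perp (insert f (insert e S))) := by
  have hee : B e e = 0 := by rw [h.B_self, hQe, mul_zero]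
  have hff : B f f = 0 := by rw [h.B_self, hQf, mul_zero]
  have hfe : B f e = 1 := by rw [h.symm, hef]
  refine Nat.card_congr
    { toFun := fun b => ⟨b.1 - f - B b.1 f • e, ?_⟩
      invFun := fun x => ⟨f + x.1 - Q x.1 • e, ?_, ?_, ?_⟩
      left_inv := ?_
      right_inv := ?_ }
  · obtain ⟨b, hbU, hQb, heb⟩ := b
    have hbe : B b e = 1 := by rw [h.symm, heb]
    intro s hs
    show B (b - f - B b f • e) s = 0
    rw [h.sub_left, h.sub_left, h.smul_left]
    rcases Set.mem_insert_iff.mp hs with hsf | hs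
    · rw [hsf, hff, hef]; ring
    · rcases Set.mem_insert_iff.mp hs with hse | hs
      · rw [hse, hbe, hfe, hee]; ring
      · rw [hbU s hs, hfU s hs, heU s hs]; ring
  · obtain ⟨x, hx⟩ := x
    intro s hs
    show B (f + x - Q x • e) s = 0
    rw [h.sub_left, h.add_left, h.smul_left, hfU s hs, heU s hs,
      hx s (Set.mem_insert_of_mem f (Set.mem_insert_of_mem e hs))]
    ring
  · obtain ⟨x, hx⟩ := x
    have hxf : B x f = 0 := hx f (Set.mem_insert f _)
    have hxe : B x e = 0 := hx e (Set.mem_insert_of_mem f (Set.mem_insert e S))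
    show Q (f + x - Q x • e) = 0
    rw [h.Q_sub, h.polar, h.smul, hQe, hQf, h.smul_right, h.add_left, hfe, hxe, h.symm f x, hxf]
    ring
  · obtain ⟨x, hx⟩ := x
    have hxe : B x e = 0 := hx e (Set.mem_insert_of_mem f (Set.mem_insert e S))
    show B e (f + x - Q x • e) = 1
    rw [h.sub_right, h.add_right, h.smul_right, hef, hee, h.symm e x, hxe]
    ring
  · rintro ⟨b, hbU, hQb, heb⟩
    have hbe : B b e = 1 := by rw [h.symm, heb]
    apply Subtype.ext
    show f + (b - f - B b f • e) - Q (b - f - B b f • e) • e = b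
    have hQx : Q (b - f - B b f • e) = - B b f := by
      rw [h.Q_sub, h.Q_sub, h.smul, hQe, hQb, hQf, h.smul_right, h.sub_left, hbe, hfe]
      ring
    rw [hQx]
    module
  · rintro ⟨x, hx⟩
    have hxf : B x f = 0 := hx f (Set.mem_insert f _)
    apply Subtype.ext
    show f + x - Q x • e - f - B (f + x - Q x • e) f • e = x
    have hBf : B (f + x - Q x • e) f = - Q x := by
      rw [h.sub_left, h.add_left, h.smul_left, hff, hxf, hef]
      ring
    rw [hBf]
    module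

/-- one full step of the chain -/
lemma step (hns : ∀ v, (∀ u, B u v = 0) → Q v = 0 → v = 0) (S : Set (ι → F))
    (hU : ∀ v ∈ h.perp S, v ≠ 0 → ∃ z ∈ h.perp S, B v z ≠ 0)
    (e f : ι → F) (heU : e ∈ h.perp S) (hfU : f ∈ h.perp S) (hQe : Q e = 0) (hQf : Q f = 0)
    (hef : B e f = 1) :
    Nat.card (fixG Q S) = Nat.card {a : ι → F | a ∈ h.perp S ∧ Q a = 0 ∧ a ≠ 0} *
      Nat.card (h.perp (insert f (insert e S))) * Nat.card (fixG Q (insert f (insert e S))) := by
  have he0 : e ≠ 0 := by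
    intro h0
    rw [h0, h.B_zero_left] at hef
    exact zero_ne_one hef
  rw [h.stageA hns S hU e heU hQe he0, h.stageB hns S e f heU hfU hQe hQf hef,
    h.card_Y S e f heU hfU hQe hQf hef]
  ring

/-- the chain of pointwise stabilisers of hyperbolic pairs -/
theorem chain (hns : ∀ v, (∀ u, B u v = 0) → Q v = 0 → v = 0) (m : ℕ)
    (S : ℕ → Set (ι → F)) (e f : ℕ → (ι → F))
    (hS : ∀ k < m, S k = insert (f k) (insert (e k) (S (k + 1))))
    (hU : ∀ k < m, ∀ v ∈ h.perp (S (k + 1)), v ≠ 0 → ∃ z ∈ h.perp (S (k + 1)), B v z ≠ 0)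
    (he : ∀ k < m, e k ∈ h.perp (S (k + 1))) (hf : ∀ k < m, f k ∈ h.perp (S (k + 1)))
    (hQe : ∀ k < m, Q (e k) = 0) (hQf : ∀ k < m, Q (f k) = 0)
    (hef : ∀ k < m, B (e k) (f k) = 1)
    (N M : ℕ → ℕ)
    (hN : ∀ k < m, Nat.card {a : ι → F | a ∈ h.perp (S (k + 1)) ∧ Q a = 0 ∧ a ≠ 0} = N k)
    (hM : ∀ k < m, Nat.card (h.perp (S k)) = M k) :
    Nat.card (fixG Q (S m)) = (∏ k ∈ Finset.range m, N k * M k) * Nat.card (fixG Q (S 0)) := by
  induction m with
  | zero => simp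
  | succ n ih =>
    have ih' := ih (fun k hk => hS k (by omega)) (fun k hk => hU k (by omega))
      (fun k hk => he k (by omega)) (fun k hk => hf k (by omega)) (fun k hk => hQe k (by omega))
      (fun k hk => hQf k (by omega)) (fun k hk => hef k (by omega))
      (fun k hk => hN k (by omega)) (fun k hk => hM k (by omega))
    have hn : n < n + 1 := Nat.lt_succ_self n
    rw [h.step hns (S (n + 1)) (hU n hn) (e n) (f n) (he n hn) (hf n hn) (hQe n hn) (hQf n hn)
      (hef n hn), ← hS n hn, ih', hN n hn, hM n hn, Finset.prod_range_succ]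
    ring

end QData

end Cfsg.Agent.Helper7.OrthChain
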