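import Mathlib
import Cfsg.Agent.Helper7.Frobenius
import Cfsg.Agent.Helper7.SylowLemmas

set_option autoImplicit false

universe u

namespace Cfsg.Agent.Helper7

/-- Characterisation of the elements of `p`-power order as the solutions of `x ^ |P| = 1`. -/
theorem exists_orderOf_eq_prime_pow_iff {G : Type u} [Group G] [Finite G] (p : ℕ)
    [Fact p.Prime] (g : G) :
    (∃ k : ℕ, orderOf g = p ^ k) ↔ g ^ (p ^ (Nat.card G).factorization p) = 1 := by
  have hp : p.Prime := Fact.out
  constructor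
  · rintro ⟨k, hk⟩
    have h1 : p ^ k ∣ Nat.card G := hk ▸ orderOf_dvd_natCard g
    have h2 : k ≤ (Nat.card G).factorization p :=
      (hp.pow_dvd_iff_le_factorization Nat.card_pos.ne').1 h1
    apply orderOf_dvd_iff_pow_eq_one.1
    rw [hk]
    exact pow_dvd_pow p h2
  · intro h
    obtain ⟨k, -, hk⟩ := (Nat.dvd_prime_pow hp).1 (orderOf_dvd_of_pow_eq_one h)
    exact ⟨k, hk⟩

/-- The number of elements of `p`-power order is divisible by the order of a Sylow
`p`-subgroup (Frobenius). -/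
theorem sylow_card_dvd_card_pElements {G : Type u} [Group G] [Finite G] (p : ℕ)
    [Fact p.Prime] :
    p ^ (Nat.card G).factorization p ∣ Nat.card {g : G // ∃ k : ℕ, orderOf g = p ^ k} := by
  rw [Nat.card_congr (Equiv.subtypeEquivRight (exists_orderOf_eq_prime_pow_iff p))]
  exact dvd_card_pow_eq_one _ (Nat.ordProj_dvd _ _)

/-- The number of nontrivial elements of `p`-power order is divisible by `p - 1`. -/
theorem pred_dvd_card_nontrivial_pElements {G : Type u} [Group G] [Finite G] (p : ℕ)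
    [Fact p.Prime] :
    (p - 1) ∣ Nat.card {g : G // (∃ k : ℕ, orderOf g = p ^ k) ∧ g ≠ 1} := by
  have hp : p.Prime := Fact.out
  apply dvd_card_of_zpowers_closed
  · rintro x y hxy ⟨⟨k, hk⟩, hx1⟩
    have hord : orderOf y = orderOf x := by
      rw [← Nat.card_zpowers, ← Nat.card_zpowers, hxy]
    refine ⟨⟨k, hord ▸ hk⟩, ?_⟩
    rintro rfl
    rw [Subgroup.zpowers_one_eq_bot, Subgroup.zpowers_eq_bot] at hxy
    exact hx1 hxy
  · rintro x ⟨⟨k, hk⟩, hx1⟩
    have hk0 : k ≠ 0 := by
      rintro rfl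
      rw [pow_zero, orderOf_eq_one_iff] at hk
      exact hx1 hk
    obtain ⟨k', rfl⟩ := Nat.exists_eq_succ_of_ne_zero hk0
    rw [hk, Nat.totient_prime_pow_succ hp]
    exact Dvd.intro_left _ rfl

theorem card_pElements_eq_succ {G : Type u} [Group G] [Finite G] (p : ℕ) :
    Nat.card {g : G // ∃ k : ℕ, orderOf g = p ^ k} =
      Nat.card {g : G // (∃ k : ℕ, orderOf g = p ^ k) ∧ g ≠ 1} + 1 := by
  classical
  let _ : Fintype G := Fintype.ofFinite _
  rw [Nat.card_eq_fintype_card, Nat.card_eq_fintype_card, Fintype.card_subtype,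
    Fintype.card_subtype]
  have h1 : (Finset.univ.filter (fun g : G => ∃ k : ℕ, orderOf g = p ^ k)) =
      insert 1 (Finset.univ.filter (fun g : G => (∃ k : ℕ, orderOf g = p ^ k) ∧ g ≠ 1)) := by
    ext g
    simp only [Finset.mem_filter, Finset.mem_univ, true_and, Finset.mem_insert]
    constructor
    · intro h
      by_cases hg : g = 1
      · exact Or.inl hg
      · exact Or.inr ⟨h, hg⟩
    · rintro (h | h)
      · exact ⟨0, by rw [h, orderOf_one, pow_zero]⟩
      · exact h.1
  rw [h1, Finset.card_insert_of_notMem]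
  simp

/-- If a Sylow `p`-subgroup `P` is not normal, there are at least `p * |P|` elements of
`p`-power order. -/
theorem card_pElements_ge {G : Type u} [Group G] [Finite G] (p : ℕ) [Fact p.Prime]
    (P : Sylow p G) (hP : ¬ (P : Subgroup G).Normal) :
    p * Nat.card (P : Subgroup G) ≤ Nat.card {g : G // ∃ k : ℕ, orderOf g = p ^ k} := by
  have hp : p.Prime := Fact.out
  have hcardP : Nat.card (P : Subgroup G) = p ^ (Nat.card G).factorization p :=
    P.card_eq_multiplicity
  obtain ⟨c, hc⟩ := sylow_card_dvd_card_pElements (G := G) p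
  obtain ⟨d, hd⟩ := pred_dvd_card_nontrivial_pElements (G := G) p
  have hsplit := card_pElements_eq_succ (G := G) p
  set a := (Nat.card G).factorization p with ha
  have hc0 : c ≠ 0 := by
    rintro rfl
    rw [mul_zero] at hc
    rw [hc] at hsplit
    omega
  have hc1 : c ≠ 1 := by
    rintro rfl
    apply hP
    rw [mul_one] at hc
    let f : ↥(P : Subgroup G) → {g : G // ∃ k : ℕ, orderOf g = p ^ k} := fun x => ⟨x.1, by
      obtain ⟨k, hk⟩ := (IsPGroup.iff_orderOf.1 P.2) x
      exact ⟨k, by rw [← hk, Subgroup.orderOf_coe]⟩⟩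
    have hf : Function.Injective f := by
      intro x y h
      have h' : (f x).1 = (f y).1 := congrArg Subtype.val h
      exact Subtype.ext h'
    have hbij : Function.Bijective f :=
      (Nat.bijective_iff_injective_and_card f).2 ⟨hf, by rw [hcardP, hc]⟩
    constructor
    intro x hx g
    have h1 : ∃ k : ℕ, orderOf (g * x * g⁻¹) = p ^ k := by
      obtain ⟨k, hk⟩ := (IsPGroup.iff_orderOf.1 P.2) ⟨x, hx⟩
      exact ⟨k, by rw [orderOf_conj_eq, ← hk, Subgroup.orderOf_mk]⟩
    obtain ⟨y, hy⟩ := hbij.2 ⟨_, h1⟩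
    have e : (y : G) = g * x * g⁻¹ := congrArg Subtype.val hy
    rw [← e]
    exact y.2
  -- `c ≡ 1 mod (p - 1)`
  have hp1 : 1 ≤ p := hp.one_lt.le
  have h1 : ((p : ℤ) - 1) ∣ (p : ℤ) ^ a - 1 := by
    have := sub_dvd_pow_sub_pow (p : ℤ) 1 a
    rwa [one_pow] at this
  have h2 : ((p : ℤ) - 1) ∣ (p : ℤ) ^ a * c - 1 := by
    have e : (p : ℤ) ^ a * c - 1 = ((p - 1 : ℕ) : ℤ) * d := by
      have h3 : (p ^ a * c : ℕ) = (p - 1) * d + 1 := by rw [← hc, hsplit, hd]
      have h4 : ((p ^ a * c : ℕ) : ℤ) = (((p - 1) * d + 1 : ℕ) : ℤ) := by rw [h3]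
      push_cast at h4
      rw [h4]
      push_cast
      ring
    rw [e, Nat.cast_sub hp1, Nat.cast_one]
    exact Dvd.intro _ rfl
  have h3 : ((p : ℤ) - 1) ∣ (c : ℤ) - 1 := by
    have e : (c : ℤ) - 1 = ((p : ℤ) ^ a * c - 1) - ((p : ℤ) ^ a - 1) * c := by ring
    rw [e]
    exact dvd_sub h2 (Dvd.dvd.mul_right h1 _)
  have hc2 : (0 : ℤ) < (c : ℤ) - 1 := by
    have : 2 ≤ c := by omega
    omega
  have h4 : (p : ℤ) - 1 ≤ (c : ℤ) - 1 := Int.le_of_dvd hc2 h3
  have h5 : p ≤ c := by omega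
  rw [hcardP, hc, mul_comm p]
  exact Nat.mul_le_mul_left _ h5

end Cfsg.Agent.Helper7
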