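import Mathlib
import Cfsg.Agent.Helper7.SylowLemmas
import Cfsg.Agent.Helper7.SylowMore

set_option autoImplicit false

namespace Cfsg.Agent.Helper7

variable {G : Type*} [Group G]

/-- `x` is a `σ`-element: every prime divisor of its order lies in `σ`. -/
def IsPiElt (σ : Finset ℕ) (x : G) : Prop := ∀ q : ℕ, q.Prime → q ∣ orderOf x → q ∈ σ

/-- The `H`-conjugacy class of `x` as a set. -/
def orbSet (H : Subgroup G) (x : G) : Set G := {y | ∃ h ∈ H, y = h * x * h⁻¹}

/-- The set of `H`-classes of `σ`-elements of `H`. -/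
def piClasses (σ : Finset ℕ) (H : Subgroup G) : Set (Set G) :=
  {T | ∃ v ∈ H, IsPiElt σ v ∧ T = orbSet H v}

/-- The `σ`-part of a natural number. -/
def piPart (σ : Finset ℕ) (n : ℕ) : ℕ := ∏ q ∈ σ, q ^ n.factorization q

theorem mem_orbSet_self (H : Subgroup G) (x : G) : x ∈ orbSet H x :=
  ⟨1, H.one_mem, by simp⟩

theorem orbSet_conj (H : Subgroup G) (c x : G) (hc : c ∈ H) :
    orbSet H (c * x * c⁻¹) = orbSet H x := by
  ext y
  constructor
  · rintro ⟨h, hh, rfl⟩
    exact ⟨h * c, H.mul_mem hh hc, by group⟩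
  · rintro ⟨h, hh, rfl⟩
    exact ⟨h * c⁻¹, H.mul_mem hh (H.inv_mem hc), by group⟩

theorem piPart_le_of_dvd (σ : Finset ℕ) (hσ : ∀ q ∈ σ, q.Prime) (a b : ℕ) (hb : b ≠ 0)
    (hab : a ∣ b) : piPart σ a ≤ piPart σ b := by
  have ha : a ≠ 0 := by
    rintro rfl
    exact hb (Nat.eq_zero_of_zero_dvd hab)
  unfold piPart
  apply Finset.prod_le_prod
  · intro q _
    exact Nat.zero_le _
  · intro q hq
    exact Nat.pow_le_pow_right (hσ q hq).pos ((Nat.factorization_le_iff_dvd ha hb).2 hab q)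

theorem piClasses_empty_subset (H : Subgroup G) [Finite G] :
    piClasses (∅ : Finset ℕ) H ⊆ {orbSet H 1} := by
  rintro T ⟨v, -, hv, rfl⟩
  have h1 : orderOf v = 1 := by
    by_contra hne
    obtain ⟨q, hq, hqd⟩ := Nat.exists_prime_and_dvd hne
    exact absurd (hv q hq hqd) (by simp)
  rw [orderOf_eq_one_iff] at h1
  rw [h1]
  rfl

/-- Existence of a normal form for classes of `insert p τ`-elements. -/
theorem exists_normal_form [Finite G] (p : ℕ) [Fact p.Prime] (τ : Finset ℕ) (H : Subgroup G)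
    (P : Sylow p H) (T : Set G) (hT : T ∈ piClasses (insert p τ) H) :
    ∃ u ∈ (P : Subgroup H).map H.subtype, ∃ v ∈ H ⊓ Subgroup.centralizer {u},
      IsPiElt τ v ∧ T = orbSet H (u * v) := by
  have hp : p.Prime := Fact.out
  obtain ⟨y, hyH, hy, rfl⟩ := hT
  obtain ⟨u₀, v₀, a, hyuv, hcomm, hu₀, hv₀, hu₀y, hv₀y⟩ := exists_pPart_mul p hp y
  have hzy : Subgroup.zpowers y ≤ H := by
    rw [Subgroup.zpowers_le]
    exact hyH
  have hu₀H : u₀ ∈ H := hzy hu₀y
  have hv₀H : v₀ ∈ H := hzy hv₀y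
  -- conjugate u₀ into P
  have hpg : IsPGroup p (Subgroup.zpowers (⟨u₀, hu₀H⟩ : H)) := by
    rw [IsPGroup.iff_card, Nat.card_zpowers]
    have h1 : orderOf (⟨u₀, hu₀H⟩ : H) ∣ p ^ a := by
      apply orderOf_dvd_of_pow_eq_one
      apply Subtype.ext
      exact hu₀
    obtain ⟨j, -, hj⟩ := (Nat.dvd_prime_pow hp).1 h1
    exact ⟨j, hj⟩
  obtain ⟨Q, hQ⟩ := hpg.exists_le_sylow
  obtain ⟨h, hh⟩ := MulAction.exists_smul_eq H Q P
  have hmem : h * ⟨u₀, hu₀H⟩ * h⁻¹ ∈ P := by
    rw [← hh, mem_smul_sylow_iff]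
    have : h⁻¹ * (h * ⟨u₀, hu₀H⟩ * h⁻¹) * h = ⟨u₀, hu₀H⟩ := by group
    rw [this]
    exact hQ (Subgroup.mem_zpowers _)
  refine ⟨(h : G) * u₀ * (h : G)⁻¹, ⟨h * ⟨u₀, hu₀H⟩ * h⁻¹, hmem, rfl⟩,
    (h : G) * v₀ * (h : G)⁻¹, ⟨H.mul_mem (H.mul_mem h.2 hv₀H) (H.inv_mem h.2), ?_⟩, ?_, ?_⟩
  · show _ ∈ Subgroup.centralizer _
    rw [Subgroup.mem_centralizer_singleton_iff]
    have h1 : v₀ * u₀ = u₀ * v₀ := hcomm.eq.symm
    calc (h : G) * v₀ * (h : G)⁻¹ * ((h : G) * u₀ * (h : G)⁻¹)
        = (h : G) * (v₀ * u₀) * (h : G)⁻¹ := by group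
      _ = (h : G) * (u₀ * v₀) * (h : G)⁻¹ := by rw [h1]
      _ = (h : G) * u₀ * (h : G)⁻¹ * ((h : G) * v₀ * (h : G)⁻¹) := by group
  · intro q hq hqd
    rw [orderOf_conj_eq] at hqd
    have h1 : orderOf v₀ ∣ orderOf y := orderOf_dvd_of_mem_zpowers hv₀y
    have h2 : q ∈ insert p τ := hy q hq (hqd.trans h1)
    rcases Finset.mem_insert.1 h2 with h3 | h3
    · exfalso
      subst h3
      have h4 : q ∣ Nat.gcd (orderOf v₀) q := Nat.dvd_gcd hqd dvd_rfl
      rw [hv₀] at h4
      exact hq.one_lt.ne' (Nat.dvd_one.1 h4)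
    · exact h3
  · have h1 : (h : G) * u₀ * (h : G)⁻¹ * ((h : G) * v₀ * (h : G)⁻¹) = (h : G) * y * (h : G)⁻¹ := by
      rw [hyuv]
      group
    rw [h1, orbSet_conj H _ _ h.2]

theorem card_piClasses_le [Finite G] (σ : Finset ℕ) (hσ : ∀ q ∈ σ, q.Prime) :
    ∀ H : Subgroup G, Nat.card (piClasses σ H) ≤ piPart σ (Nat.card H) := by
  classical
  induction σ using Finset.induction_on with
  | empty =>
    intro H
    have h1 : piPart (∅ : Finset ℕ) (Nat.card H) = 1 := by
      unfold piPart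
      simp
    rw [h1, Nat.card_coe_set_eq]
    calc (piClasses (∅ : Finset ℕ) H).ncard ≤ ({orbSet H 1} : Set (Set G)).ncard :=
          Set.ncard_le_ncard (piClasses_empty_subset H) (Set.toFinite _)
      _ = 1 := Set.ncard_singleton _
  | insert p τ hpτ ih =>
    intro H
    have hp : p.Prime := hσ p (Finset.mem_insert_self p τ)
    haveI : Fact p.Prime := ⟨hp⟩
    have hτ : ∀ q ∈ τ, q.Prime := fun q hq => hσ q (Finset.mem_insert_of_mem hq)
    have ih' := ih hτ
    obtain ⟨P⟩ : Nonempty (Sylow p H) := inferInstance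
    set M := piPart τ (Nat.card H) with hM
    -- numbering of the τ-classes of the centralizers
    have hnum : ∀ u : G, ∃ f : Set G → ℕ,
        piClasses τ (H ⊓ Subgroup.centralizer {u}) ⊆ f ⁻¹' (Set.Iio M) ∧
        Set.InjOn f (piClasses τ (H ⊓ Subgroup.centralizer {u})) := by
      intro u
      apply Set.Finite.exists_injOn_of_encard_le (Set.toFinite _)
      rw [← Set.Finite.cast_ncard_eq (Set.toFinite _), ← Set.Finite.cast_ncard_eq (Set.toFinite _)]
      norm_cast
      rw [← Nat.card_coe_set_eq, ← Nat.card_coe_set_eq]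
      have h1 := ih' (H ⊓ Subgroup.centralizer {u})
      have h2 : piPart τ (Nat.card (H ⊓ Subgroup.centralizer {u} : Subgroup G)) ≤ M :=
        piPart_le_of_dvd τ hτ _ _ Nat.card_pos.ne' (Subgroup.card_dvd_of_le inf_le_left)
      have h3 : Nat.card (Set.Iio M) = M := by
        rw [Nat.card_coe_set_eq, ← Finset.coe_Iio, Set.ncard_coe_finset, Nat.card_Iio]
      rw [h3]
      exact h1.trans h2
    choose f hf1 hf2 using hnum
    have hE := fun T : piClasses (insert p τ) H => exists_normal_form p τ H P T.1 T.2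
    choose u hu v hv hvτ hT using hE
    have hW : ∀ T, orbSet (H ⊓ Subgroup.centralizer {u T}) (v T) ∈
        piClasses τ (H ⊓ Subgroup.centralizer {u T}) := fun T => ⟨v T, hv T, hvτ T, rfl⟩
    let Φ : piClasses (insert p τ) H → ((P : Subgroup H).map H.subtype) × Fin M := fun T =>
      (⟨u T, hu T⟩, ⟨f (u T) (orbSet (H ⊓ Subgroup.centralizer {u T}) (v T)), hf1 (u T) (hW T)⟩)
    have hΦ : Function.Injective Φ := by
      intro T T' hTT
      have h1 : u T = u T' := by
        have := congrArg (fun z => (z.1 : G)) hTT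
        exact this
      have h2 : f (u T) (orbSet (H ⊓ Subgroup.centralizer {u T}) (v T)) =
          f (u T') (orbSet (H ⊓ Subgroup.centralizer {u T'}) (v T')) := by
        have := congrArg (fun z => (z.2 : ℕ)) hTT
        exact this
      rw [← h1] at h2
      have hv' : v T' ∈ H ⊓ Subgroup.centralizer {u T} := by
        rw [h1]
        exact hv T'
      have h3 := hf2 (u T) (hW T) ⟨v T', hv', hvτ T', rfl⟩ h2
      have h4 : v T' ∈ orbSet (H ⊓ Subgroup.centralizer {u T}) (v T) := by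
        rw [h3]
        exact mem_orbSet_self _ _
      obtain ⟨c, hc, hc2⟩ := h4
      have hcH : c ∈ H := hc.1
      have hcu : c * u T = u T * c := by
        have h0 : c ∈ Subgroup.centralizer {u T} := hc.2
        rw [Subgroup.mem_centralizer_singleton_iff] at h0
        exact h0
      apply Subtype.ext
      rw [hT T, hT T', ← h1, hc2]
      have h5 : u T * (c * v T * c⁻¹) = c * (u T * v T) * c⁻¹ := by
        calc u T * (c * v T * c⁻¹) = (u T * c) * v T * c⁻¹ := by group
          _ = (c * u T) * v T * c⁻¹ := by rw [hcu]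
          _ = c * (u T * v T) * c⁻¹ := by group
      rw [h5, orbSet_conj H _ _ hcH]
    have h6 := Nat.card_le_card_of_injective Φ hΦ
    rw [Nat.card_prod, Nat.card_fin] at h6
    have h7 : Nat.card ((P : Subgroup H).map H.subtype) = p ^ (Nat.card H).factorization p := by
      rw [Subgroup.card_map_of_injective H.subtype_injective]
      exact Sylow.card_eq_multiplicity P
    have h8 : piPart (insert p τ) (Nat.card H) = p ^ (Nat.card H).factorization p * M := by
      rw [hM]
      unfold piPart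
      rw [Finset.prod_insert hpτ]
    rw [h8, ← h7]
    exact h6

end Cfsg.Agent.Helper7
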