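import Mathlib

set_option autoImplicit false

namespace Cfsg.Agent.Helper7

/-- `n` is a `π`-number. -/
def PiNum (π : Set ℕ) (n : ℕ) : Prop := ∀ p : ℕ, p.Prime → p ∣ n → p ∈ π

/-- `n` is a `π'`-number. -/
def PiNum' (π : Set ℕ) (n : ℕ) : Prop := ∀ p : ℕ, p.Prime → p ∣ n → p ∉ π

theorem PiNum.mul {π : Set ℕ} {a b : ℕ} (ha : PiNum π a) (hb : PiNum π b) : PiNum π (a * b) := by
  intro p hp hd
  rcases (Nat.Prime.dvd_mul hp).1 hd with h | h
  · exact ha p hp h
  · exact hb p hp h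

theorem PiNum.of_dvd {π : Set ℕ} {a b : ℕ} (hb : PiNum π b) (h : a ∣ b) : PiNum π a :=
  fun p hp hd => hb p hp (hd.trans h)

theorem PiNum'.of_dvd {π : Set ℕ} {a b : ℕ} (hb : PiNum' π b) (h : a ∣ b) : PiNum' π a :=
  fun p hp hd => hb p hp (hd.trans h)

theorem eq_one_of_piNum_piNum' {π : Set ℕ} {d : ℕ} (h1 : PiNum π d) (h2 : PiNum' π d) : d = 1 := by
  by_contra hne
  exact h2 _ (Nat.minFac_prime hne) (Nat.minFac_dvd d) (h1 _ (Nat.minFac_prime hne) (Nat.minFac_dvd d))

theorem PiNum'.coprime_prime {π : Set ℕ} {t p : ℕ} (ht : PiNum' π t) (hp : p.Prime) (hpπ : p ∈ π) :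
    Nat.Coprime t p := by
  rw [Nat.coprime_comm, Nat.Prime.coprime_iff_not_dvd hp]
  intro h
  exact ht p hp h hpπ

/-- Core commutation lemma: a `p`-element normalizing an `r`-subgroup `B`, some `t`-th power of a
translate of which centralizes `B`, centralizes `B`. -/
theorem centralizes_of_pow_centralizes {Γ : Type*} [Group Γ] (B : Subgroup Γ) (x u : Γ)
    (p a r t : ℕ)
    (hx : x ^ (p ^ a) = 1) (hxB : ∀ v ∈ B, x * v * x⁻¹ ∈ B) (hB : ∀ v ∈ B, ∃ c : ℕ, v ^ (r ^ c) = 1)
    (hpr : Nat.Coprime p r) (hu : u ∈ B) (ht : Nat.Coprime t p)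
    (hc : ∀ v ∈ B, (u⁻¹ * x) ^ t * v = v * (u⁻¹ * x) ^ t) :
    ∀ v ∈ B, x * v = v * x := by
  -- powers of x normalize B
  have hxn : ∀ n : ℕ, ∀ v ∈ B, x ^ n * v * (x ^ n)⁻¹ ∈ B := by
    intro n
    induction n with
    | zero => intro v hv; simpa using hv
    | succ n ih =>
      intro v hv
      have h1 := hxB _ (ih v hv)
      have e : x ^ (n + 1) * v * (x ^ (n + 1))⁻¹ = x * (x ^ n * v * (x ^ n)⁻¹) * x⁻¹ := by
        rw [pow_succ']
        group
      rw [e]
      exact h1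
  -- (u⁻¹ x)^n ∈ B x^n
  have hprod : ∀ n : ℕ, ∃ b ∈ B, (u⁻¹ * x) ^ n = b * x ^ n := by
    intro n
    induction n with
    | zero => exact ⟨1, B.one_mem, by simp⟩
    | succ n ih =>
      obtain ⟨b, hb, hbe⟩ := ih
      refine ⟨b * (x ^ n * u⁻¹ * (x ^ n)⁻¹), B.mul_mem hb (hxn n _ (B.inv_mem hu)), ?_⟩
      rw [pow_succ, hbe, pow_succ]
      group
  obtain ⟨b, hb, hbe⟩ := hprod t
  -- y = x^t acts on B as conjugation by b⁻¹
  have hy : ∀ v ∈ B, x ^ t * v * (x ^ t)⁻¹ = b⁻¹ * v * b := by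
    intro v hv
    have h1 := hc v hv
    rw [hbe] at h1
    -- b * x^t * v = v * (b * x^t)
    have h2 : x ^ t * v = b⁻¹ * v * b * x ^ t := by
      have : b * (x ^ t * v) = b * (b⁻¹ * v * b * x ^ t) := by
        rw [← mul_assoc, h1]; group
      exact mul_left_cancel this
    rw [h2]; group
  have hyN : ∀ N : ℕ, ∀ v ∈ B, (x ^ t) ^ N * v * ((x ^ t) ^ N)⁻¹ = (b⁻¹) ^ N * v * b ^ N := by
    intro N
    induction N with
    | zero => intro v hv; simp
    | succ N ih =>
      intro v hv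
      have hmem : (b⁻¹) ^ N * v * b ^ N ∈ B :=
        B.mul_mem (B.mul_mem (B.pow_mem (B.inv_mem hb) N) hv) (B.pow_mem hb N)
      have e : (x ^ t) ^ (N + 1) * v * ((x ^ t) ^ (N + 1))⁻¹ =
          x ^ t * ((x ^ t) ^ N * v * ((x ^ t) ^ N)⁻¹) * (x ^ t)⁻¹ := by
        rw [pow_succ']; group
      rw [e, ih v hv, hy _ hmem, pow_succ', pow_succ]
      group
  -- b^(p^a) commutes with B
  have hbp : ∀ v ∈ B, Commute (b ^ (p ^ a)) v := by
    intro v hv
    have h1 := hyN (p ^ a) v hv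
    have h2 : (x ^ t) ^ (p ^ a) = 1 := by
      rw [← pow_mul, mul_comm, pow_mul, hx, one_pow]
    rw [h2] at h1
    simp only [one_mul, inv_one, mul_one] at h1
    -- v = b⁻¹^N * v * b^N
    show b ^ (p ^ a) * v = v * b ^ (p ^ a)
    have h3 : b ^ (p ^ a) * v = b ^ (p ^ a) * ((b⁻¹) ^ (p ^ a) * v * b ^ (p ^ a)) := by
      rw [← h1]
    rw [h3, inv_pow]
    group
  have hbv : ∀ v ∈ B, Commute b v := by
    intro v hv
    obtain ⟨c, hcb⟩ := hB b hb
    have hcop : Nat.Coprime (p ^ a) (orderOf b) := by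
      have h1 : orderOf b ∣ r ^ c := orderOf_dvd_of_pow_eq_one hcb
      exact Nat.Coprime.coprime_dvd_right h1 (Nat.Coprime.pow a c hpr)
    obtain ⟨m, hm⟩ := exists_pow_eq_self_of_coprime hcop
    rw [← hm]
    exact (hbp v hv).pow_left m
  have hxt : ∀ v ∈ B, Commute (x ^ t) v := by
    intro v hv
    have h1 := hy v hv
    have h2 : b⁻¹ * v * b = v := by
      rw [mul_assoc, ← (hbv v hv).eq, ← mul_assoc, inv_mul_cancel, one_mul]
    rw [h2] at h1
    show x ^ t * v = v * x ^ t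
    calc x ^ t * v = (x ^ t * v * (x ^ t)⁻¹) * x ^ t := by group
      _ = v * x ^ t := by rw [h1]
  intro v hv
  have hcop : Nat.Coprime t (orderOf x) := by
    have h1 : orderOf x ∣ p ^ a := orderOf_dvd_of_pow_eq_one hx
    exact Nat.Coprime.coprime_dvd_right h1 (Nat.Coprime.pow_right a ht)
  obtain ⟨m, hm⟩ := exists_pow_eq_self_of_coprime hcop
  have := (hxt v hv).pow_left m
  rw [hm] at this
  exact this.eq

/-- A subgroup containing all `p`-elements for `p ∈ π` contains all `π`-elements. -/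
theorem piElement_mem_of_pElements {G : Type*} [Group G] [Finite G] (π : Set ℕ) (S : Subgroup G)
    (hS : ∀ p : ℕ, p.Prime → p ∈ π → ∀ x : G, ∀ a : ℕ, x ^ (p ^ a) = 1 → x ∈ S) :
    ∀ x : G, PiNum π (orderOf x) → x ∈ S := by
  have key : ∀ N : ℕ, ∀ x : G, orderOf x = N → PiNum π N → x ∈ S := by
    intro N
    induction N using Nat.strong_induction_on with
    | _ N ih =>
      intro x hxN hπ
      have hN0 : N ≠ 0 := by
        rw [← hxN]; exact (orderOf_pos x).ne'
      by_cases hN1 : N = 1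
      · rw [hN1] at hxN
        rw [orderOf_eq_one_iff.1 hxN]
        exact S.one_mem
      have hpp := Nat.minFac_prime hN1
      have hpd := Nat.minFac_dvd N
      have hpπ : N.minFac ∈ π := hπ _ hpp hpd
      generalize N.minFac = q at hpp hpd hpπ
      obtain ⟨e, m, hpm, hNe⟩ := Nat.exists_eq_pow_mul_and_not_dvd hN0 q hpp.ne_one
      by_cases hm1 : m = 1
      · rw [hm1, mul_one] at hNe
        apply hS _ hpp hpπ x e
        rw [← hNe, ← hxN]
        exact pow_orderOf_eq_one x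
      · have he0 : e ≠ 0 := by
          rintro rfl
          rw [pow_zero, one_mul] at hNe
          exact hpm (hNe ▸ hpd)
        have hm0 : m ≠ 0 := by
          rintro rfl
          rw [mul_zero] at hNe
          exact hN0 hNe
        have hpe1 : 1 < q ^ e := Nat.one_lt_pow he0 hpp.one_lt
        have hpe0 : q ^ e ≠ 0 := by positivity
        have hd1 : q ^ e ∣ orderOf x := by rw [hxN, hNe]; exact dvd_mul_right _ _
        have hd2 : m ∣ orderOf x := by rw [hxN, hNe]; exact dvd_mul_left _ _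
        have ho1 : orderOf (x ^ (q ^ e)) = m := by
          rw [orderOf_pow_of_dvd hpe0 hd1, hxN, hNe]
          exact Nat.mul_div_cancel_left m (by omega)
        have ho2 : orderOf (x ^ m) = q ^ e := by
          rw [orderOf_pow_of_dvd hm0 hd2, hxN, hNe]
          exact Nat.mul_div_cancel (q ^ e) (by omega)
        have hm2 : 2 ≤ m := by omega
        have hm_lt : m < N := by
          rw [hNe]; nlinarith
        have hpe_lt : q ^ e < N := by
          rw [hNe]; nlinarith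
        have h1 : x ^ (q ^ e) ∈ S :=
          ih m hm_lt _ ho1 (hπ.of_dvd (by rw [hNe]; exact dvd_mul_left _ _))
        have h2 : x ^ m ∈ S :=
          ih _ hpe_lt _ ho2 (hπ.of_dvd (by rw [hNe]; exact dvd_mul_right _ _))
        have hcop : Nat.Coprime (q ^ e) m :=
          Nat.Coprime.pow_left e ((Nat.Prime.coprime_iff_not_dvd hpp).2 hpm)
        have hbez := Nat.gcd_eq_gcd_ab (q ^ e) m
        rw [hcop] at hbez
        have hx1 : x = (x ^ (q ^ e)) ^ (Nat.gcdA (q ^ e) m) *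
            (x ^ m) ^ (Nat.gcdB (q ^ e) m) := by
          rw [← zpow_natCast, ← zpow_natCast, ← zpow_mul, ← zpow_mul, ← zpow_add, ← hbez]
          simp
        rw [hx1]
        exact S.mul_mem (S.zpow_mem h1 _) (S.zpow_mem h2 _)
  intro x hx
  exact key _ x rfl hx

/-- The index-power map onto a central subgroup is a homomorphism (transfer). -/
theorem pow_index_hom {Y : Type*} [Group Y] [Finite Y] (Z : Subgroup Y)
    (hZ : Z ≤ Subgroup.center Y) : ∃ f : Y →* Y, ∀ y, f y = y ^ Z.index := by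
  letI : CommGroup ↥Z :=
    { (inferInstance : Group ↥Z) with
      mul_comm := fun a b => by
        apply Subtype.ext
        have h1 := Subgroup.mem_center_iff.1 (hZ b.2) (a : Y)
        exact h1 }
  refine ⟨Z.subtype.comp (MonoidHom.transfer (MonoidHom.id ↥Z)), ?_⟩
  intro y
  have key : ∀ (k : ℕ) (g₀ : Y), g₀⁻¹ * y ^ k * g₀ ∈ Z → g₀⁻¹ * y ^ k * g₀ = y ^ k := by
    intro k g₀ hmem
    have h1 := Subgroup.mem_center_iff.1 (hZ hmem) g₀
    -- g₀ * c = c * g₀
    have h2 : g₀ * (g₀⁻¹ * y ^ k * g₀) = y ^ k * g₀ := by group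
    rw [h2] at h1
    exact (mul_right_cancel h1).symm
  rw [MonoidHom.comp_apply, MonoidHom.transfer_eq_pow (MonoidHom.id ↥Z) y key]
  rfl

end Cfsg.Agent.Helper7
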