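import Mathlib
import Cfsg.Agent.Helper7.PiClosed

set_option autoImplicit false
open Pointwise

namespace Cfsg.Agent.Helper7

theorem sylow_conj_mem {H : Type*} [Group H] [Finite H] (r : ℕ) [Fact r.Prime]
    (R₀ P' : Sylow r H) : ∃ g : H, ∀ y ∈ (P' : Subgroup H), g⁻¹ * y * g ∈ (R₀ : Subgroup H) := by
  obtain ⟨g, hg⟩ := MulAction.exists_smul_eq H R₀ P'
  refine ⟨g, ?_⟩
  intro y h1
  have h2 : y ∈ ((g • R₀ : Sylow r H) : Subgroup H) := by rw [hg]; exact h1
  rw [Sylow.smul_def, Sylow.pointwise_smul_def] at h2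
  rw [Subgroup.mem_pointwise_smul_iff_inv_smul_mem, MulAut.smul_def, MulAut.conj_inv_apply] at h2
  exact h2

/-- Lift an `r`-subgroup `B` of `G ⧸ L` normalized by the image of `x` to an `r`-subgroup `R` of `G`
mapping onto `B`, with `u⁻¹ x` normalizing `R` for some `u` mapping into `B`. -/
theorem exists_lift_normalizing {G : Type*} [Group G] [Finite G] (L : Subgroup G) [L.Normal]
    (r : ℕ) [Fact r.Prime] (B : Subgroup (G ⧸ L)) (hB : IsPGroup r B) (x : G)
    (hx : ∀ v ∈ B, QuotientGroup.mk' L x * v * (QuotientGroup.mk' L x)⁻¹ ∈ B) :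
    ∃ (R : Subgroup G) (u : G), IsPGroup r R ∧ (∀ w ∈ R, QuotientGroup.mk' L w ∈ B) ∧
      (∀ v ∈ B, ∃ w ∈ R, QuotientGroup.mk' L w = v) ∧
      QuotientGroup.mk' L u ∈ B ∧ u⁻¹ * x ∈ Subgroup.normalizer (R : Set G) := by
  have hqs : Function.Surjective (QuotientGroup.mk' L) := QuotientGroup.mk'_surjective L
  obtain ⟨R₀⟩ : Nonempty (Sylow r ↥(B.comap (QuotientGroup.mk' L))) := inferInstance
  have hRp : IsPGroup r ↥((R₀ : Subgroup ↥(B.comap (QuotientGroup.mk' L))).map
      (B.comap (QuotientGroup.mk' L)).subtype) := R₀.2.map _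
  have hRB : ∀ w ∈ (R₀ : Subgroup ↥(B.comap (QuotientGroup.mk' L))).map
      (B.comap (QuotientGroup.mk' L)).subtype, QuotientGroup.mk' L w ∈ B := by
    rintro _ ⟨w₀, -, rfl⟩
    exact w₀.2
  have hsurj : Function.Surjective ((QuotientGroup.mk' L).subgroupComap B) :=
    MonoidHom.subgroupComap_surjective_of_surjective _ B hqs
  have hBR : ∀ v ∈ B, ∃ w ∈ (R₀ : Subgroup ↥(B.comap (QuotientGroup.mk' L))).map
      (B.comap (QuotientGroup.mk' L)).subtype, QuotientGroup.mk' L w = v := by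
    intro v hv
    have htop : (⊤ : Subgroup ↥B) = ((R₀.mapSurjective hsurj : Sylow r ↥B) : Subgroup ↥B) :=
      (R₀.mapSurjective hsurj).is_maximal' (IsPGroup.to_subgroup hB ⊤) le_top
    have hmem : (⟨v, hv⟩ : ↥B) ∈ ((R₀.mapSurjective hsurj : Sylow r ↥B) : Subgroup ↥B) := by
      rw [← htop]; exact Subgroup.mem_top _
    rw [Sylow.coe_mapSurjective] at hmem
    obtain ⟨w₀, hw₀, hw₀v⟩ := hmem
    refine ⟨(w₀ : G), ⟨w₀, hw₀, rfl⟩, ?_⟩
    exact congrArg Subtype.val hw₀v
  -- x normalizes the preimage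
  have hxRs : ∀ w ∈ B.comap (QuotientGroup.mk' L), x * w * x⁻¹ ∈ B.comap (QuotientGroup.mk' L) := by
    intro w hw
    rw [Subgroup.mem_comap, map_mul, map_mul, map_inv]
    exact hx _ hw
  -- the conjugate of R₀ by x, as a subgroup of the preimage
  have hQ : IsPGroup r ↥((((R₀ : Subgroup ↥(B.comap (QuotientGroup.mk' L))).map
      (B.comap (QuotientGroup.mk' L)).subtype).map (MulAut.conj x).toMonoidHom).subgroupOf
        (B.comap (QuotientGroup.mk' L))) :=
    IsPGroup.comap_subtype (hRp.map _)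
  obtain ⟨P', hP'⟩ := IsPGroup.exists_le_sylow hQ
  obtain ⟨g, hg⟩ := sylow_conj_mem r R₀ P'
  refine ⟨_, (g : G), hRp, hRB, hBR, g.2, ?_⟩
  apply Subgroup.mem_normalizer_fintype
  rintro _ ⟨w₀, hw₀, rfl⟩
  have h1 : (⟨x * (w₀ : G) * x⁻¹, hxRs _ w₀.2⟩ : ↥(B.comap (QuotientGroup.mk' L))) ∈
      (P' : Subgroup ↥(B.comap (QuotientGroup.mk' L))) := by
    apply hP'
    rw [Subgroup.mem_subgroupOf]
    exact ⟨(w₀ : G), ⟨w₀, hw₀, rfl⟩, rfl⟩
  have h2 := hg _ h1
  refine ⟨_, h2, ?_⟩
  simp only [Subgroup.coe_subtype, Subgroup.coe_mul, Subgroup.coe_inv]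
  group

/-- Under the `π'`-homogeneity hypothesis, a `p`-element (`p ∈ π`) centralizes the `π'`-group
`K/L`. -/
theorem pElement_centralizes_quot {G : Type*} [Group G] [Finite G] (π : Set ℕ)
    (hhom : ∀ H : Subgroup G, H ≠ ⊥ → (∀ p : ℕ, p.Prime → p ∣ Nat.card ↥H → p ∉ π) →
        ∀ p : ℕ, p.Prime → p ∣ (Subgroup.centralizer (H : Set G)).relIndex
          (Subgroup.normalizer (H : Set G)) → p ∉ π)
    (K L : Subgroup G) [K.Normal] [L.Normal]
    (hKbar : PiNum' π (Nat.card ↥(K.map (QuotientGroup.mk' L))))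
    (p : ℕ) (hp : p.Prime) (hpπ : p ∈ π) (x : G) (a : ℕ) (hx : x ^ (p ^ a) = 1) :
    ∀ k ∈ K.map (QuotientGroup.mk' L),
      QuotientGroup.mk' L x * k = k * QuotientGroup.mk' L x := by
  haveI : Fact p.Prime := ⟨hp⟩
  haveI hKbn : (K.map (QuotientGroup.mk' L)).Normal :=
    Subgroup.Normal.map inferInstance _ (QuotientGroup.mk'_surjective L)
  have hxq : (QuotientGroup.mk' L x) ^ (p ^ a) = 1 := by rw [← map_pow, hx, map_one]
  -- for each prime r: a Sylow r-subgroup of K/L centralized by the image of x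
  have hsyl : ∀ r : ℕ, r.Prime → ∃ Rb : Subgroup ↥(K.map (QuotientGroup.mk' L)),
      Nat.card Rb = r ^ (Nat.card ↥(K.map (QuotientGroup.mk' L))).factorization r ∧
      ∀ v ∈ Rb, QuotientGroup.mk' L x * (v : G ⧸ L) = (v : G ⧸ L) * QuotientGroup.mk' L x := by
    intro r hr
    haveI : Fact r.Prime := ⟨hr⟩
    by_cases hrd : r ∣ Nat.card ↥(K.map (QuotientGroup.mk' L))
    swap
    · refine ⟨⊥, ?_, ?_⟩
      · rw [Nat.factorization_eq_zero_of_not_dvd hrd, pow_zero]
        exact Subgroup.card_bot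
      · intro v hv
        rw [Subgroup.mem_bot] at hv
        subst hv
        simp
    have hrπ : r ∉ π := hKbar r hr hrd
    have hpr : Nat.Coprime p r := (Nat.coprime_primes hp hr).2 (by rintro rfl; exact hrπ hpπ)
    have hA : IsPGroup p ↥(Subgroup.zpowers (ConjAct.toConjAct (QuotientGroup.mk' L x))) := by
      intro g
      refine ⟨a, ?_⟩
      obtain ⟨g, hg⟩ := g
      obtain ⟨k, rfl⟩ := Subgroup.mem_zpowers_iff.1 hg
      apply Subtype.ext
      show (ConjAct.toConjAct (QuotientGroup.mk' L x) ^ k) ^ (p ^ a) = 1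
      rw [← zpow_natCast, ← zpow_mul, mul_comm, zpow_mul, zpow_natCast, ← map_pow, hxq, map_one,
        one_zpow]
    have hnd : ¬ p ∣ Nat.card (Sylow r ↥(K.map (QuotientGroup.mk' L))) := by
      intro hd
      obtain ⟨P0⟩ : Nonempty (Sylow r ↥(K.map (QuotientGroup.mk' L))) := inferInstance
      have h1 := hd.trans ((Sylow.card_dvd_index P0).trans (Subgroup.index_dvd_card _))
      exact hKbar p hp h1 hpπ
    obtain ⟨Rb, hRb⟩ := hA.nonempty_fixed_point_of_prime_not_dvd_card
      (Sylow r ↥(K.map (QuotientGroup.mk' L))) hnd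
    refine ⟨(Rb : Subgroup ↥(K.map (QuotientGroup.mk' L))), Sylow.card_eq_multiplicity Rb, ?_⟩
    have hBp : IsPGroup r ↥((Rb : Subgroup ↥(K.map (QuotientGroup.mk' L))).map
        (K.map (QuotientGroup.mk' L)).subtype) := Rb.2.map _
    have hxB : ∀ v ∈ (Rb : Subgroup ↥(K.map (QuotientGroup.mk' L))).map
        (K.map (QuotientGroup.mk' L)).subtype,
        QuotientGroup.mk' L x * v * (QuotientGroup.mk' L x)⁻¹ ∈
          (Rb : Subgroup ↥(K.map (QuotientGroup.mk' L))).map
            (K.map (QuotientGroup.mk' L)).subtype := by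
      rintro _ ⟨v₀, hv₀, rfl⟩
      have hfix : (ConjAct.toConjAct (QuotientGroup.mk' L x)) • Rb = Rb :=
        hRb ⟨_, Subgroup.mem_zpowers _⟩
      have h1 : ((ConjAct.toConjAct (QuotientGroup.mk' L x)) • v₀ :
            ↥(K.map (QuotientGroup.mk' L))) ∈
          (((ConjAct.toConjAct (QuotientGroup.mk' L x)) • Rb :
            Sylow r ↥(K.map (QuotientGroup.mk' L))) : Subgroup ↥(K.map (QuotientGroup.mk' L))) := by
        rw [Sylow.pointwise_smul_def]
        exact Subgroup.smul_mem_pointwise_smul _ _ _ hv₀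
      rw [hfix] at h1
      refine ⟨_, h1, ?_⟩
      show (((ConjAct.toConjAct (QuotientGroup.mk' L x)) • v₀ : ↥(K.map (QuotientGroup.mk' L))) :
        G ⧸ L) = _
      rw [ConjAct.Subgroup.val_conj_smul, ConjAct.toConjAct_smul]
      rfl
    obtain ⟨R, u, hRp, hRB, hBR, huB, hn⟩ := exists_lift_normalizing L r _ hBp x hxB
    by_cases hRbot : R = ⊥
    · intro v hv
      obtain ⟨w, hw, hwv⟩ := hBR (v : G ⧸ L) ⟨v, hv, rfl⟩
      rw [hRbot, Subgroup.mem_bot] at hw
      rw [← hwv, hw, map_one, mul_one, one_mul]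
    have hRπ : ∀ p' : ℕ, p'.Prime → p' ∣ Nat.card ↥R → p' ∉ π := by
      intro p' hp' hd
      obtain ⟨c, hc⟩ := IsPGroup.iff_card.1 hRp
      rw [hc] at hd
      have := (Nat.prime_dvd_prime_iff_eq hp' hr).1 (hp'.dvd_of_dvd_pow hd)
      rw [this]; exact hrπ
    have ht : PiNum' π ((Subgroup.centralizer (R : Set G)).relIndex
        (Subgroup.normalizer (R : Set G))) := hhom R hRbot hRπ
    have hnt : (u⁻¹ * x) ^ ((Subgroup.centralizer (R : Set G)).relIndex
        (Subgroup.normalizer (R : Set G))) ∈ Subgroup.centralizer (R : Set G) := by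
      have h1 := Subgroup.pow_index_mem ((Subgroup.centralizer (R : Set G)).subgroupOf
        (Subgroup.normalizer (R : Set G))) (⟨u⁻¹ * x, hn⟩ : ↥(Subgroup.normalizer (R : Set G)))
      rw [Subgroup.mem_subgroupOf] at h1
      exact h1
    have hcB : ∀ v ∈ (Rb : Subgroup ↥(K.map (QuotientGroup.mk' L))).map
        (K.map (QuotientGroup.mk' L)).subtype,
        ((QuotientGroup.mk' L u)⁻¹ * QuotientGroup.mk' L x) ^
          ((Subgroup.centralizer (R : Set G)).relIndex (Subgroup.normalizer (R : Set G))) * v =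
        v * ((QuotientGroup.mk' L u)⁻¹ * QuotientGroup.mk' L x) ^
          ((Subgroup.centralizer (R : Set G)).relIndex (Subgroup.normalizer (R : Set G))) := by
      intro v hv
      obtain ⟨w, hw, rfl⟩ := hBR v hv
      have h1 := Subgroup.mem_centralizer_iff.1 hnt w hw
      have h2 := congrArg (QuotientGroup.mk' L) h1
      rw [map_mul, map_mul, map_pow, map_mul, map_inv] at h2
      exact h2.symm
    have hBr : ∀ v ∈ (Rb : Subgroup ↥(K.map (QuotientGroup.mk' L))).map
        (K.map (QuotientGroup.mk' L)).subtype, ∃ c : ℕ, v ^ (r ^ c) = 1 := by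
      intro v hv
      obtain ⟨c, hc⟩ := hBp ⟨v, hv⟩
      exact ⟨c, congrArg Subtype.val hc⟩
    have hfinal := centralizes_of_pow_centralizes _ (QuotientGroup.mk' L x) (QuotientGroup.mk' L u)
      p a r _ hxq hxB hBr hpr huB (ht.coprime_prime hp hpπ) hcB
    intro v hv
    exact hfinal _ ⟨v, hv, rfl⟩
  -- counting
  have hD : (Subgroup.centralizer ({QuotientGroup.mk' L x} : Set (G ⧸ L))).subgroupOf
      (K.map (QuotientGroup.mk' L)) = ⊤ := by
    apply Subgroup.eq_top_of_card_eq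
    apply Nat.dvd_antisymm (Subgroup.card_subgroup_dvd_card _)
    have hD0 : Nat.card ↥((Subgroup.centralizer ({QuotientGroup.mk' L x} : Set (G ⧸ L))).subgroupOf
      (K.map (QuotientGroup.mk' L))) ≠ 0 := Nat.card_pos.ne'
    have hK0 : Nat.card ↥(K.map (QuotientGroup.mk' L)) ≠ 0 := Nat.card_pos.ne'
    rw [← Nat.factorization_le_iff_dvd hK0 hD0]
    intro r
    by_cases hr : r.Prime
    · obtain ⟨Rb, hcard, hcomm⟩ := hsyl r hr
      have hle : Rb ≤ (Subgroup.centralizer ({QuotientGroup.mk' L x} : Set (G ⧸ L))).subgroupOf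
          (K.map (QuotientGroup.mk' L)) := by
        intro v hv
        rw [Subgroup.mem_subgroupOf, Subgroup.mem_centralizer_iff]
        intro h hh
        rw [Set.mem_singleton_iff] at hh
        rw [hh]; exact hcomm v hv
      have h1 : r ^ (Nat.card ↥(K.map (QuotientGroup.mk' L))).factorization r ∣
          Nat.card ↥((Subgroup.centralizer ({QuotientGroup.mk' L x} : Set (G ⧸ L))).subgroupOf
            (K.map (QuotientGroup.mk' L))) := by
        rw [← hcard]; exact Subgroup.card_dvd_of_le hle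
      exact (Nat.Prime.pow_dvd_iff_le_factorization hr hD0).1 h1
    · rw [Nat.factorization_eq_zero_of_not_prime _ hr]; exact Nat.zero_le _
  intro k hk
  have h1 : (⟨k, hk⟩ : ↥(K.map (QuotientGroup.mk' L))) ∈
      (Subgroup.centralizer ({QuotientGroup.mk' L x} : Set (G ⧸ L))).subgroupOf
        (K.map (QuotientGroup.mk' L)) := by rw [hD]; exact Subgroup.mem_top _
  rw [Subgroup.mem_subgroupOf, Subgroup.mem_centralizer_iff] at h1
  exact h1 (QuotientGroup.mk' L x) rfl

end Cfsg.Agent.Helper7
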