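import Mathlib
import Cfsg.Agent.S4086

set_option autoImplicit false

namespace Cfsg.Agent.Helper7

section Wielandt

variable {G : Type*} [Group G]

/-- subsets of `G` with `k` elements -/
abbrev Om (G : Type*) (k : ℕ) : Type _ := {S : Set G // S.ncard = k}

/-- `G` acts on the `k`-subsets by right multiplication with the inverse. -/
instance omMulAction (k : ℕ) : MulAction G (Om G k) where
  smul g S := ⟨(fun x => x * g⁻¹) '' S.1, by
    rw [Set.ncard_image_of_injective _ (mul_left_injective g⁻¹)]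
    exact S.2⟩
  one_smul S := by
    apply Subtype.ext
    show (fun x => x * (1 : G)⁻¹) '' S.1 = S.1
    simp
  mul_smul g h S := by
    apply Subtype.ext
    show (fun x => x * (g * h)⁻¹) '' S.1 = (fun x => x * g⁻¹) '' ((fun x => x * h⁻¹) '' S.1)
    rw [Set.image_image]
    congr 1
    funext x
    group

theorem mem_smul_om (k : ℕ) (g : G) (S : Om G k) (x : G) : x ∈ (g • S).1 ↔ x * g ∈ S.1 := by
  show x ∈ (fun x => x * g⁻¹) '' S.1 ↔ _
  constructor
  · rintro ⟨y, hy, rfl⟩
    simpa using hy
  · intro h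
    exact ⟨x * g, h, by group⟩

theorem mem_stabilizer_om (k : ℕ) (g : G) (S : Om G k) :
    g ∈ MulAction.stabilizer G S ↔ ∀ x, x * g ∈ S.1 ↔ x ∈ S.1 := by
  rw [MulAction.mem_stabilizer_iff]
  constructor
  · intro h x
    rw [← mem_smul_om, h]
  · intro h
    apply Subtype.ext
    ext x
    rw [mem_smul_om]
    exact h x

theorem mul_mem_of_mem_stabilizer_om (k : ℕ) (S : Om G k) (s g : G) (hs : s ∈ S.1)
    (hg : g ∈ MulAction.stabilizer G S) : s * g ∈ S.1 :=
  ((mem_stabilizer_om k g S).1 hg s).2 hs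

theorem om_eq_preimage (k : ℕ) (S : Om G k) :
    S.1 = (QuotientGroup.mk : G → G ⧸ MulAction.stabilizer G S) ⁻¹'
      ((QuotientGroup.mk : G → G ⧸ MulAction.stabilizer G S) '' S.1) := by
  ext x
  constructor
  · intro hx
    exact ⟨x, hx, rfl⟩
  · rintro ⟨s, hs, hsx⟩
    rw [QuotientGroup.eq] at hsx
    have := mul_mem_of_mem_stabilizer_om k S s _ hs hsx
    simpa using this

theorem card_stabilizer_om_mul [Finite G] (k : ℕ) (S : Om G k) :
    Nat.card (MulAction.stabilizer G S) *
      Nat.card ((QuotientGroup.mk : G → G ⧸ MulAction.stabilizer G S) '' S.1) = k := by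
  have h1 := QuotientGroup.card_preimage_mk (MulAction.stabilizer G S)
    ((QuotientGroup.mk : G → G ⧸ MulAction.stabilizer G S) '' S.1)
  rw [← om_eq_preimage, Nat.card_coe_set_eq, S.2] at h1
  exact h1.symm

theorem card_stabilizer_om_dvd [Finite G] (k : ℕ) (S : Om G k) :
    Nat.card (MulAction.stabilizer G S) ∣ k :=
  ⟨_, (card_stabilizer_om_mul k S).symm⟩

/-- If every stabilizer has index divisible by `d`, then `d` divides the size of the set. -/
theorem dvd_card_of_forall_dvd_index_stabilizer {X : Type*} [MulAction G X] [Finite X] (d : ℕ)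
    (h : ∀ x : X, d ∣ (MulAction.stabilizer G x).index) : d ∣ Nat.card X := by
  classical
  letI : Fintype (MulAction.orbitRel.Quotient G X) := Fintype.ofFinite _
  rw [Nat.card_congr (MulAction.selfEquivSigmaOrbits G X), Nat.card_sigma]
  apply Finset.dvd_sum
  intro ω _
  rw [Nat.card_coe_set_eq, ← MulAction.index_stabilizer]
  exact h _

/-- the left coset `q`, as a `k`-subset -/
def cosetOm (k : ℕ) (H : Subgroup G) [Finite G] (hH : Nat.card H = k) (q : G ⧸ H) : Om G k :=
  ⟨QuotientGroup.mk ⁻¹' {q}, by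
    rw [← Nat.card_coe_set_eq, QuotientGroup.card_preimage_mk, hH]
    simp⟩

theorem stabilizer_cosetOm (k : ℕ) (H : Subgroup G) [Finite G] (hH : Nat.card H = k) (q : G ⧸ H) :
    MulAction.stabilizer G (cosetOm k H hH q) = H := by
  obtain ⟨a, rfl⟩ := QuotientGroup.mk_surjective q
  ext g
  rw [mem_stabilizer_om]
  have hmem : ∀ x : G, x ∈ (cosetOm k H hH (QuotientGroup.mk a)).1 ↔ a⁻¹ * x ∈ H := by
    intro x
    show (QuotientGroup.mk x : G ⧸ H) ∈ ({(QuotientGroup.mk a : G ⧸ H)} : Set (G ⧸ H)) ↔ _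
    rw [Set.mem_singleton_iff, eq_comm, QuotientGroup.eq]
  constructor
  · intro h
    have h1 := (h a).2 ((hmem a).2 (by rw [inv_mul_cancel]; exact H.one_mem))
    rw [hmem] at h1
    simpa using h1
  · intro hg x
    rw [hmem, hmem]
    constructor
    · intro h1
      have := H.mul_mem h1 (H.inv_mem hg)
      simpa [mul_assoc] using this
    · intro h1
      have := H.mul_mem h1 hg
      simpa [mul_assoc] using this

/-- the good subsets are exactly the left cosets of the subgroups of order `k` -/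
theorem card_good_om [Finite G] (k : ℕ) (hk : 0 < k) :
    Nat.card {S : Om G k // Nat.card (MulAction.stabilizer G S) = k}
      = Nat.card {H : Subgroup G // Nat.card H = k} * (Nat.card G / k) := by
  classical
  let Φ : (Σ H : {H : Subgroup G // Nat.card H = k}, G ⧸ H.1) →
      {S : Om G k // Nat.card (MulAction.stabilizer G S) = k} :=
    fun z => ⟨cosetOm k z.1.1 z.1.2 z.2, by rw [stabilizer_cosetOm]; exact z.1.2⟩
  have hinj : Function.Injective Φ := by
    rintro ⟨⟨H, hH⟩, q⟩ ⟨⟨H', hH'⟩, q'⟩ h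
    have h1 : cosetOm k H hH q = cosetOm k H' hH' q' := congrArg Subtype.val h
    have h2 : H = H' := by
      rw [← stabilizer_cosetOm k H hH q, ← stabilizer_cosetOm k H' hH' q', h1]
    subst h2
    have h3 : q = q' := by
      obtain ⟨a, rfl⟩ := QuotientGroup.mk_surjective q
      have h4 : a ∈ (cosetOm k H hH (QuotientGroup.mk a)).1 := rfl
      rw [h1] at h4
      exact h4
    subst h3
    rfl
  have hsurj : Function.Surjective Φ := by
    rintro ⟨S, hS⟩
    have h1 := card_stabilizer_om_mul k S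
    rw [hS] at h1
    have h2 : Nat.card ((QuotientGroup.mk : G → G ⧸ MulAction.stabilizer G S) '' S.1) = 1 := by
      have h3 : k * Nat.card ((QuotientGroup.mk : G → G ⧸ MulAction.stabilizer G S) '' S.1)
          = k * 1 := by rw [h1, mul_one]
      exact Nat.eq_of_mul_eq_mul_left hk h3
    rw [Nat.card_coe_set_eq, Set.ncard_eq_one] at h2
    obtain ⟨q, hq⟩ := h2
    refine ⟨⟨⟨MulAction.stabilizer G S, hS⟩, q⟩, ?_⟩
    apply Subtype.ext
    apply Subtype.ext
    show QuotientGroup.mk ⁻¹' {q} = S.1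
    rw [← hq]
    exact (om_eq_preimage k S).symm
  rw [← Nat.card_congr (Equiv.ofBijective Φ ⟨hinj, hsurj⟩)]
  letI : Fintype {H : Subgroup G // Nat.card H = k} := Fintype.ofFinite _
  rw [Nat.card_sigma]
  have h5 : ∀ H : {H : Subgroup G // Nat.card H = k}, Nat.card (G ⧸ H.1) = Nat.card G / k := by
    intro H
    have h6 := H.1.card_mul_index
    rw [H.2] at h6
    rw [← h6]
    show H.1.index = _
    rw [Nat.mul_div_cancel_left _ hk]
  rw [Finset.sum_congr rfl (fun H _ => h5 H), Finset.sum_const, Finset.card_univ,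
    smul_eq_mul, ← Nat.card_eq_fintype_card]

/-- the bad subsets, as an invariant subset -/
def badOm (G : Type*) [Group G] [Finite G] (k : ℕ) : SubMulAction G (Om G k) where
  carrier := {S | Nat.card (MulAction.stabilizer G S) ≠ k}
  smul_mem' := by
    intro g S hS
    show Nat.card (MulAction.stabilizer G (g • S)) ≠ k
    rw [MulAction.stabilizer_smul_eq_stabilizer_map_conj]
    rw [Nat.card_congr ((MulAction.stabilizer G S).equivMapOfInjective _
      (MulAut.conj g).injective).toEquiv.symm]
    exact hS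

theorem card_bad_om [Finite G] (p β m : ℕ) (hp : p.Prime) (hm : Nat.card G = p ^ β * m) :
    p * m ∣ Nat.card (badOm G (p ^ β)) := by
  apply dvd_card_of_forall_dvd_index_stabilizer (G := G)
  intro x
  rw [SubMulAction.stabilizer_of_subMul]
  have hx : Nat.card (MulAction.stabilizer G (x : Om G (p ^ β))) ≠ p ^ β := x.2
  have hd := card_stabilizer_om_dvd (p ^ β) (x : Om G (p ^ β))
  obtain ⟨j, hj, hj2⟩ := (Nat.dvd_prime_pow hp).1 hd
  have hjlt : j < β := by
    rcases Nat.lt_or_ge j β with h | h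
    · exact h
    · exfalso
      apply hx
      rw [hj2]
      congr 1
      omega
  have h1 := (MulAction.stabilizer G (x : Om G (p ^ β))).card_mul_index
  rw [hj2, hm] at h1
  have h2 : p ^ β = p ^ j * p ^ (β - j) := by
    rw [← pow_add]
    congr 1
    omega
  have h1' : p ^ j * (MulAction.stabilizer G (x : Om G (p ^ β))).index
      = p ^ j * (p ^ (β - j) * m) := by
    rw [h1, ← mul_assoc, ← h2]
  have h3 := Nat.eq_of_mul_eq_mul_left (pow_pos hp.pos j) h1'
  rw [h3]
  have h4 : p ∣ p ^ (β - j) := dvd_pow_self p (by omega)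
  exact Nat.mul_dvd_mul h4 dvd_rfl

theorem wielandt_count [Finite G] (p β m : ℕ) (hp : p.Prime) (hm : Nat.card G = p ^ β * m) :
    Nat.card (Om G (p ^ β)) ≡ Nat.card {H : Subgroup G // Nat.card H = p ^ β} * m
      [MOD p * m] := by
  have hk : 0 < p ^ β := pow_pos hp.pos β
  have h1 := card_good_om (G := G) (p ^ β) hk
  rw [hm, Nat.mul_div_cancel_left _ hk] at h1
  obtain ⟨c, hc⟩ := card_bad_om (G := G) p β m hp hm
  have h2 : Nat.card (Om G (p ^ β))
      = Nat.card {S : Om G (p ^ β) // Nat.card (MulAction.stabilizer G S) = p ^ β}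
        + Nat.card {S : Om G (p ^ β) // ¬ Nat.card (MulAction.stabilizer G S) = p ^ β} := by
    rw [← Nat.card_sum]
    exact Nat.card_congr (Equiv.sumCompl _).symm
  have h3 : Nat.card {S : Om G (p ^ β) // ¬ Nat.card (MulAction.stabilizer G S) = p ^ β}
      = p * m * c := hc
  rw [h2, h1, h3]
  exact Nat.add_mul_mod_self_left _ _ _

end Wielandt

/-- a finite cyclic group has exactly one subgroup of each prime power order dividing its order -/
theorem card_subgroups_cyclic {C : Type*} [Group C] [Finite C] [IsCyclic C] (p β : ℕ)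
    (hp : p.Prime) (h : p ^ β ∣ Nat.card C) :
    Nat.card {H : Subgroup C // Nat.card H = p ^ β} = 1 := by
  haveI : Fact p.Prime := ⟨hp⟩
  obtain ⟨K, hK⟩ := Sylow.exists_subgroup_card_pow_prime p h
  have key : ∀ A B : Subgroup C, Nat.card A = Nat.card B → A ≤ B := by
    intro A B hAB
    obtain ⟨b, hb⟩ := IsCyclic.exists_generator (α := B)
    have hob : orderOf (b : C) = Nat.card B := by
      rw [Subgroup.orderOf_coe]
      exact orderOf_eq_card_of_forall_mem_zpowers hb
    intro x hx
    have hxo : orderOf x ∣ orderOf (b : C) := by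
      rw [hob, ← hAB]
      exact Subgroup.orderOf_dvd_natCard A hx
    have h1 := Cfsg.Agent.S4086.mem_zpowers_of_orderOf_dvd x (b : C) hxo
    exact (Subgroup.zpowers_le.2 b.2) h1
  rw [Nat.card_eq_one_iff_unique]
  refine ⟨⟨fun H₁ H₂ => ?_⟩, ⟨⟨K, hK⟩⟩⟩
  apply Subtype.ext
  exact le_antisymm (key _ _ (H₁.2.trans H₂.2.symm)) (key _ _ (H₂.2.trans H₁.2.symm))

/-- **Frobenius**: the number of subgroups of order `p ^ β` of a finite group whose order is
divisible by `p ^ β` is congruent to `1` modulo `p`. -/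
theorem card_subgroups_prime_pow_modEq_one {G : Type*} [Group G] [Finite G] (p β : ℕ)
    (hp : p.Prime) (hdiv : p ^ β ∣ Nat.card G) :
    Nat.card {H : Subgroup G // Nat.card H = p ^ β} ≡ 1 [MOD p] := by
  obtain ⟨m, hm⟩ := hdiv
  have hm0 : m ≠ 0 := by
    rintro rfl
    rw [mul_zero] at hm
    exact Nat.card_pos.ne' hm
  haveI : NeZero (Nat.card G) := ⟨Nat.card_pos.ne'⟩
  have hC : Nat.card (Multiplicative (ZMod (Nat.card G))) = p ^ β * m := by
    rw [Nat.card_congr Multiplicative.toAdd, Nat.card_zmod]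
    exact hm
  have hW1 := wielandt_count (G := G) p β m hp hm
  have hW2 := wielandt_count (G := Multiplicative (ZMod (Nat.card G))) p β m hp hC
  rw [card_subgroups_cyclic p β hp (by rw [hC]; exact dvd_mul_right _ _)] at hW2
  obtain ⟨e⟩ : Nonempty (G ≃ Multiplicative (ZMod (Nat.card G))) := by
    rw [← Finite.card_eq, hC, hm]
  have hOm : Nat.card (Om G (p ^ β)) = Nat.card (Om (Multiplicative (ZMod (Nat.card G))) (p ^ β)) := by
    apply Nat.card_congr
    refine (Equiv.Set.congr e).subtypeEquiv ?_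
    intro S
    show S.ncard = p ^ β ↔ (e '' S).ncard = p ^ β
    rw [Set.ncard_image_of_injective _ e.injective]
  rw [hOm] at hW1
  have h3 : Nat.card {H : Subgroup G // Nat.card H = p ^ β} * m ≡ 1 * m [MOD p * m] :=
    hW1.symm.trans hW2
  exact Nat.ModEq.mul_right_cancel' hm0 h3

end Cfsg.Agent.Helper7
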