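import Mathlib
import Cfsg.Agent.Helper7.SelfCentP2
import Cfsg.Agent.S4496
import Cfsg.Agent.Lead.Hall

set_option autoImplicit false

namespace Cfsg.Agent.Helper7

open scoped commutatorElement

section SelfCentP3

variable {G : Type*} [Group G] [Finite G]

/-- The number of subgroups of order `p` is the index of `N_G(⟨x⟩)`. -/
theorem scp_index_normalizer (p : ℕ) [Fact p.Prime] (x : G) (hx : orderOf x = p)
    (hC : Subgroup.centralizer ({x} : Set G) = Subgroup.zpowers x) :
    Nat.card {H : Subgroup G // Nat.card H = p} =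
      (Subgroup.normalizer ((Subgroup.zpowers x : Subgroup G) : Set G)).index := by
  obtain ⟨Q₀, hQ₀⟩ := scp_sylow p x hx hC
  have hcard₀ : Nat.card (Q₀ : Subgroup G) = p := by rw [hQ₀, Nat.card_zpowers, hx]
  have hfact : p = p ^ (Nat.card G).factorization p := by
    rw [← Sylow.card_eq_multiplicity Q₀]; exact hcard₀.symm
  have hcard : ∀ Q : Sylow p G, Nat.card (Q : Subgroup G) = p := by
    intro Q
    rw [Sylow.card_eq_multiplicity Q, ← hfact]
  have hequiv : Nat.card (Sylow p G) = Nat.card {H : Subgroup G // Nat.card H = p} := by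
    apply Nat.card_congr
    exact
      { toFun := fun Q => ⟨(Q : Subgroup G), hcard Q⟩
        invFun := fun H => Sylow.ofCard H.1 (H.2.trans hfact)
        left_inv := fun Q => Sylow.ext rfl
        right_inv := fun H => Subtype.ext rfl }
  rw [← hequiv, Sylow.card_eq_index_normalizer Q₀]
  show (Subgroup.normalizer ((Q₀ : Subgroup G) : Set G)).index = _
  rw [hQ₀]

/-- A normal `p'`-subgroup meets `N_G(⟨x⟩)` trivially. -/
theorem scp_normal_coprime_inf_normalizer (p : ℕ) [Fact p.Prime] (x : G) (hx : orderOf x = p)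
    (hC : Subgroup.centralizer ({x} : Set G) = Subgroup.zpowers x) (S : Subgroup G)
    [hSn : S.Normal] (hS : ¬ p ∣ Nat.card S) :
    Subgroup.normalizer ((Subgroup.zpowers x : Subgroup G) : Set G) ⊓ S = ⊥ := by
  rw [eq_bot_iff]
  rintro s ⟨hsN, hsS⟩
  have h2 : s * x * s⁻¹ ∈ Subgroup.zpowers x :=
    (Subgroup.mem_normalizer_iff.1 hsN x).1 (Subgroup.mem_zpowers x)
  have h3 : s * x * s⁻¹ * x⁻¹ ∈ S := by
    have h4 : x * s⁻¹ * x⁻¹ ∈ S := hSn.conj_mem _ (S.inv_mem hsS) x
    have e : s * x * s⁻¹ * x⁻¹ = s * (x * s⁻¹ * x⁻¹) := by group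
    rw [e]; exact S.mul_mem hsS h4
  have h4 : s * x * s⁻¹ * x⁻¹ = 1 :=
    scp_inf_coprime p x hx S hS _
      (Subgroup.mul_mem _ h2 (Subgroup.inv_mem _ (Subgroup.mem_zpowers x))) h3
  have h5 : s ∈ Subgroup.centralizer ({x} : Set G) := by
    rw [Subgroup.mem_centralizer_singleton_iff]
    have e : s * x = (s * x * s⁻¹ * x⁻¹) * (x * s) := by group
    rw [e, h4, one_mul]
  rw [hC] at h5
  rw [Subgroup.mem_bot]
  exact scp_inf_coprime p x hx S hS _ h5 hsS

/-- A normal `p'`-subgroup supplementing `N_G(⟨x⟩)` has order the index. -/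
theorem scp_card_normal_coprime (p : ℕ) [Fact p.Prime] (x : G) (hx : orderOf x = p)
    (hC : Subgroup.centralizer ({x} : Set G) = Subgroup.zpowers x) (S : Subgroup G)
    [hSn : S.Normal] (hS : ¬ p ∣ Nat.card S)
    (hsup : S ⊔ Subgroup.normalizer ((Subgroup.zpowers x : Subgroup G) : Set G) = ⊤) :
    Nat.card S = (Subgroup.normalizer ((Subgroup.zpowers x : Subgroup G) : Set G)).index := by
  have h1 := Cfsg.Agent.Lead.card_sup_of_inf_eq_bot
    (Subgroup.normalizer ((Subgroup.zpowers x : Subgroup G) : Set G)) S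
    (scp_normal_coprime_inf_normalizer p x hx hC S hS)
  rw [sup_comm, hsup, Subgroup.card_top] at h1
  have h2 := Subgroup.card_mul_index
    (Subgroup.normalizer ((Subgroup.zpowers x : Subgroup G) : Set G))
  rw [h1] at h2
  exact (Nat.eq_of_mul_eq_mul_left Nat.card_pos h2).symm

/-- A normal `p'`-subgroup of order the index supplements `N_G(⟨x⟩)`. -/
theorem scp_sup_eq_top_of_card (p : ℕ) [Fact p.Prime] (x : G) (hx : orderOf x = p)
    (hC : Subgroup.centralizer ({x} : Set G) = Subgroup.zpowers x) (S : Subgroup G)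
    [hSn : S.Normal] (hS : ¬ p ∣ Nat.card S)
    (hcard : Nat.card S =
      (Subgroup.normalizer ((Subgroup.zpowers x : Subgroup G) : Set G)).index) :
    S ⊔ Subgroup.normalizer ((Subgroup.zpowers x : Subgroup G) : Set G) = ⊤ := by
  have h1 := Cfsg.Agent.Lead.card_sup_of_inf_eq_bot
    (Subgroup.normalizer ((Subgroup.zpowers x : Subgroup G) : Set G)) S
    (scp_normal_coprime_inf_normalizer p x hx hC S hS)
  rw [hcard, Subgroup.card_mul_index] at h1
  rw [sup_comm]
  exact Subgroup.eq_top_of_card_eq _ h1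

/-- Modulo a normal supplement `S` of `N_G(⟨x⟩)`, the commutator subgroup lies in `⟨x⟩`. -/
theorem scp_comm_mod (x : G)
    (hC : Subgroup.centralizer ({x} : Set G) = Subgroup.zpowers x) (S : Subgroup G)
    [hSn : S.Normal]
    (hsup : S ⊔ Subgroup.normalizer ((Subgroup.zpowers x : Subgroup G) : Set G) = ⊤) :
    ∀ d ∈ commutator G,
      (QuotientGroup.mk' S) d ∈ Subgroup.zpowers ((QuotientGroup.mk' S) x) := by
  have hdec : ∀ a : G, ∃ l ∈ S,
      l * a ∈ Subgroup.normalizer ((Subgroup.zpowers x : Subgroup G) : Set G) := by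
    intro a
    have ha : a ∈ S ⊔ Subgroup.normalizer ((Subgroup.zpowers x : Subgroup G) : Set G) := by
      rw [hsup]; exact Subgroup.mem_top a
    rw [← SetLike.mem_coe, Subgroup.normal_mul] at ha
    obtain ⟨s, hs, n, hn, rfl⟩ := Set.mem_mul.1 ha
    exact ⟨s⁻¹, S.inv_mem hs, by rw [inv_mul_cancel_left]; exact hn⟩
  have key : ∀ a b : G, (QuotientGroup.mk' S) ((b * a)⁻¹ * (a * b)) ∈
      Subgroup.zpowers ((QuotientGroup.mk' S) x) := by
    intro a b
    obtain ⟨l₁, hl₁, hn₁⟩ := hdec a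
    obtain ⟨l₂, hl₂, hn₂⟩ := hdec b
    have h1 := scp_normalizer_comm x (l₁ * a) (l₂ * b) hn₁ hn₂
    rw [hC] at h1
    obtain ⟨k, hk⟩ := Subgroup.mem_zpowers_iff.1 h1
    have hl1 : (QuotientGroup.mk' S) l₁ = 1 := (QuotientGroup.eq_one_iff _).2 hl₁
    have hl2 : (QuotientGroup.mk' S) l₂ = 1 := (QuotientGroup.eq_one_iff _).2 hl₂
    have h3 := congrArg (QuotientGroup.mk' S) hk
    simp only [map_mul, map_inv, map_zpow, hl1, hl2, one_mul] at h3
    rw [Subgroup.mem_zpowers_iff]
    refine ⟨k, ?_⟩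
    simp only [map_mul, map_inv]
    exact h3
  intro d hd
  rw [commutator_eq_closure] at hd
  have hle : Subgroup.closure (commutatorSet G) ≤
      (Subgroup.zpowers ((QuotientGroup.mk' S) x)).comap (QuotientGroup.mk' S) := by
    rw [Subgroup.closure_le]
    rintro _ ⟨a, b, rfl⟩
    show (QuotientGroup.mk' S) ⁅a, b⁆ ∈ Subgroup.zpowers ((QuotientGroup.mk' S) x)
    have := key a⁻¹ b⁻¹
    have e : (b⁻¹ * a⁻¹)⁻¹ * (a⁻¹ * b⁻¹) = ⁅a, b⁆ := by rw [commutatorElement_def]; group
    rwa [e] at this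
  exact hle hd

/-- The second derived subgroup lies in every normal supplement of `N_G(⟨x⟩)`. -/
theorem scp_derived2_le (x : G)
    (hC : Subgroup.centralizer ({x} : Set G) = Subgroup.zpowers x) (S : Subgroup G)
    [hSn : S.Normal]
    (hsup : S ⊔ Subgroup.normalizer ((Subgroup.zpowers x : Subgroup G) : Set G) = ⊤) :
    (⁅commutator G, commutator G⁆ : Subgroup G) ≤ S := by
  rw [Subgroup.commutator_le]
  intro d₁ hd₁ d₂ hd₂
  have h1 := scp_comm_mod x hC S hsup d₁ hd₁
  have h2 := scp_comm_mod x hC S hsup d₂ hd₂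
  obtain ⟨i, hi⟩ := Subgroup.mem_zpowers_iff.1 h1
  obtain ⟨j, hj⟩ := Subgroup.mem_zpowers_iff.1 h2
  have h3 : (QuotientGroup.mk' S) ⁅d₁, d₂⁆ = 1 := by
    rw [map_commutatorElement, ← hi, ← hj, commutatorElement_eq_one_iff_mul_comm]
    exact ((Commute.refl _).zpow_zpow i j).eq
  exact (QuotientGroup.eq_one_iff _).1 h3

/-- If `G'' ≠ G'` then `p ∤ |G''|`. -/
theorem scp_derived2_not_dvd (p : ℕ) [Fact p.Prime] (x : G) (hx : orderOf x = p)
    (hC : Subgroup.centralizer ({x} : Set G) = Subgroup.zpowers x)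
    (hne : (⁅commutator G, commutator G⁆ : Subgroup G) ≠ commutator G) :
    ¬ p ∣ Nat.card (⁅commutator G, commutator G⁆ : Subgroup G) := by
  intro hdiv
  apply hne
  apply le_antisymm (Subgroup.commutator_le_left _ _)
  exact Cfsg.Agent.S4496.part_a p x hx hC _ (scp_mem_of_dvd p x hx hC _ hdiv)

/-- If `x ∈ G'` then `G' = G'' ⟨x⟩`. -/
theorem scp_commutator_eq_sup (p : ℕ) [Fact p.Prime] (x : G) (hx : orderOf x = p)
    (hC : Subgroup.centralizer ({x} : Set G) = Subgroup.zpowers x) (hxG : x ∈ commutator G) :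
    commutator G = (⁅commutator G, commutator G⁆ : Subgroup G) ⊔ Subgroup.zpowers x := by
  apply le_antisymm
  · have hT : commutator G ≤ Subgroup.normalClosure ({x} : Set G) :=
      Cfsg.Agent.S4496.part_a p x hx hC _ (Subgroup.subset_normalClosure (Set.mem_singleton x))
    refine hT.trans ?_
    show Subgroup.closure (Group.conjugatesOfSet {x}) ≤ _
    rw [Subgroup.closure_le]
    intro a ha
    rw [Group.mem_conjugatesOfSet_iff] at ha
    obtain ⟨b, hb, hab⟩ := ha
    rw [Set.mem_singleton_iff] at hb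
    rw [hb] at hab
    obtain ⟨c, hc⟩ := isConj_iff.1 hab
    obtain ⟨l, hl, hn⟩ := scp_frattini p x hx hC (commutator G) hxG c
    have hy : l * c * x * (l * c)⁻¹ ∈ Subgroup.zpowers x :=
      (Subgroup.mem_normalizer_iff.1 hn x).1 (Subgroup.mem_zpowers x)
    have hyG : l * c * x * (l * c)⁻¹ ∈ commutator G := (Subgroup.zpowers_le.2 hxG) hy
    have e : a = (l * c * x * (l * c)⁻¹) * ⁅(l * c * x * (l * c)⁻¹)⁻¹, l⁻¹⁆ := by
      rw [commutatorElement_def, ← hc]; group
    rw [e]
    apply Subgroup.mul_mem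
    · exact Subgroup.mem_sup_right hy
    · exact Subgroup.mem_sup_left (Subgroup.commutator_mem_commutator
        (Subgroup.inv_mem _ hyG) (Subgroup.inv_mem _ hl))
  · exact sup_le (Subgroup.commutator_le_left _ _) (Subgroup.zpowers_le.2 hxG)

end SelfCentP3

end Cfsg.Agent.Helper7
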