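import Mathlib
import Cfsg.Agent.Helper7.SelfNorm

set_option autoImplicit false

universe u

namespace Cfsg.Agent.Helper7

/-- Case A: some Sylow `q`-subgroup (`q ≠ p`) does not centralize the minimal normal
`p`-subgroup `V`. -/
theorem SN.caseA {G : Type*} [Group G] [Finite G] (hSN : SN G) (V : Subgroup G) [hVn : V.Normal]
    (p : ℕ) (hp : p.Prime) (hVp : ∀ v ∈ V, v ^ p = 1) (q : ℕ) [Fact q.Prime] (hqp : q ≠ p)
    (Q : Sylow q G) (x v : G) (hx : x ∈ Q) (hv : v ∈ V) (hxv : x * v ≠ v * x) :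
    Group.IsSolvable G := by
  have hq : q.Prime := Fact.out
  -- V ∩ Q = 1
  have hVQ : ∀ w : G, w ∈ V → w ∈ Q → w = 1 := by
    intro w hwV hwQ
    obtain ⟨k, hk⟩ := orderOf_eq_prime_pow_of_mem_sylow Q w hwQ
    have h1 : orderOf w ∣ p := orderOf_dvd_of_pow_eq_one (hVp w hwV)
    rw [hk] at h1
    rcases Nat.eq_zero_or_pos k with h0 | h0
    · rw [h0, pow_zero] at hk
      exact orderOf_eq_one_iff.1 hk
    · exfalso
      have h2 : q ∣ p := (dvd_pow_self q h0.ne').trans h1
      exact hqp ((Nat.prime_dvd_prime_iff_eq hq hp).1 h2)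
  set H := V ⊔ Subgroup.zpowers x with hH
  have hxH : x ∈ H := Subgroup.mem_sup_right (Subgroup.mem_zpowers x)
  have hvH : v ∈ H := Subgroup.mem_sup_left hv
  have hN : Subgroup.normalizer (H : Set G) = H := hSN H (not_isMulCommutative_of hxH hvH hxv)
  have hVnorm : ∀ g : G, g ∈ Subgroup.normalizer (V : Set G) := by
    intro g
    rw [Subgroup.normalizer_eq_top_iff.2 hVn]
    exact Subgroup.mem_top g
  have hzQ : Subgroup.zpowers x ≤ (Q : Subgroup G) := by
    rw [Subgroup.zpowers_le]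
    exact hx
  have hdecomp : ∀ g ∈ H, ∃ w ∈ V, ∃ u ∈ Subgroup.zpowers x, w * u = g := by
    intro g hg
    have h1 : g ∈ ((V ⊔ Subgroup.zpowers x : Subgroup G) : Set G) := hg
    rw [Subgroup.normal_mul] at h1
    exact Set.mem_mul.1 h1
  -- Q is generated by x
  have hQx : ∀ y ∈ Q, y ∈ Subgroup.zpowers x := by
    by_contra hcon
    push Not at hcon
    obtain ⟨y₀, hy₀Q, hy₀⟩ := hcon
    have hne : Subgroup.zpowers x ≠ (Q : Subgroup G) := by
      intro h
      apply hy₀
      rw [h]
      exact hy₀Q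
    obtain ⟨y, hyQ, hyN, hyx⟩ :=
      Cfsg.Agent.Helper5.exists_mem_normalizer_not_mem (Q : Subgroup G) (Subgroup.zpowers x)
        Q.isPGroup' hzQ hne
    have hyH : y ∈ Subgroup.normalizer (H : Set G) := mem_normalizer_sup (hVnorm y) hyN
    rw [hN] at hyH
    obtain ⟨w, hw, u, hu, hwu⟩ := hdecomp y hyH
    have hwQ : w ∈ Q := by
      have : w = y * u⁻¹ := by rw [← hwu]; group
      rw [this]
      exact Subgroup.mul_mem _ hyQ (Subgroup.inv_mem _ (hzQ hu))
    have hw1 := hVQ w hw hwQ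
    rw [hw1, one_mul] at hwu
    apply hyx
    rw [← hwu]
    exact hu
  have hQeq : Subgroup.zpowers x = (Q : Subgroup G) := le_antisymm hzQ hQx
  have hQcomm : ∀ u ∈ Q, ∀ t ∈ Q, u * t = t * u := by
    intro u hu t ht
    obtain ⟨i, rfl⟩ := Subgroup.mem_zpowers_iff.1 (hQx u hu)
    obtain ⟨j, rfl⟩ := Subgroup.mem_zpowers_iff.1 (hQx t ht)
    rw [← zpow_add, ← zpow_add, add_comm]
  have hNC : Subgroup.normalizer ((Q : Subgroup G) : Set G) ≤
      Subgroup.centralizer ((Q : Subgroup G) : Set G) := by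
    intro g hg
    have hgH : g ∈ Subgroup.normalizer (H : Set G) := by
      apply mem_normalizer_sup (hVnorm g)
      rw [hQeq]
      exact hg
    rw [hN] at hgH
    obtain ⟨w, hw, u, hu, hwu⟩ := hdecomp g hgH
    have huQ : u ∈ Q := hzQ hu
    have hwN : w ∈ Subgroup.normalizer ((Q : Subgroup G) : Set G) := by
      have : w = g * u⁻¹ := by rw [← hwu]; group
      rw [this]
      exact Subgroup.mul_mem _ hg (Subgroup.inv_mem _ (Subgroup.le_normalizer huQ))
    rw [Subgroup.mem_centralizer_iff]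
    intro t ht
    have htQ : t ∈ Q := ht
    -- w commutes with t
    have h1 : w * t * w⁻¹ * t⁻¹ = 1 := by
      apply hVQ
      · have h2 : t * w⁻¹ * t⁻¹ ∈ V := hVn.conj_mem _ (V.inv_mem hw) t
        have h3 : w * t * w⁻¹ * t⁻¹ = w * (t * w⁻¹ * t⁻¹) := by group
        rw [h3]
        exact V.mul_mem hw h2
      · have h2 : w * t * w⁻¹ ∈ Q := (Subgroup.mem_normalizer_iff.1 hwN t).1 htQ
        exact Subgroup.mul_mem _ h2 (Subgroup.inv_mem _ htQ)
    have h2 : w * t = t * w := by
      calc w * t = (w * t * w⁻¹ * t⁻¹) * (t * w) := by group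
        _ = t * w := by rw [h1, one_mul]
    have h3 : u * t = t * u := hQcomm u huQ t htQ
    rw [← hwu]
    calc t * (w * u) = (t * w) * u := by group
      _ = (w * t) * u := by rw [h2]
      _ = w * (t * u) := by group
      _ = w * (u * t) := by rw [h3]
      _ = w * u * t := by group
  have hK := MonoidHom.ker_transferSylow_isComplement' Q hNC
  have hKne : (MonoidHom.transferSylow Q hNC).ker ≠ ⊤ := by
    intro h
    rw [h, Subgroup.isComplement'_top_left] at hK
    have : x ∈ (⊥ : Subgroup G) := hK ▸ hx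
    rw [Subgroup.mem_bot] at this
    apply hxv
    rw [this, one_mul, mul_one]
  have hKab := hSN.comm_of_normal (MonoidHom.transferSylow Q hNC).ker hKne
  haveI : Group.IsSolvable (MonoidHom.transferSylow Q hNC).ker := by
    apply Group.isSolvable_of_comm
    intro a b
    exact Subtype.ext (hKab a a.2 b b.2)
  haveI : Group.IsSolvable (Q : Subgroup G) := by
    apply Group.isSolvable_of_comm
    intro a b
    exact Subtype.ext (hQcomm a a.2 b b.2)
  apply Group.isSolvable_of_ker_le_range ((MonoidHom.transferSylow Q hNC).ker.subtype)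
    (MonoidHom.transferSylow Q hNC)
  intro g hg
  exact ⟨⟨g, hg⟩, rfl⟩

end Cfsg.Agent.Helper7
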