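import Mathlib
import Cfsg.Agent.Helper7.SelfNorm2

set_option autoImplicit false

universe u

namespace Cfsg.Agent.Helper7

/-- Case B: all Sylow `q`-subgroups (`q ≠ p`) centralize the minimal normal `p`-subgroup `V`. -/
theorem SN.caseB {G : Type u} [Group G] [Finite G] (hSN : SN G)
    (ih : ∀ (G' : Type u) [Group G'] [Finite G'], Nat.card G' < Nat.card G → SN G' →
      Group.IsSolvable G' ∨ IsSimpleGroup G')
    (V : Subgroup G) [hVn : V.Normal] (hV1 : V ≠ ⊥)
    (hVmin : ∀ K : Subgroup G, K.Normal → K ≠ ⊥ → K ≤ V → K = V)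
    (p : ℕ) [Fact p.Prime] (hVp : ∀ v ∈ V, v ^ p = 1)
    (hB : ∀ (q : ℕ) [Fact q.Prime] (Q : Sylow q G), q ≠ p → ∀ x ∈ Q, ∀ v ∈ V, x * v = v * x) :
    Group.IsSolvable G := by
  have hp : p.Prime := Fact.out
  by_contra hns
  -- V is central
  have hcentral : ∀ v ∈ V, ∀ g : G, g * v = v * g := by
    by_contra hcon
    push Not at hcon
    obtain ⟨v₀, hv₀, g₀, hg₀⟩ := hcon
    haveI hCn : (Subgroup.centralizer (V : Set G)).Normal := Subgroup.normal_centralizer
    have hCne : Subgroup.centralizer (V : Set G) ≠ ⊤ := by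
      intro h
      have : g₀ ∈ Subgroup.centralizer (V : Set G) := h ▸ Subgroup.mem_top g₀
      rw [Subgroup.mem_centralizer_iff] at this
      exact hg₀ (this v₀ hv₀).symm
    have hCab := hSN.comm_of_normal _ hCne
    have hidx : (Subgroup.centralizer (V : Set G)).index =
        p ^ (Subgroup.centralizer (V : Set G)).index.primeFactorsList.length := by
      apply Nat.eq_prime_pow_of_unique_prime_dvd Subgroup.index_ne_zero_of_finite
      intro q hq hqd
      by_contra hqp
      haveI : Fact q.Prime := ⟨hq⟩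
      obtain ⟨Q⟩ : Nonempty (Sylow q G) := inferInstance
      have hQC : (Q : Subgroup G) ≤ Subgroup.centralizer (V : Set G) := by
        intro x hx
        rw [Subgroup.mem_centralizer_iff]
        intro v hv
        exact (hB q Q hqp x hx v hv).symm
      exact Q.not_dvd_index (hqd.trans (Subgroup.index_dvd_of_le hQC))
    haveI : Group.IsSolvable (G ⧸ Subgroup.centralizer (V : Set G)) := by
      have hpg : IsPGroup p (G ⧸ Subgroup.centralizer (V : Set G)) := IsPGroup.of_card hidx
      haveI := hpg.isNilpotent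
      infer_instance
    haveI : Group.IsSolvable (Subgroup.centralizer (V : Set G)) := by
      apply Group.isSolvable_of_comm
      intro a b
      exact Subtype.ext (hCab a a.2 b b.2)
    apply hns
    apply Group.isSolvable_of_ker_le_range (Subgroup.centralizer (V : Set G)).subtype
      (QuotientGroup.mk' (Subgroup.centralizer (V : Set G)))
    rw [QuotientGroup.ker_mk']
    intro g hg
    exact ⟨⟨g, hg⟩, rfl⟩
  -- V is cyclic of order p
  obtain ⟨⟨z, hzV⟩, hz1'⟩ := (Subgroup.ne_bot_iff_exists_ne_one).1 hV1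
  have hz1 : z ≠ 1 := fun h => hz1' (Subtype.ext h)
  have hzn : (Subgroup.zpowers z).Normal := by
    constructor
    intro n hn g
    have hnV : n ∈ V := (Subgroup.zpowers_le.2 hzV) hn
    have h1 : g * n * g⁻¹ = n := by
      rw [hcentral n hnV g]
      group
    rw [h1]
    exact hn
  have hVz : Subgroup.zpowers z = V :=
    hVmin _ hzn (Subgroup.zpowers_ne_bot.2 hz1) (Subgroup.zpowers_le.2 hzV)
  have hoz : orderOf z = p := orderOf_eq_prime (hVp z hzV) hz1
  have hVcomm : ∀ a ∈ V, ∀ b ∈ V, a * b = b * a := fun a _ b hb => hcentral b hb a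
  haveI hVsol : Group.IsSolvable V := by
    apply Group.isSolvable_of_comm
    intro a b
    exact Subtype.ext (hVcomm a a.2 b b.2)
  -- the quotient is simple
  have hSNq := hSN.quotient V
  have hcardlt : Nat.card (G ⧸ V) < Nat.card G := by
    have h1 := Subgroup.card_eq_card_quotient_mul_card_subgroup V
    have h2 : 1 < Nat.card V := (Subgroup.one_lt_card_iff_ne_bot V).2 hV1
    have h3 : 0 < Nat.card (G ⧸ V) := Nat.card_pos
    nlinarith
  rcases ih (G ⧸ V) hcardlt hSNq with hsol | hsim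
  · apply hns
    haveI := hsol
    apply Group.isSolvable_of_ker_le_range V.subtype (QuotientGroup.mk' V)
    rw [QuotientGroup.ker_mk']
    intro g hg
    exact ⟨⟨g, hg⟩, rfl⟩
  -- G is perfect
  have hperf : commutator G = ⊤ := by
    by_contra hcne
    have hcab := hSN.comm_of_normal (commutator G) hcne
    apply hns
    haveI : Group.IsSolvable (commutator G) := by
      apply Group.isSolvable_of_comm
      intro a b
      exact Subtype.ext (hcab a a.2 b b.2)
    apply Group.isSolvable_of_ker_le_range (commutator G).subtype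
      (Abelianization.of : G →* Abelianization G)
    rw [Abelianization.ker_of]
    intro g hg
    exact ⟨⟨g, hg⟩, rfl⟩
  obtain ⟨P⟩ : Nonempty (Sylow p G) := inferInstance
  have hVpg : IsPGroup p V := by
    intro v
    refine ⟨1, ?_⟩
    rw [pow_one]
    exact Subtype.ext (hVp v v.2)
  have hVP : V ≤ P := normal_pGroup_le_sylow V hVpg P
  -- transfer into P / P'
  have hzc : ∀ (k : ℕ) (g₀ : G), g₀⁻¹ * z ^ k * g₀ ∈ (P : Subgroup G) →
      g₀⁻¹ * z ^ k * g₀ = z ^ k := by
    intro k g₀ _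
    have h1 : g₀ * z ^ k = z ^ k * g₀ := hcentral (z ^ k) (V.pow_mem hzV k) g₀
    calc g₀⁻¹ * z ^ k * g₀ = g₀⁻¹ * (z ^ k * g₀) := by group
      _ = g₀⁻¹ * (g₀ * z ^ k) := by rw [h1]
      _ = z ^ k := by group
  have hT := MonoidHom.transfer_eq_pow
    (Abelianization.of : ↥(P : Subgroup G) →* Abelianization ↥(P : Subgroup G)) z hzc
  have hT1 : MonoidHom.transfer
      (Abelianization.of : ↥(P : Subgroup G) →* Abelianization ↥(P : Subgroup G)) z = 1 := by
    have hle := Abelianization.commutator_subset_ker (MonoidHom.transfer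
      (Abelianization.of : ↥(P : Subgroup G) →* Abelianization ↥(P : Subgroup G)))
    rw [hperf] at hle
    exact hle (Subgroup.mem_top z)
  rw [hT1] at hT
  set z' : ↥(P : Subgroup G) := ⟨z ^ (P : Subgroup G).index, (P : Subgroup G).pow_mem (hVP hzV) _⟩
    with hz'
  have hzc' : z' ∈ commutator ↥(P : Subgroup G) := by
    rw [← Abelianization.ker_of, MonoidHom.mem_ker]
    exact hT.symm
  have hzi : z ^ (P : Subgroup G).index ≠ 1 := by
    intro h
    have h1 : orderOf z ∣ (P : Subgroup G).index := orderOf_dvd_of_pow_eq_one h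
    rw [hoz] at h1
    exact P.not_dvd_index h1
  have hz'1 : z' ≠ 1 := fun h => hzi (congrArg Subtype.val h)
  -- P is non-abelian
  have hPna : ∃ a ∈ P, ∃ b ∈ P, a * b ≠ b * a := by
    by_contra hcon
    push Not at hcon
    have hbot : commutator ↥(P : Subgroup G) = ⊥ := by
      rw [commutator_eq_closure, Subgroup.closure_eq_bot_iff]
      rintro g ⟨g₁, g₂, rfl⟩
      rw [Set.mem_singleton_iff, commutatorElement_eq_one_iff_mul_comm]
      exact Subtype.ext (hcon g₁ g₁.2 g₂ g₂.2)
    rw [hbot, Subgroup.mem_bot] at hzc'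
    exact hz'1 hzc'
  obtain ⟨a, haP, b, hbP, hab⟩ := hPna
  have hNP : Subgroup.normalizer ((P : Subgroup G) : Set G) = P :=
    hSN P (not_isMulCommutative_of haP hbP hab)
  -- P is minimal non-abelian
  have hmin : ∀ H : Subgroup ↥(P : Subgroup G), H ≠ ⊤ → ∀ x ∈ H, ∀ y ∈ H, x * y = y * x := by
    intro H hH
    by_contra hcon
    push Not at hcon
    obtain ⟨x, hx, y, hy, hxy⟩ := hcon
    have hH'P : H.map (P : Subgroup G).subtype ≤ P := Subgroup.map_subtype_le H
    have hne : H.map (P : Subgroup G).subtype ≠ P := by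
      intro h
      apply hH
      rw [eq_top_iff]
      intro t _
      have ht : (t : G) ∈ H.map (P : Subgroup G).subtype := by
        rw [h]
        exact t.2
      obtain ⟨s, hs, hst⟩ := ht
      have : s = t := Subtype.ext hst
      exact this ▸ hs
    have hx' : (x : G) ∈ H.map (P : Subgroup G).subtype := ⟨x, hx, rfl⟩
    have hy' : (y : G) ∈ H.map (P : Subgroup G).subtype := ⟨y, hy, rfl⟩
    have hxy' : (x : G) * y ≠ y * x := fun h => hxy (Subtype.ext h)
    have hNH := hSN _ (not_isMulCommutative_of hx' hy' hxy')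
    obtain ⟨t, htP, htN, htH⟩ := Cfsg.Agent.Helper5.exists_mem_normalizer_not_mem
      (P : Subgroup G) (H.map (P : Subgroup G).subtype) P.isPGroup' hH'P hne
    rw [hNH] at htN
    exact htH htN
  have hPpg : IsPGroup p ↥(P : Subgroup G) := P.isPGroup'
  obtain ⟨hcc, hcp, hcall⟩ := mna_commutator p hPpg hmin ⟨a, haP⟩ ⟨b, hbP⟩
    (fun h => hab (congrArg Subtype.val h))
  set c : ↥(P : Subgroup G) := ⟨a, haP⟩ * ⟨b, hbP⟩ * ⟨a, haP⟩⁻¹ * ⟨b, hbP⟩⁻¹ with hc
  have hc1 : c ≠ 1 := by
    intro h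
    apply hab
    have : (⟨a, haP⟩ : ↥(P : Subgroup G)) * ⟨b, hbP⟩ = ⟨b, hbP⟩ * ⟨a, haP⟩ := by
      calc (⟨a, haP⟩ : ↥(P : Subgroup G)) * ⟨b, hbP⟩ = c * (⟨b, hbP⟩ * ⟨a, haP⟩) := by
            rw [hc]
            group
        _ = ⟨b, hbP⟩ * ⟨a, haP⟩ := by rw [h, one_mul]
    exact congrArg Subtype.val this
  have hoc : orderOf c = p := orderOf_eq_prime hcp hc1
  have hcomle : commutator ↥(P : Subgroup G) ≤ Subgroup.zpowers c := by
    rw [commutator_eq_closure, Subgroup.closure_le]
    rintro g ⟨g₁, g₂, rfl⟩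
    rw [commutatorElement_def]
    exact hcall g₁ g₂
  have hz'c : z' ∈ Subgroup.zpowers c := hcomle hzc'
  have hzz : Subgroup.zpowers z' = Subgroup.zpowers c := by
    apply Subgroup.eq_of_le_of_card_ge (Subgroup.zpowers_le.2 hz'c)
    rw [Nat.card_zpowers, Nat.card_zpowers, hoc]
    have h1 : orderOf z' ∣ p := by
      have h0 : orderOf z' ∣ orderOf c := orderOf_dvd_of_mem_zpowers hz'c
      rw [hoc] at h0
      exact h0
    rcases (Nat.dvd_prime hp).1 h1 with h | h
    · exact absurd (orderOf_eq_one_iff.1 h) hz'1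
    · rw [h]
  -- commutators of P lie in V
  have hPV : ∀ s ∈ P, ∀ t ∈ P, s * t * s⁻¹ * t⁻¹ ∈ V := by
    intro s hs t ht
    have h1 : (⟨s, hs⟩ : ↥(P : Subgroup G)) * ⟨t, ht⟩ * ⟨s, hs⟩⁻¹ * ⟨t, ht⟩⁻¹ ∈
        Subgroup.zpowers z' := by
      rw [hzz]
      exact hcall _ _
    obtain ⟨i, hi⟩ := Subgroup.mem_zpowers_iff.1 h1
    have h2 : s * t * s⁻¹ * t⁻¹ = (z ^ (P : Subgroup G).index) ^ i := by
      have := congrArg Subtype.val hi
      rw [hz'] at this
      simp only [Subgroup.coe_zpow, Subgroup.coe_mul, Subgroup.coe_inv] at this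
      exact this.symm
    rw [h2]
    exact V.zpow_mem (V.pow_mem hzV _) i
  -- the Sylow subgroup of the quotient
  set Pb : Sylow p (G ⧸ V) := P.mapSurjective (QuotientGroup.mk'_surjective V) with hPb
  have hPbmem : ∀ sb : G ⧸ V, sb ∈ (Pb : Subgroup (G ⧸ V)) ↔
      ∃ s ∈ P, (QuotientGroup.mk s : G ⧸ V) = sb := by
    intro sb
    show sb ∈ (P : Subgroup G).map (QuotientGroup.mk' V) ↔ _
    rw [Subgroup.mem_map]
    rfl
  have hcomap : ∀ s : G, (QuotientGroup.mk s : G ⧸ V) ∈ (Pb : Subgroup (G ⧸ V)) ↔ s ∈ P := by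
    intro s
    rw [hPbmem]
    constructor
    · rintro ⟨s', hs', hss⟩
      have h1 : s'⁻¹ * s ∈ V := QuotientGroup.eq.1 hss
      have h2 : s = s' * (s'⁻¹ * s) := by group
      rw [h2]
      exact Subgroup.mul_mem _ hs' (hVP h1)
    · intro hs
      exact ⟨s, hs, rfl⟩
  have hNCb : Subgroup.normalizer ((Pb : Subgroup (G ⧸ V)) : Set (G ⧸ V)) ≤
      Subgroup.centralizer ((Pb : Subgroup (G ⧸ V)) : Set (G ⧸ V)) := by
    intro sb hsb
    obtain ⟨s, rfl⟩ := QuotientGroup.mk_surjective sb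
    have hsN : s ∈ Subgroup.normalizer ((P : Subgroup G) : Set G) := by
      rw [Subgroup.mem_normalizer_iff]
      intro h
      rw [Subgroup.mem_normalizer_iff] at hsb
      have := hsb (QuotientGroup.mk h)
      exact ⟨fun hh => (hcomap (s * h * s⁻¹)).1 (this.1 ((hcomap h).2 hh)),
        fun hh => (hcomap h).1 (this.2 ((hcomap (s * h * s⁻¹)).2 hh))⟩
    rw [hNP] at hsN
    rw [Subgroup.mem_centralizer_iff]
    intro tb htb
    obtain ⟨t, ht, rfl⟩ := (hPbmem tb).1 htb
    have h1 := hPV s hsN t ht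
    rw [← QuotientGroup.mk_mul, ← QuotientGroup.mk_mul, QuotientGroup.eq]
    have h2 : (t * s)⁻¹ * (s * t) = (t * s)⁻¹ * (s * t * s⁻¹ * t⁻¹) * ((t * s)⁻¹)⁻¹ := by group
    rw [h2]
    exact hVn.conj_mem _ h1 _
  have hKb := MonoidHom.ker_transferSylow_isComplement' Pb hNCb
  rcases hsim.eq_bot_or_eq_top_of_normal (MonoidHom.transferSylow Pb hNCb).ker inferInstance with
    hbot | htop
  · rw [hbot, Subgroup.isComplement'_bot_left] at hKb
    apply hns
    haveI : Group.IsSolvable (G ⧸ V) := by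
      apply Group.isSolvable_of_comm
      intro sb tb
      have hs : sb ∈ (Pb : Subgroup (G ⧸ V)) := hKb ▸ Subgroup.mem_top sb
      have ht : tb ∈ (Pb : Subgroup (G ⧸ V)) := hKb ▸ Subgroup.mem_top tb
      have h1 := hNCb (Subgroup.le_normalizer hs)
      rw [Subgroup.mem_centralizer_iff] at h1
      exact (h1 tb ht).symm
    apply Group.isSolvable_of_ker_le_range V.subtype (QuotientGroup.mk' V)
    rw [QuotientGroup.ker_mk']
    intro g hg
    exact ⟨⟨g, hg⟩, rfl⟩
  · rw [htop, Subgroup.isComplement'_top_left] at hKb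
    have ha : (QuotientGroup.mk a : G ⧸ V) ∈ (Pb : Subgroup (G ⧸ V)) := (hcomap a).2 haP
    rw [hKb, Subgroup.mem_bot, QuotientGroup.eq_one_iff] at ha
    exact hab (hcentral a ha b).symm

end Cfsg.Agent.Helper7
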