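import Mathlib
import Cfsg.Agent.Helper7.SelfNorm

set_option autoImplicit false

universe u

namespace Cfsg.Agent.Helper7

/-- The semidirect products `⟨x⟩ ⋉ A` of S4071 have all non-abelian subgroups self-normalizing. -/
theorem sn_of_structure {G : Type*} [Group G] [Finite G] (x : G) (A : Subgroup G) (p : ℕ)
    (hp : p.Prime) (hAn : A.Normal) (hAc : ∀ a ∈ A, ∀ b ∈ A, a * b = b * a) (k : ℕ)
    (hox : orderOf x = p ^ k) (hcompl : (Subgroup.zpowers x).IsComplement' A)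
    (hxp : x ^ p ∈ Subgroup.center G) (hfpf : ∀ a : G, a ∈ A → a ≠ 1 → x * a * x⁻¹ ≠ a) :
    SN G := by
  intro H hH
  apply le_antisymm _ Subgroup.le_normalizer
  have hxpc : ∀ g : G, g * x ^ p = x ^ p * g := fun g => Subgroup.mem_center_iff.1 hxp g
  -- every element is x^i * a
  have hdec : ∀ g : G, ∃ i : ℤ, ∃ a ∈ A, g = x ^ i * a := by
    intro g
    have h1 : g ∈ ((Subgroup.zpowers x ⊔ A : Subgroup G) : Set G) := by
      rw [hcompl.sup_eq_top]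
      exact Subgroup.mem_top g
    rw [Subgroup.mul_normal] at h1
    obtain ⟨u, hu, a, ha, rfl⟩ := Set.mem_mul.1 h1
    obtain ⟨i, rfl⟩ := Subgroup.mem_zpowers_iff.1 hu
    exact ⟨i, a, ha, rfl⟩
  -- an element of H outside A⟨x^p⟩
  have hex : ∃ h ∈ H, ∀ a ∈ A, ∀ j : ℤ, h ≠ a * (x ^ p) ^ j := by
    by_contra hcon
    push Not at hcon
    apply hH
    refine ⟨⟨fun s t => ?_⟩⟩
    obtain ⟨a, ha, j, hs⟩ := hcon s s.2
    obtain ⟨b, hb, l, ht⟩ := hcon t t.2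
    apply Subtype.ext
    show (s : G) * t = t * s
    rw [hs, ht]
    have h1 : Commute ((x ^ p) ^ j) b := by
      have : Commute (x ^ p) b := (hxpc b).symm
      exact this.zpow_left j
    have h2 : Commute ((x ^ p) ^ l) a := by
      have : Commute (x ^ p) a := (hxpc a).symm
      exact this.zpow_left l
    have h3 : Commute ((x ^ p) ^ j) ((x ^ p) ^ l) := (Commute.refl (x ^ p)).zpow_zpow j l
    calc a * (x ^ p) ^ j * (b * (x ^ p) ^ l) = a * ((x ^ p) ^ j * b) * (x ^ p) ^ l := by group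
      _ = a * (b * (x ^ p) ^ j) * (x ^ p) ^ l := by rw [h1.eq]
      _ = (a * b) * ((x ^ p) ^ j * (x ^ p) ^ l) := by group
      _ = (b * a) * ((x ^ p) ^ l * (x ^ p) ^ j) := by rw [hAc a ha b hb, h3.eq]
      _ = b * (a * (x ^ p) ^ l) * (x ^ p) ^ j := by group
      _ = b * ((x ^ p) ^ l * a) * (x ^ p) ^ j := by rw [h2.eq]
      _ = b * (x ^ p) ^ l * (a * (x ^ p) ^ j) := by group
  obtain ⟨h, hhH, hh⟩ := hex
  obtain ⟨i, a₂, ha₂, hi⟩ := hdec h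
  -- p does not divide i
  have hpi : ¬ (p : ℤ) ∣ i := by
    rintro ⟨j, rfl⟩
    apply hh (x ^ ((p : ℤ) * j) * a₂ * (x ^ ((p : ℤ) * j))⁻¹) (hAn.conj_mem a₂ ha₂ _) j
    rw [hi]
    have : (x ^ p) ^ j = x ^ ((p : ℤ) * j) := by
      rw [zpow_mul, zpow_natCast]
    rw [this]
    group
  -- Bezout
  have hcop : Nat.Coprime i.natAbs (p ^ k) := by
    apply Nat.Coprime.pow_right
    rw [Nat.coprime_comm, Nat.Prime.coprime_iff_not_dvd hp]
    intro hd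
    exact hpi (Int.natCast_dvd.2 hd)
  have hbez := Int.gcd_eq_gcd_ab i ((p ^ k : ℕ) : ℤ)
  have hgcd : Int.gcd i ((p ^ k : ℕ) : ℤ) = 1 := by
    have h0 : Int.gcd i ((p ^ k : ℕ) : ℤ) = Nat.gcd i.natAbs ((p ^ k : ℕ) : ℤ).natAbs := rfl
    rw [h0, Int.natAbs_natCast]
    exact hcop
  rw [hgcd] at hbez
  set u := Int.gcdA i ((p ^ k : ℕ) : ℤ) with hu
  set w := Int.gcdB i ((p ^ k : ℕ) : ℤ) with hw
  have hxpk : x ^ (p ^ k) = 1 := by rw [← hox]; exact pow_orderOf_eq_one x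
  have hxiu : (x ^ i) ^ u = x := by
    have h1 : x ^ (i * u + ((p ^ k : ℕ) : ℤ) * w) = x := by
      rw [← hbez]
      simp
    rw [zpow_add, zpow_mul, zpow_mul, zpow_natCast, hxpk, one_zpow, mul_one] at h1
    exact h1
  -- y = h^u ∈ H and y x⁻¹ ∈ A
  set y := h ^ u with hy
  have hyH : y ∈ H := H.zpow_mem hhH u
  have hmk : (QuotientGroup.mk y : G ⧸ A) = QuotientGroup.mk x := by
    rw [hy, QuotientGroup.mk_zpow, hi, QuotientGroup.mk_mul, (QuotientGroup.eq_one_iff a₂).2 ha₂,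
      mul_one, ← QuotientGroup.mk_zpow, hxiu]
  have hyx : y * x⁻¹ ∈ A := by
    have h1 : x⁻¹ * y ∈ A := QuotientGroup.eq.1 hmk.symm
    have h2 : y * x⁻¹ = x * (x⁻¹ * y) * x⁻¹ := by group
    rw [h2]
    exact hAn.conj_mem _ h1 x
  -- y acts on A as x does
  have hyact : ∀ a ∈ A, y * a * y⁻¹ = x * a * x⁻¹ := by
    intro a ha
    have h1 : x * a * x⁻¹ ∈ A := hAn.conj_mem a ha x
    have h2 := hAc (y * x⁻¹) hyx (x * a * x⁻¹) h1
    calc y * a * y⁻¹ = (y * x⁻¹) * (x * a * x⁻¹) * (y * x⁻¹)⁻¹ := by group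
      _ = (x * a * x⁻¹) * (y * x⁻¹) * (y * x⁻¹)⁻¹ := by rw [h2]
      _ = x * a * x⁻¹ := by group
  -- injectivity of a ↦ a * (y a⁻¹ y⁻¹) on A
  have hinj : ∀ a ∈ A, ∀ b ∈ A, a * (y * a⁻¹ * y⁻¹) = b * (y * b⁻¹ * y⁻¹) → a = b := by
    intro a ha b hb hab
    have hd : b⁻¹ * a ∈ A := A.mul_mem (A.inv_mem hb) ha
    have h1 : y * (b⁻¹ * a) * y⁻¹ = b⁻¹ * a := by
      calc y * (b⁻¹ * a) * y⁻¹ = (y * b⁻¹ * y⁻¹) * (y * a⁻¹ * y⁻¹)⁻¹ := by group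
        _ = b⁻¹ * (b * (y * b⁻¹ * y⁻¹)) * (y * a⁻¹ * y⁻¹)⁻¹ := by group
        _ = b⁻¹ * (a * (y * a⁻¹ * y⁻¹)) * (y * a⁻¹ * y⁻¹)⁻¹ := by rw [hab]
        _ = b⁻¹ * a := by group
    rw [hyact _ hd] at h1
    by_contra hne
    apply hfpf (b⁻¹ * a) hd _ h1
    intro h2
    apply hne
    calc a = b * (b⁻¹ * a) := by group
      _ = b := by rw [h2, mul_one]
  -- the induced injective self-map of H ⊓ A
  have hmap : ∀ b : (H ⊓ A : Subgroup G), (b : G) * (y * (b : G)⁻¹ * y⁻¹) ∈ H ⊓ A := by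
    intro b
    constructor
    · have h1 : (b : G) * (y * (b : G)⁻¹ * y⁻¹) = ((b : G) * y * (b : G)⁻¹) * y⁻¹ := by group
      rw [h1]
      exact H.mul_mem (H.mul_mem (H.mul_mem b.2.1 hyH) (H.inv_mem b.2.1)) (H.inv_mem hyH)
    · exact A.mul_mem b.2.2 (hAn.conj_mem _ (A.inv_mem b.2.2) y)
  have hψinj : Function.Injective (fun b : (H ⊓ A : Subgroup G) =>
      (⟨(b : G) * (y * (b : G)⁻¹ * y⁻¹), hmap b⟩ : (H ⊓ A : Subgroup G))) := by
    intro b b' hbb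
    have h1 : (b : G) * (y * (b : G)⁻¹ * y⁻¹) = (b' : G) * (y * (b' : G)⁻¹ * y⁻¹) :=
      congrArg Subtype.val hbb
    exact Subtype.ext (hinj _ b.2.2 _ b'.2.2 h1)
  have hψsurj := Finite.surjective_of_injective hψinj
  -- the normalizer
  intro g hg
  obtain ⟨l, a, ha, hgl⟩ := hdec g
  have hmkg : (QuotientGroup.mk (g * (y ^ l)⁻¹) : G ⧸ A) = 1 := by
    rw [QuotientGroup.mk_mul, QuotientGroup.mk_inv, QuotientGroup.mk_zpow, hmk, hgl,
      QuotientGroup.mk_mul, (QuotientGroup.eq_one_iff a).2 ha, mul_one, QuotientGroup.mk_zpow,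
      mul_inv_cancel]
  have ha₁ : g * (y ^ l)⁻¹ ∈ A := (QuotientGroup.eq_one_iff _).1 hmkg
  have hylH : y ^ l ∈ H := H.zpow_mem hyH l
  have ha₁N : g * (y ^ l)⁻¹ ∈ Subgroup.normalizer (H : Set G) :=
    Subgroup.mul_mem _ hg (Subgroup.inv_mem _ (Subgroup.le_normalizer hylH))
  set a₁ := g * (y ^ l)⁻¹ with ha₁def
  have hcH : a₁ * (y * a₁⁻¹ * y⁻¹) ∈ H ⊓ A := by
    constructor
    · have h1 : a₁ * (y * a₁⁻¹ * y⁻¹) = (a₁ * y * a₁⁻¹) * y⁻¹ := by group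
      rw [h1]
      exact H.mul_mem ((Subgroup.mem_normalizer_iff.1 ha₁N y).1 hyH) (H.inv_mem hyH)
    · exact A.mul_mem ha₁ (hAn.conj_mem _ (A.inv_mem ha₁) y)
  obtain ⟨b, hb⟩ := hψsurj ⟨a₁ * (y * a₁⁻¹ * y⁻¹), hcH⟩
  have hb' : (b : G) * (y * (b : G)⁻¹ * y⁻¹) = a₁ * (y * a₁⁻¹ * y⁻¹) := congrArg Subtype.val hb
  have hba : (b : G) = a₁ := hinj _ b.2.2 _ ha₁ hb'
  have ha₁H : a₁ ∈ H := hba ▸ b.2.1
  have hg2 : g = a₁ * y ^ l := by rw [ha₁def]; group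
  rw [hg2]
  exact H.mul_mem ha₁H hylH

end Cfsg.Agent.Helper7
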