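import Mathlib
import Cfsg.Agent.Helper7.SelfNorm

set_option autoImplicit false

universe u

namespace Cfsg.Agent.Helper7

theorem mem_normalizer_of_commute {G : Type*} [Group G] (K : Subgroup G) (z : G)
    (h : ∀ k ∈ K, z * k = k * z) : z ∈ Subgroup.normalizer (K : Set G) := by
  rw [Subgroup.mem_normalizer_iff]
  intro t
  constructor
  · intro ht
    have e : z * t * z⁻¹ = t := by rw [h t ht]; group
    rw [e]
    exact ht
  · intro ht
    have h1 := h _ ht
    have e : t = z * t * z⁻¹ := by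
      calc t = z⁻¹ * ((z * t * z⁻¹) * z) := by group
        _ = z⁻¹ * (z * (z * t * z⁻¹)) := by rw [h1]
        _ = z * t * z⁻¹ := by group
    rw [e]
    exact ht

/-- Key computation for fixed points of `[A, x]`. -/
theorem comm_fixed_eq_one {G : Type*} [Group G] [Finite G] (x : G) (A : Subgroup G) (p : ℕ)
    (hp : p.Prime) (hAn : A.Normal) (hAc : ∀ a ∈ A, ∀ b ∈ A, a * b = b * a)
    (hAp : ¬ p ∣ Nat.card A) (hxp : ∀ a ∈ A, x ^ p * a = a * x ^ p) (a : G) (ha : a ∈ A)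
    (hfix : x * (a * (x * a⁻¹ * x⁻¹)) * x⁻¹ = a * (x * a⁻¹ * x⁻¹)) :
    a * (x * a⁻¹ * x⁻¹) = 1 := by
  set b := a * (x * a⁻¹ * x⁻¹) with hb
  have hα : x * a⁻¹ * x⁻¹ ∈ A := hAn.conj_mem _ (A.inv_mem ha) x
  have hbA : b ∈ A := A.mul_mem ha hα
  have hxa : x * a * x⁻¹ ∈ A := hAn.conj_mem _ ha x
  have h1 : x * a * x⁻¹ = a * b⁻¹ := by
    have e : b⁻¹ = (x * a * x⁻¹) * a⁻¹ := by rw [hb]; group
    rw [e]
    have h2 := hAc a ha (x * a * x⁻¹) hxa
    calc x * a * x⁻¹ = (x * a * x⁻¹) * a * a⁻¹ := by group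
      _ = a * (x * a * x⁻¹) * a⁻¹ := by rw [h2]
      _ = a * (x * a * x⁻¹ * a⁻¹) := by group
  have h3 : x * b⁻¹ * x⁻¹ = b⁻¹ := by
    calc x * b⁻¹ * x⁻¹ = (x * b * x⁻¹)⁻¹ := by group
      _ = b⁻¹ := by rw [hfix]
  have hpow : ∀ n : ℕ, x ^ n * a * (x ^ n)⁻¹ = a * (b⁻¹) ^ n := by
    intro n
    induction n with
    | zero => simp
    | succ n ih =>
      have e1 : x ^ (n + 1) * a * (x ^ (n + 1))⁻¹ = x * (x ^ n * a * (x ^ n)⁻¹) * x⁻¹ := by
        rw [pow_succ']
        group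
      have e2 : x * (b⁻¹) ^ n * x⁻¹ = (b⁻¹) ^ n := by
        rw [← conj_pow, h3]
      rw [e1, ih]
      calc x * (a * b⁻¹ ^ n) * x⁻¹ = (x * a * x⁻¹) * (x * b⁻¹ ^ n * x⁻¹) := by group
        _ = (a * b⁻¹) * b⁻¹ ^ n := by rw [h1, e2]
        _ = a * b⁻¹ ^ (n + 1) := by rw [pow_succ']; group
  have h4 := hpow p
  have h5 : x ^ p * a * (x ^ p)⁻¹ = a := by
    rw [hxp a ha]
    group
  rw [h5] at h4
  have h6 : (b⁻¹) ^ p = 1 := by
    have : a * 1 = a * b⁻¹ ^ p := by rw [mul_one]; exact h4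
    exact (mul_left_cancel this).symm
  have h7 : b ^ p = 1 := by
    rw [inv_pow, inv_eq_one] at h6
    exact h6
  have h8 : orderOf b ∣ p := orderOf_dvd_of_pow_eq_one h7
  have h9 : orderOf b ∣ Nat.card A := by
    have := orderOf_dvd_natCard (⟨b, hbA⟩ : A)
    rw [Subgroup.orderOf_mk] at this
    exact this
  rcases (Nat.dvd_prime hp).1 h8 with h | h
  · exact orderOf_eq_one_iff.1 h
  · exact absurd (h ▸ h9) hAp

/-- Structure of solvable non-nilpotent groups with all non-abelian subgroups self-normalizing. -/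
theorem structure_of_sn {G : Type*} [Group G] [Finite G] [Group.IsSolvable G]
    (hnn : ¬ Group.IsNilpotent G) (hSN : SN G) :
    ∃ (x : G) (A : Subgroup G) (p : ℕ), p.Prime ∧ A.Normal ∧ IsMulCommutative A ∧
      (∃ k : ℕ, orderOf x = p ^ k) ∧ ¬ p ∣ Nat.card A ∧ (Subgroup.zpowers x).IsComplement' A ∧
      x ^ p ∈ Subgroup.center G ∧ ∀ a : G, a ∈ A → a ≠ 1 → x * a * x⁻¹ ≠ a := by
  -- a non-normal Sylow subgroup
  have h1 : ¬ ∀ (p : ℕ) (_hp : Fact p.Prime) (P : Sylow p G), (P : Subgroup G).Normal := by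
    intro h
    exact hnn (((Group.isNilpotent_of_finite_tfae (G := G)).out 0 3).2 h)
  push Not at h1
  obtain ⟨p, hpf, P, hPn⟩ := h1
  have hp : p.Prime := hpf.out
  haveI : Nontrivial G := by
    by_contra h
    rw [not_nontrivial_iff_subsingleton] at h
    exact hnn inferInstance
  have hG'ne : commutator G ≠ ⊤ := (Group.IsSolvable.commutator_lt_top_of_nontrivial G).ne
  have hG'ab := hSN.comm_of_normal (commutator G) hG'ne
  have hcomm_mem : ∀ g h : G, g * h * g⁻¹ * h⁻¹ ∈ commutator G := by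
    intro g h
    rw [← commutatorElement_def]
    exact Subgroup.commutator_mem_commutator (Subgroup.mem_top g) (Subgroup.mem_top h)
  haveI hXn : ((P : Subgroup G) ⊔ commutator G).Normal := by
    constructor
    intro n hn g
    have : g * n * g⁻¹ = (g * n * g⁻¹ * n⁻¹) * n := by group
    rw [this]
    exact Subgroup.mul_mem _ (Subgroup.mem_sup_right (hcomm_mem g n)) hn
  -- P G' = G
  have hXtop : (P : Subgroup G) ⊔ commutator G = ⊤ := by
    by_contra hX
    have hXab := hSN.comm_of_normal _ hX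
    apply hPn
    let T : Subgroup G :=
      { carrier := {t | t ∈ (P : Subgroup G) ⊔ commutator G ∧ ∃ k : ℕ, t ^ (p ^ k) = 1}
        mul_mem' := by
          rintro s t ⟨hs, k, hk⟩ ⟨ht, l, hl⟩
          refine ⟨Subgroup.mul_mem _ hs ht, k + l, ?_⟩
          have hc : Commute s t := hXab s hs t ht
          rw [hc.mul_pow, pow_add, pow_mul, hk, one_pow, mul_comm (p ^ k), pow_mul, hl, one_pow,
            one_mul]
        one_mem' := ⟨Subgroup.one_mem _, 0, one_pow _⟩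
        inv_mem' := by
          rintro s ⟨hs, k, hk⟩
          exact ⟨Subgroup.inv_mem _ hs, k, by rw [inv_pow, hk, inv_one]⟩ }
    have hT : IsPGroup p T := by
      intro t
      obtain ⟨k, hk⟩ := t.2.2
      exact ⟨k, Subtype.ext hk⟩
    have hPT : (P : Subgroup G) ≤ T := by
      intro u hu
      obtain ⟨k, hk⟩ := P.isPGroup' ⟨u, hu⟩
      exact ⟨Subgroup.mem_sup_left hu, k, congrArg Subtype.val hk⟩
    have hTP : T = P := P.is_maximal' hT hPT
    constructor
    intro u hu g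
    have huT : u ∈ T := hPT hu
    have : g * u * g⁻¹ ∈ T := by
      obtain ⟨k, hk⟩ := huT.2
      refine ⟨hXn.conj_mem u huT.1 g, k, ?_⟩
      rw [conj_pow, hk]
      group
    rw [hTP] at this
    exact this
  -- the p'-part A of G'
  set v := (Nat.card G).factorization p with hv
  set m := Nat.card G / p ^ v with hm
  have hG0 : Nat.card G ≠ 0 := Nat.card_pos.ne'
  have hvm : p ^ v * m = Nat.card G := Nat.ordProj_mul_ordCompl_eq_self _ _
  have hpm : ¬ p ∣ m := Nat.not_dvd_ordCompl hp hG0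
  let A : Subgroup G :=
    { carrier := {g | g ∈ commutator G ∧ g ^ m = 1}
      mul_mem' := by
        rintro s t ⟨hs, hs'⟩ ⟨ht, ht'⟩
        refine ⟨Subgroup.mul_mem _ hs ht, ?_⟩
        have hc : Commute s t := hG'ab s hs t ht
        rw [hc.mul_pow, hs', ht', one_mul]
      one_mem' := ⟨Subgroup.one_mem _, one_pow _⟩
      inv_mem' := by
        rintro s ⟨hs, hs'⟩
        exact ⟨Subgroup.inv_mem _ hs, by rw [inv_pow, hs', inv_one]⟩ }
  have hAG' : ∀ a ∈ A, a ∈ commutator G := fun a ha => ha.1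
  have hAn : A.Normal := by
    constructor
    intro n hn g
    refine ⟨(inferInstance : (commutator G).Normal).conj_mem n hn.1 g, ?_⟩
    rw [conj_pow, hn.2]
    group
  haveI := hAn
  have hAc : ∀ a ∈ A, ∀ b ∈ A, a * b = b * a := fun a ha b hb => hG'ab a ha.1 b hb.1
  have hAp : ¬ p ∣ Nat.card A := by
    intro hd
    obtain ⟨g, hg⟩ := exists_prime_orderOf_dvd_card' (G := A) p hd
    have h1 : (g : G) ^ m = 1 := g.2.2
    have h2 : orderOf (g : G) ∣ m := orderOf_dvd_of_pow_eq_one h1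
    rw [Subgroup.orderOf_coe, hg] at h2
    exact hpm h2
  have hPcard : Nat.card (P : Subgroup G) = p ^ v := Sylow.card_eq_multiplicity P
  -- G / A is a p-group
  have hpowA : ∀ g : G, g ^ (p ^ (v + v)) ∈ A := by
    intro g
    have hg : g ∈ (((P : Subgroup G) ⊔ commutator G : Subgroup G) : Set G) := by
      rw [hXtop]
      exact Subgroup.mem_top g
    rw [Subgroup.mul_normal] at hg
    obtain ⟨u, hu, d, hd, rfl⟩ := Set.mem_mul.1 hg
    have hu1 : u ^ (p ^ v) = 1 := by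
      have := pow_card_eq_one' (G := (P : Subgroup G)) (x := ⟨u, hu⟩)
      rw [hPcard] at this
      exact congrArg Subtype.val this
    have h1 : (u * d) ^ (p ^ v) ∈ commutator G := by
      rw [← QuotientGroup.eq_one_iff, QuotientGroup.mk_pow, QuotientGroup.mk_mul,
        (QuotientGroup.eq_one_iff d).2 hd, mul_one, ← QuotientGroup.mk_pow, hu1]
      rfl
    refine ⟨?_, ?_⟩
    · rw [pow_add, pow_mul]
      exact Subgroup.pow_mem _ h1 _
    · rw [← pow_mul, pow_add, mul_assoc, hvm, pow_mul]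
      rw [pow_card_eq_one']
  have hQp : IsPGroup p (G ⧸ A) := by
    intro q
    obtain ⟨g, rfl⟩ := QuotientGroup.mk_surjective q
    refine ⟨v + v, ?_⟩
    rw [← QuotientGroup.mk_pow, QuotientGroup.eq_one_iff]
    exact hpowA g
  obtain ⟨j, hj⟩ := IsPGroup.iff_card.1 hQp
  have hAidx : A.index = p ^ j := hj
  have hAG : Nat.card A * p ^ j = Nat.card G := by
    rw [← hAidx]
    exact Subgroup.card_mul_index A
  have hA0 : Nat.card A ≠ 0 := Nat.card_pos.ne'
  have hjv : v = j := by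
    rw [hv, ← hAG, Nat.factorization_mul hA0 (pow_ne_zero _ hp.ne_zero), Finsupp.add_apply,
      Nat.factorization_eq_zero_of_not_dvd hAp, zero_add, Nat.Prime.factorization_pow hp,
      Finsupp.single_eq_same]
  have hPA : Nat.card (P : Subgroup G) * Nat.card A = Nat.card G := by
    rw [hPcard, hjv, mul_comm]
    exact hAG
  have hcop : Nat.Coprime (Nat.card (P : Subgroup G)) (Nat.card A) := by
    rw [hPcard]
    exact Nat.Coprime.pow_left _ ((Nat.Prime.coprime_iff_not_dvd hp).2 hAp)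
  have hcompl : (P : Subgroup G).IsComplement' A := Subgroup.isComplement'_of_coprime hPA hcop
  have hdisj : ∀ w : G, w ∈ P → w ∈ A → w = 1 := fun w hwP hwA =>
    Subgroup.disjoint_def.1 hcompl.disjoint hwP hwA
  have hdec : ∀ g : G, ∃ u ∈ P, ∃ a ∈ A, g = u * a := by
    intro g
    have h1 : g ∈ (((P : Subgroup G) ⊔ A : Subgroup G) : Set G) := by
      rw [hcompl.sup_eq_top]
      exact Subgroup.mem_top g
    rw [Subgroup.mul_normal] at h1
    obtain ⟨u, hu, a, ha, rfl⟩ := Set.mem_mul.1 h1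
    exact ⟨u, hu, a, ha, rfl⟩
  -- P does not centralize A
  have hnc : ∃ x ∈ P, ∃ a ∈ A, x * a ≠ a * x := by
    by_contra hcon
    push Not at hcon
    apply hPn
    constructor
    intro n hn g
    obtain ⟨u, hu, a, ha, rfl⟩ := hdec g
    have h1 : n * a = a * n := hcon n hn a ha
    have h2 : u * a * n * (u * a)⁻¹ = u * n * u⁻¹ := by
      calc u * a * n * (u * a)⁻¹ = u * (a * n) * a⁻¹ * u⁻¹ := by group
        _ = u * (n * a) * a⁻¹ * u⁻¹ := by rw [h1]
        _ = u * n * u⁻¹ := by group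
    rw [h2]
    exact Subgroup.mul_mem _ (Subgroup.mul_mem _ hu hn) (Subgroup.inv_mem _ hu)
  obtain ⟨x, hxP, a₀, ha₀, hxa₀⟩ := hnc
  have hAnorm : ∀ g : G, g ∈ Subgroup.normalizer (A : Set G) := by
    intro g
    rw [Subgroup.normalizer_eq_top_iff.2 hAn]
    exact Subgroup.mem_top g
  -- proper subgroups of P centralize A
  have hprop : ∀ P₁ : Subgroup G, P₁ ≤ P → P₁ ≠ P → ∀ u ∈ P₁, ∀ a ∈ A, u * a = a * u := by
    intro P₁ hle hne
    by_contra hcon
    push Not at hcon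
    obtain ⟨u, hu, a, ha, hua⟩ := hcon
    have hN := hSN (A ⊔ P₁) (not_isMulCommutative_of (Subgroup.mem_sup_right hu)
      (Subgroup.mem_sup_left ha) hua)
    obtain ⟨y, hyP, hyN, hyP₁⟩ :=
      Cfsg.Agent.Helper5.exists_mem_normalizer_not_mem (P : Subgroup G) P₁ P.isPGroup' hle hne
    have hyH : y ∈ Subgroup.normalizer ((A ⊔ P₁ : Subgroup G) : Set G) :=
      mem_normalizer_sup (hAnorm y) hyN
    rw [hN] at hyH
    have hyH' : y ∈ ((A ⊔ P₁ : Subgroup G) : Set G) := hyH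
    rw [Subgroup.normal_mul] at hyH'
    obtain ⟨a', ha', u', hu', hy⟩ := Set.mem_mul.1 hyH'
    have ha'P : a' ∈ P := by
      have : a' = y * u'⁻¹ := by rw [← hy]; group
      rw [this]
      exact Subgroup.mul_mem _ hyP (Subgroup.inv_mem _ (hle hu'))
    have := hdisj a' ha'P ha'
    rw [this, one_mul] at hy
    exact hyP₁ (hy ▸ hu')
  -- P = ⟨x⟩
  have hzP : Subgroup.zpowers x ≤ (P : Subgroup G) := by
    rw [Subgroup.zpowers_le]
    exact hxP
  have hPeq : Subgroup.zpowers x = (P : Subgroup G) := by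
    by_contra hne
    exact hxa₀ (hprop _ hzP hne x (Subgroup.mem_zpowers x) a₀ ha₀)
  have hox : orderOf x = p ^ v := by
    rw [← Nat.card_zpowers, hPeq, hPcard]
  have hx1 : x ≠ 1 := by
    intro h
    apply hxa₀
    rw [h, one_mul, mul_one]
  have hv0 : v ≠ 0 := by
    intro h
    rw [h, pow_zero] at hox
    exact hx1 (orderOf_eq_one_iff.1 hox)
  -- x^p is central
  have hpdvd : p ∣ orderOf x := by
    rw [hox]
    exact dvd_pow_self p hv0
  have hxpne : Subgroup.zpowers (x ^ p) ≠ (P : Subgroup G) := by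
    intro h
    have h1 : Nat.card (Subgroup.zpowers (x ^ p)) = Nat.card (P : Subgroup G) := by rw [h]
    rw [Nat.card_zpowers, orderOf_pow_of_dvd hp.ne_zero hpdvd, hPcard, hox] at h1
    have h2 : p ^ v / p < p ^ v := Nat.div_lt_self (pow_pos hp.pos v) hp.one_lt
    omega
  have hxpA : ∀ a ∈ A, x ^ p * a = a * x ^ p :=
    hprop _ (Subgroup.zpowers_le.2 (Subgroup.pow_mem _ hxP p)) hxpne (x ^ p)
      (Subgroup.mem_zpowers _)
  have hxpc : x ^ p ∈ Subgroup.center G := by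
    rw [Subgroup.mem_center_iff]
    intro g
    obtain ⟨u, hu, a, ha, rfl⟩ := hdec g
    have hu' : u ∈ Subgroup.zpowers x := by rw [hPeq]; exact hu
    obtain ⟨i, rfl⟩ := Subgroup.mem_zpowers_iff.1 hu'
    have h1 : Commute (x ^ i) (x ^ p) := ((Commute.refl x).zpow_left i).pow_right p
    calc x ^ i * a * x ^ p = x ^ i * (a * x ^ p) := by group
      _ = x ^ i * (x ^ p * a) := by rw [hxpA a ha]
      _ = (x ^ i * x ^ p) * a := by group
      _ = (x ^ p * x ^ i) * a := by rw [h1.eq]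
      _ = x ^ p * (x ^ i * a) := by group
  refine ⟨x, A, p, hp, hAn, ⟨⟨fun a b => Subtype.ext (hAc a a.2 b b.2)⟩⟩, ⟨v, hox⟩, hAp,
    hPeq ▸ hcompl, hxpc, ?_⟩
  -- fixed-point-freeness
  intro z hzA hz1 hzfix
  have hkey := fun a ha => comm_fixed_eq_one x A p hp hAn hAc hAp hxpA a ha
  let B : Subgroup G :=
    { carrier := {b | ∃ a ∈ A, b = a * (x * a⁻¹ * x⁻¹)}
      mul_mem' := by
        rintro s t ⟨a, ha, rfl⟩ ⟨a', ha', rfl⟩
        refine ⟨a * a', A.mul_mem ha ha', ?_⟩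
        have hα : x * a⁻¹ * x⁻¹ ∈ A := hAn.conj_mem _ (A.inv_mem ha) x
        have hα' : x * a'⁻¹ * x⁻¹ ∈ A := hAn.conj_mem _ (A.inv_mem ha') x
        have h1 := hAc (x * a⁻¹ * x⁻¹) hα (a' * (x * a'⁻¹ * x⁻¹)) (A.mul_mem ha' hα')
        calc a * (x * a⁻¹ * x⁻¹) * (a' * (x * a'⁻¹ * x⁻¹))
            = a * ((x * a⁻¹ * x⁻¹) * (a' * (x * a'⁻¹ * x⁻¹))) := by group
          _ = a * ((a' * (x * a'⁻¹ * x⁻¹)) * (x * a⁻¹ * x⁻¹)) := by rw [h1]
          _ = a * a' * (x * (a * a')⁻¹ * x⁻¹) := by group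
      one_mem' := ⟨1, A.one_mem, by group⟩
      inv_mem' := by
        rintro s ⟨a, ha, rfl⟩
        refine ⟨a⁻¹, A.inv_mem ha, ?_⟩
        have hα : x * a * x⁻¹ ∈ A := hAn.conj_mem _ ha x
        have h1 := hAc (x * a * x⁻¹) hα a⁻¹ (A.inv_mem ha)
        calc (a * (x * a⁻¹ * x⁻¹))⁻¹ = (x * a * x⁻¹) * a⁻¹ := by group
          _ = a⁻¹ * (x * a * x⁻¹) := by rw [h1]
          _ = a⁻¹ * (x * a⁻¹⁻¹ * x⁻¹) := by group }
  have hBA : B ≤ A := by
    rintro b ⟨a, ha, rfl⟩
    exact A.mul_mem ha (hAn.conj_mem _ (A.inv_mem ha) x)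
  have hxNB : x ∈ Subgroup.normalizer (B : Set G) := by
    rw [Subgroup.mem_normalizer_iff]
    intro t
    constructor
    · rintro ⟨a, ha, rfl⟩
      exact ⟨x * a * x⁻¹, hAn.conj_mem _ ha x, by group⟩
    · rintro ⟨a, ha, hta⟩
      refine ⟨x⁻¹ * a * x, ?_, ?_⟩
      · have := hAn.conj_mem _ ha x⁻¹
        rw [inv_inv] at this
        exact this
      · calc t = x⁻¹ * (x * t * x⁻¹) * x := by group
          _ = x⁻¹ * (a * (x * a⁻¹ * x⁻¹)) * x := by rw [hta]
          _ = x⁻¹ * a * x * (x * (x⁻¹ * a * x)⁻¹ * x⁻¹) := by group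
  have hzNB : Subgroup.zpowers x ≤ Subgroup.normalizer (B : Set G) := by
    rw [Subgroup.zpowers_le]
    exact hxNB
  -- b₀
  have hb₀B : a₀ * (x * a₀⁻¹ * x⁻¹) ∈ B := ⟨a₀, ha₀, rfl⟩
  have hb₀1 : a₀ * (x * a₀⁻¹ * x⁻¹) ≠ 1 := by
    intro h
    apply hxa₀
    calc x * a₀ = (a₀ * (x * a₀⁻¹ * x⁻¹))⁻¹ * a₀ * x := by group
      _ = a₀ * x := by rw [h]; group
  have hb₀x : x * (a₀ * (x * a₀⁻¹ * x⁻¹)) ≠ (a₀ * (x * a₀⁻¹ * x⁻¹)) * x := by
    intro h
    apply hb₀1
    apply hkey a₀ ha₀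
    rw [h]
    group
  have hN := hSN (B ⊔ Subgroup.zpowers x) (not_isMulCommutative_of
    (Subgroup.mem_sup_right (Subgroup.mem_zpowers x)) (Subgroup.mem_sup_left hb₀B) hb₀x)
  have hzN : z ∈ Subgroup.normalizer ((B ⊔ Subgroup.zpowers x : Subgroup G) : Set G) := by
    apply mem_normalizer_sup
    · apply mem_normalizer_of_commute
      intro b hb
      exact hAc z hzA b (hBA hb)
    · apply mem_normalizer_of_commute
      intro u hu
      obtain ⟨i, rfl⟩ := Subgroup.mem_zpowers_iff.1 hu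
      have h1 : Commute x z := by
        show x * z = z * x
        calc x * z = (x * z * x⁻¹) * x := by group
          _ = z * x := by rw [hzfix]
      exact ((h1.zpow_left i).eq).symm
  rw [hN] at hzN
  have hzN' : z ∈ ((B ⊔ Subgroup.zpowers x : Subgroup G) : Set G) := hzN
  rw [Subgroup.coe_mul_of_right_le_normalizer_left B (Subgroup.zpowers x) hzNB] at hzN'
  obtain ⟨b, hb, u, hu, hbu⟩ := Set.mem_mul.1 hzN'
  have huP : u ∈ P := hzP hu
  have huA : u ∈ A := by
    have : u = b⁻¹ * z := by rw [← hbu]; group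
    rw [this]
    exact A.mul_mem (A.inv_mem (hBA hb)) hzA
  have hu1 := hdisj u huP huA
  rw [hu1, mul_one] at hbu
  obtain ⟨a, ha, hba⟩ := hb
  apply hz1
  rw [← hbu, hba]
  apply hkey a ha
  rw [← hba, hbu]
  exact hzfix

end Cfsg.Agent.Helper7
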