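import Mathlib

set_option autoImplicit false

namespace Cfsg.Agent.Helper7.Sym8

/-- Bitmask test: the three bits `x y z` together are exactly `m`, or miss `m`. -/
def tb (x y z m : ℕ) : Bool :=
  Nat.beq (Nat.lor (Nat.lor x y) z) m || Nat.beq (Nat.land (Nat.lor (Nat.lor x y) z) m) 0

def good (a0 a1 a2 a3 a4 a5 a6 a7 : ℕ) : Bool :=
  tb (2 ^ a0) (2 ^ a1) (2 ^ a2) 7 || (
  tb (2 ^ a0) (2 ^ a1) (2 ^ a3) 11 || (
  tb (2 ^ a0) (2 ^ a1) (2 ^ a4) 19 || (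
  tb (2 ^ a0) (2 ^ a1) (2 ^ a5) 35 || (
  tb (2 ^ a0) (2 ^ a1) (2 ^ a6) 67 || (
  tb (2 ^ a0) (2 ^ a1) (2 ^ a7) 131 || (
  tb (2 ^ a0) (2 ^ a2) (2 ^ a3) 13 || (
  tb (2 ^ a0) (2 ^ a2) (2 ^ a4) 21 || (
  tb (2 ^ a0) (2 ^ a2) (2 ^ a5) 37 || (
  tb (2 ^ a0) (2 ^ a2) (2 ^ a6) 69 || (
  tb (2 ^ a0) (2 ^ a2) (2 ^ a7) 133 || (
  tb (2 ^ a0) (2 ^ a3) (2 ^ a4) 25 || (
  tb (2 ^ a0) (2 ^ a3) (2 ^ a5) 41 || (
  tb (2 ^ a0) (2 ^ a3) (2 ^ a6) 73 || (
  tb (2 ^ a0) (2 ^ a3) (2 ^ a7) 137 || (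
  tb (2 ^ a0) (2 ^ a4) (2 ^ a5) 49 || (
  tb (2 ^ a0) (2 ^ a4) (2 ^ a6) 81 || (
  tb (2 ^ a0) (2 ^ a4) (2 ^ a7) 145 || (
  tb (2 ^ a0) (2 ^ a5) (2 ^ a6) 97 || (
  tb (2 ^ a0) (2 ^ a5) (2 ^ a7) 161 || (
  tb (2 ^ a0) (2 ^ a6) (2 ^ a7) 193 || (
  tb (2 ^ a1) (2 ^ a2) (2 ^ a3) 14 || (
  tb (2 ^ a1) (2 ^ a2) (2 ^ a4) 22 || (
  tb (2 ^ a1) (2 ^ a2) (2 ^ a5) 38 || (
  tb (2 ^ a1) (2 ^ a2) (2 ^ a6) 70 || (
  tb (2 ^ a1) (2 ^ a2) (2 ^ a7) 134 || (
  tb (2 ^ a1) (2 ^ a3) (2 ^ a4) 26 || (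
  tb (2 ^ a1) (2 ^ a3) (2 ^ a5) 42 || (
  tb (2 ^ a1) (2 ^ a3) (2 ^ a6) 74 || (
  tb (2 ^ a1) (2 ^ a3) (2 ^ a7) 138 || (
  tb (2 ^ a1) (2 ^ a4) (2 ^ a5) 50 || (
  tb (2 ^ a1) (2 ^ a4) (2 ^ a6) 82 || (
  tb (2 ^ a1) (2 ^ a4) (2 ^ a7) 146 || (
  tb (2 ^ a1) (2 ^ a5) (2 ^ a6) 98 || (
  tb (2 ^ a1) (2 ^ a5) (2 ^ a7) 162 || (
  tb (2 ^ a1) (2 ^ a6) (2 ^ a7) 194 || (
  tb (2 ^ a2) (2 ^ a3) (2 ^ a4) 28 || (
  tb (2 ^ a2) (2 ^ a3) (2 ^ a5) 44 || (
  tb (2 ^ a2) (2 ^ a3) (2 ^ a6) 76 || (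
  tb (2 ^ a2) (2 ^ a3) (2 ^ a7) 140 || (
  tb (2 ^ a2) (2 ^ a4) (2 ^ a5) 52 || (
  tb (2 ^ a2) (2 ^ a4) (2 ^ a6) 84 || (
  tb (2 ^ a2) (2 ^ a4) (2 ^ a7) 148 || (
  tb (2 ^ a2) (2 ^ a5) (2 ^ a6) 100 || (
  tb (2 ^ a2) (2 ^ a5) (2 ^ a7) 164 || (
  tb (2 ^ a2) (2 ^ a6) (2 ^ a7) 196 || (
  tb (2 ^ a3) (2 ^ a4) (2 ^ a5) 56 || (
  tb (2 ^ a3) (2 ^ a4) (2 ^ a6) 88 || (
  tb (2 ^ a3) (2 ^ a4) (2 ^ a7) 152 || (
  tb (2 ^ a3) (2 ^ a5) (2 ^ a6) 104 || (
  tb (2 ^ a3) (2 ^ a5) (2 ^ a7) 168 || (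
  tb (2 ^ a3) (2 ^ a6) (2 ^ a7) 200 || (
  tb (2 ^ a4) (2 ^ a5) (2 ^ a6) 112 || (
  tb (2 ^ a4) (2 ^ a5) (2 ^ a7) 176 || (
  tb (2 ^ a4) (2 ^ a6) (2 ^ a7) 208 || (
  tb (2 ^ a5) (2 ^ a6) (2 ^ a7) 224)))))))))))))))))))))))))))))))))))))))))))))))))))))))

def chk : Bool :=
  (List.range 8).all fun a0 =>
     (List.range 8).all fun a1 =>
       Nat.beq a1 a0 || (List.range 8).all fun a2 =>
         Nat.beq a2 a0 || Nat.beq a2 a1 || (List.range 8).all fun a3 =>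
           Nat.beq a3 a0 || Nat.beq a3 a1 || Nat.beq a3 a2 || (List.range 8).all fun a4 =>
             Nat.beq a4 a0 || Nat.beq a4 a1 || Nat.beq a4 a2 || Nat.beq a4 a3 || (List.range 8).all fun a5 =>
               Nat.beq a5 a0 || Nat.beq a5 a1 || Nat.beq a5 a2 || Nat.beq a5 a3 || Nat.beq a5 a4 || (List.range 8).all fun a6 =>
                 Nat.beq a6 a0 || Nat.beq a6 a1 || Nat.beq a6 a2 || Nat.beq a6 a3 || Nat.beq a6 a4 || Nat.beq a6 a5 || (List.range 8).all fun a7 =>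
                   Nat.beq a7 a0 || Nat.beq a7 a1 || Nat.beq a7 a2 || Nat.beq a7 a3 || Nat.beq a7 a4 || Nat.beq a7 a5 || Nat.beq a7 a6 || good a0 a1 a2 a3 a4 a5 a6 a7

set_option maxHeartbeats 0 in
theorem chk_true : chk = true := by decide +kernel

def SpecP (i j k u v w : Fin 8) : Prop :=
    tb (2 ^ u.val) (2 ^ v.val) (2 ^ w.val) (2 ^ i.val + 2 ^ j.val + 2 ^ k.val) = true →
    ((u = i ∨ u = j ∨ u = k) ∧ (v = i ∨ v = j ∨ v = k) ∧ (w = i ∨ w = j ∨ w = k)) ∨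
    ((u ≠ i ∧ u ≠ j ∧ u ≠ k) ∧ (v ≠ i ∧ v ≠ j ∧ v ≠ k) ∧ (w ≠ i ∧ w ≠ j ∧ w ≠ k))

instance (i j k u v w : Fin 8) : Decidable (SpecP i j k u v w) := by
  unfold SpecP; infer_instance

set_option maxHeartbeats 0 in
theorem tb_spec : ∀ i j : Fin 8, i < j → ∀ k : Fin 8, j < k → ∀ u v w : Fin 8, SpecP i j k u v w := by
  decide +kernel

theorem tb_spec_fin (c : Fin 8 → Fin 8) (i j k : Fin 8) (hij : i < j) (hjk : j < k)
    (h : tb (2 ^ (c i).val) (2 ^ (c j).val) (2 ^ (c k).val) (2 ^ i.val + 2 ^ j.val + 2 ^ k.val) = true) :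
    ((c i = i ∨ c i = j ∨ c i = k) ∧ (c j = i ∨ c j = j ∨ c j = k) ∧ (c k = i ∨ c k = j ∨ c k = k)) ∨
    ((c i ≠ i ∧ c i ≠ j ∧ c i ≠ k) ∧ (c j ≠ i ∧ c j ≠ j ∧ c j ≠ k) ∧ (c k ≠ i ∧ c k ≠ j ∧ c k ≠ k)) := by
  exact tb_spec i j hij k hjk (c i) (c j) (c k) h

/-- Every permutation of eight points has a 3-subset that is invariant or moved off itself. -/
theorem exists_triple (c : Fin 8 → Fin 8) (hc : Function.Injective c) :
    ∃ i j k : Fin 8, i < j ∧ j < k ∧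
    (((c i = i ∨ c i = j ∨ c i = k) ∧ (c j = i ∨ c j = j ∨ c j = k) ∧ (c k = i ∨ c k = j ∨ c k = k)) ∨
    ((c i ≠ i ∧ c i ≠ j ∧ c i ≠ k) ∧ (c j ≠ i ∧ c j ≠ j ∧ c j ≠ k) ∧ (c k ≠ i ∧ c k ≠ j ∧ c k ≠ k))) := by
  have h := chk_true
  simp only [chk, List.all_eq_true, List.mem_range, Bool.or_eq_true] at h
  have hne : ∀ a b : Fin 8, a ≠ b → Nat.beq (c a).val (c b).val = true → False := by
    intro a b hab hb
    exact hab (hc (Fin.ext (Nat.eq_of_beq_eq_true hb)))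
  have h := h _ (c 0).isLt
  have h := h _ (c 1).isLt
  have h := h.resolve_left (by
    intro hb
    rcases hb with hb
    · exact hne 1 0 (by decide) hb)
  have h := h _ (c 2).isLt
  have h := h.resolve_left (by
    intro hb
    rcases hb with (hb | hb)
    · exact hne 2 0 (by decide) hb
    · exact hne 2 1 (by decide) hb)
  have h := h _ (c 3).isLt
  have h := h.resolve_left (by
    intro hb
    rcases hb with ((hb | hb) | hb)
    · exact hne 3 0 (by decide) hb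
    · exact hne 3 1 (by decide) hb
    · exact hne 3 2 (by decide) hb)
  have h := h _ (c 4).isLt
  have h := h.resolve_left (by
    intro hb
    rcases hb with (((hb | hb) | hb) | hb)
    · exact hne 4 0 (by decide) hb
    · exact hne 4 1 (by decide) hb
    · exact hne 4 2 (by decide) hb
    · exact hne 4 3 (by decide) hb)
  have h := h _ (c 5).isLt
  have h := h.resolve_left (by
    intro hb
    rcases hb with ((((hb | hb) | hb) | hb) | hb)
    · exact hne 5 0 (by decide) hb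
    · exact hne 5 1 (by decide) hb
    · exact hne 5 2 (by decide) hb
    · exact hne 5 3 (by decide) hb
    · exact hne 5 4 (by decide) hb)
  have h := h _ (c 6).isLt
  have h := h.resolve_left (by
    intro hb
    rcases hb with (((((hb | hb) | hb) | hb) | hb) | hb)
    · exact hne 6 0 (by decide) hb
    · exact hne 6 1 (by decide) hb
    · exact hne 6 2 (by decide) hb
    · exact hne 6 3 (by decide) hb
    · exact hne 6 4 (by decide) hb
    · exact hne 6 5 (by decide) hb)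
  have h := h _ (c 7).isLt
  have h := h.resolve_left (by
    intro hb
    rcases hb with ((((((hb | hb) | hb) | hb) | hb) | hb) | hb)
    · exact hne 7 0 (by decide) hb
    · exact hne 7 1 (by decide) hb
    · exact hne 7 2 (by decide) hb
    · exact hne 7 3 (by decide) hb
    · exact hne 7 4 (by decide) hb
    · exact hne 7 5 (by decide) hb
    · exact hne 7 6 (by decide) hb)
  simp only [good, Bool.or_eq_true] at h
  rcases h with h | h | h | h | h | h | h | h | h | h | h | h | h | h | h | h | h | h | h | h | h | h | h | h | h | h | h | h | h | h | h | h | h | h | h | h | h | h | h | h | h | h | h | h | h | h | h | h | h | h | h | h | h | h | h | h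
  · exact ⟨0, 1, 2, by decide, by decide, tb_spec_fin c 0 1 2 (by decide) (by decide) h⟩
  · exact ⟨0, 1, 3, by decide, by decide, tb_spec_fin c 0 1 3 (by decide) (by decide) h⟩
  · exact ⟨0, 1, 4, by decide, by decide, tb_spec_fin c 0 1 4 (by decide) (by decide) h⟩
  · exact ⟨0, 1, 5, by decide, by decide, tb_spec_fin c 0 1 5 (by decide) (by decide) h⟩
  · exact ⟨0, 1, 6, by decide, by decide, tb_spec_fin c 0 1 6 (by decide) (by decide) h⟩
  · exact ⟨0, 1, 7, by decide, by decide, tb_spec_fin c 0 1 7 (by decide) (by decide) h⟩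
  · exact ⟨0, 2, 3, by decide, by decide, tb_spec_fin c 0 2 3 (by decide) (by decide) h⟩
  · exact ⟨0, 2, 4, by decide, by decide, tb_spec_fin c 0 2 4 (by decide) (by decide) h⟩
  · exact ⟨0, 2, 5, by decide, by decide, tb_spec_fin c 0 2 5 (by decide) (by decide) h⟩
  · exact ⟨0, 2, 6, by decide, by decide, tb_spec_fin c 0 2 6 (by decide) (by decide) h⟩
  · exact ⟨0, 2, 7, by decide, by decide, tb_spec_fin c 0 2 7 (by decide) (by decide) h⟩
  · exact ⟨0, 3, 4, by decide, by decide, tb_spec_fin c 0 3 4 (by decide) (by decide) h⟩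
  · exact ⟨0, 3, 5, by decide, by decide, tb_spec_fin c 0 3 5 (by decide) (by decide) h⟩
  · exact ⟨0, 3, 6, by decide, by decide, tb_spec_fin c 0 3 6 (by decide) (by decide) h⟩
  · exact ⟨0, 3, 7, by decide, by decide, tb_spec_fin c 0 3 7 (by decide) (by decide) h⟩
  · exact ⟨0, 4, 5, by decide, by decide, tb_spec_fin c 0 4 5 (by decide) (by decide) h⟩
  · exact ⟨0, 4, 6, by decide, by decide, tb_spec_fin c 0 4 6 (by decide) (by decide) h⟩
  · exact ⟨0, 4, 7, by decide, by decide, tb_spec_fin c 0 4 7 (by decide) (by decide) h⟩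
  · exact ⟨0, 5, 6, by decide, by decide, tb_spec_fin c 0 5 6 (by decide) (by decide) h⟩
  · exact ⟨0, 5, 7, by decide, by decide, tb_spec_fin c 0 5 7 (by decide) (by decide) h⟩
  · exact ⟨0, 6, 7, by decide, by decide, tb_spec_fin c 0 6 7 (by decide) (by decide) h⟩
  · exact ⟨1, 2, 3, by decide, by decide, tb_spec_fin c 1 2 3 (by decide) (by decide) h⟩
  · exact ⟨1, 2, 4, by decide, by decide, tb_spec_fin c 1 2 4 (by decide) (by decide) h⟩
  · exact ⟨1, 2, 5, by decide, by decide, tb_spec_fin c 1 2 5 (by decide) (by decide) h⟩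
  · exact ⟨1, 2, 6, by decide, by decide, tb_spec_fin c 1 2 6 (by decide) (by decide) h⟩
  · exact ⟨1, 2, 7, by decide, by decide, tb_spec_fin c 1 2 7 (by decide) (by decide) h⟩
  · exact ⟨1, 3, 4, by decide, by decide, tb_spec_fin c 1 3 4 (by decide) (by decide) h⟩
  · exact ⟨1, 3, 5, by decide, by decide, tb_spec_fin c 1 3 5 (by decide) (by decide) h⟩
  · exact ⟨1, 3, 6, by decide, by decide, tb_spec_fin c 1 3 6 (by decide) (by decide) h⟩
  · exact ⟨1, 3, 7, by decide, by decide, tb_spec_fin c 1 3 7 (by decide) (by decide) h⟩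
  · exact ⟨1, 4, 5, by decide, by decide, tb_spec_fin c 1 4 5 (by decide) (by decide) h⟩
  · exact ⟨1, 4, 6, by decide, by decide, tb_spec_fin c 1 4 6 (by decide) (by decide) h⟩
  · exact ⟨1, 4, 7, by decide, by decide, tb_spec_fin c 1 4 7 (by decide) (by decide) h⟩
  · exact ⟨1, 5, 6, by decide, by decide, tb_spec_fin c 1 5 6 (by decide) (by decide) h⟩
  · exact ⟨1, 5, 7, by decide, by decide, tb_spec_fin c 1 5 7 (by decide) (by decide) h⟩
  · exact ⟨1, 6, 7, by decide, by decide, tb_spec_fin c 1 6 7 (by decide) (by decide) h⟩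
  · exact ⟨2, 3, 4, by decide, by decide, tb_spec_fin c 2 3 4 (by decide) (by decide) h⟩
  · exact ⟨2, 3, 5, by decide, by decide, tb_spec_fin c 2 3 5 (by decide) (by decide) h⟩
  · exact ⟨2, 3, 6, by decide, by decide, tb_spec_fin c 2 3 6 (by decide) (by decide) h⟩
  · exact ⟨2, 3, 7, by decide, by decide, tb_spec_fin c 2 3 7 (by decide) (by decide) h⟩
  · exact ⟨2, 4, 5, by decide, by decide, tb_spec_fin c 2 4 5 (by decide) (by decide) h⟩
  · exact ⟨2, 4, 6, by decide, by decide, tb_spec_fin c 2 4 6 (by decide) (by decide) h⟩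
  · exact ⟨2, 4, 7, by decide, by decide, tb_spec_fin c 2 4 7 (by decide) (by decide) h⟩
  · exact ⟨2, 5, 6, by decide, by decide, tb_spec_fin c 2 5 6 (by decide) (by decide) h⟩
  · exact ⟨2, 5, 7, by decide, by decide, tb_spec_fin c 2 5 7 (by decide) (by decide) h⟩
  · exact ⟨2, 6, 7, by decide, by decide, tb_spec_fin c 2 6 7 (by decide) (by decide) h⟩
  · exact ⟨3, 4, 5, by decide, by decide, tb_spec_fin c 3 4 5 (by decide) (by decide) h⟩
  · exact ⟨3, 4, 6, by decide, by decide, tb_spec_fin c 3 4 6 (by decide) (by decide) h⟩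
  · exact ⟨3, 4, 7, by decide, by decide, tb_spec_fin c 3 4 7 (by decide) (by decide) h⟩
  · exact ⟨3, 5, 6, by decide, by decide, tb_spec_fin c 3 5 6 (by decide) (by decide) h⟩
  · exact ⟨3, 5, 7, by decide, by decide, tb_spec_fin c 3 5 7 (by decide) (by decide) h⟩
  · exact ⟨3, 6, 7, by decide, by decide, tb_spec_fin c 3 6 7 (by decide) (by decide) h⟩
  · exact ⟨4, 5, 6, by decide, by decide, tb_spec_fin c 4 5 6 (by decide) (by decide) h⟩
  · exact ⟨4, 5, 7, by decide, by decide, tb_spec_fin c 4 5 7 (by decide) (by decide) h⟩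
  · exact ⟨4, 6, 7, by decide, by decide, tb_spec_fin c 4 6 7 (by decide) (by decide) h⟩
  · exact ⟨5, 6, 7, by decide, by decide, tb_spec_fin c 5 6 7 (by decide) (by decide) h⟩

end Cfsg.Agent.Helper7.Sym8
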