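import Mathlib
import Cfsg.Prelude.Def_ClassicalGeometry
import Cfsg.Agent.Helper2.Symp

set_option autoImplicit false

namespace Cfsg.Agent.Helper7.SympTrans

open Matrix

variable {F : Type*} [Field F] (m : ℕ)

lemma form_add_left (x y z : Fin m ⊕ Fin m → F) :
    Cfsg.sympForm m F (x + y) z = Cfsg.sympForm m F x z + Cfsg.sympForm m F y z := by
  unfold Cfsg.sympForm; rw [add_dotProduct]

lemma form_add_right (x y z : Fin m ⊕ Fin m → F) :
    Cfsg.sympForm m F x (y + z) = Cfsg.sympForm m F x y + Cfsg.sympForm m F x z := by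
  unfold Cfsg.sympForm; rw [mulVec_add, dotProduct_add]

lemma form_sub_right (x y z : Fin m ⊕ Fin m → F) :
    Cfsg.sympForm m F x (y - z) = Cfsg.sympForm m F x y - Cfsg.sympForm m F x z := by
  unfold Cfsg.sympForm; rw [mulVec_sub, dotProduct_sub]

lemma form_swap (x y : Fin m ⊕ Fin m → F) :
    Cfsg.sympForm m F y x = - Cfsg.sympForm m F x y := by
  unfold Cfsg.sympForm
  rw [dotProduct_mulVec, Cfsg.Agent.Helper2.vecMul_J, neg_dotProduct, dotProduct_comm]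

lemma form_self (x : Fin m ⊕ Fin m → F) : Cfsg.sympForm m F x x = 0 :=
  Cfsg.Agent.Helper2.sympForm_self m x

lemma form_zero_left (x : Fin m ⊕ Fin m → F) : Cfsg.sympForm m F 0 x = 0 := by
  unfold Cfsg.sympForm; rw [zero_dotProduct]

lemma form_zero_right (x : Fin m ⊕ Fin m → F) : Cfsg.sympForm m F x 0 = 0 := by
  unfold Cfsg.sympForm; rw [mulVec_zero, dotProduct_zero]

lemma form_invariant (A : Matrix (Fin m ⊕ Fin m) (Fin m ⊕ Fin m) F)
    (hA : A ∈ Matrix.symplecticGroup (Fin m) F) (x y : Fin m ⊕ Fin m → F) :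
    Cfsg.sympForm m F (A *ᵥ x) (A *ᵥ y) = Cfsg.sympForm m F x y := by
  unfold Cfsg.sympForm
  rw [← vecMul_transpose A x, ← dotProduct_mulVec, mulVec_mulVec, mulVec_mulVec,
    (SymplecticGroup.mem_iff'.mp hA)]

lemma form_nondeg (v : Fin m ⊕ Fin m → F) (hv : v ≠ 0) :
    ∃ x : Fin m ⊕ Fin m → F, Cfsg.sympForm m F v x ≠ 0 := by
  obtain ⟨i, hi⟩ : ∃ i, v i ≠ 0 := by
    by_contra hcon
    push Not at hcon
    exact hv (funext hcon)
  refine ⟨J (Fin m) F *ᵥ Pi.single i 1, ?_⟩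
  unfold Cfsg.sympForm
  rw [Cfsg.Agent.Helper2.J_mulVec_J_mulVec, dotProduct_neg, dotProduct_single_one]
  exact neg_ne_zero.mpr hi

lemma trans_mulVec (w : Fin m ⊕ Fin m → F) (c : F) (x : Fin m ⊕ Fin m → F) :
    Cfsg.sympTransvection m w c *ᵥ x = x + (c * Cfsg.sympForm m F x w) • w := by
  unfold Cfsg.sympTransvection Cfsg.sympForm
  rw [add_mulVec, one_mulVec, smul_mulVec, vecMulVec_mulVec, dotProduct_comm, op_smul_eq_smul, smul_smul]

/-- The subgroup generated by symplectic transvections. -/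
def TS : Subgroup (Matrix.symplecticGroup (Fin m) F) :=
  Subgroup.closure {A : Matrix.symplecticGroup (Fin m) F | ∃ (w : Fin m ⊕ Fin m → F) (c : F),
    (A : Matrix (Fin m ⊕ Fin m) (Fin m ⊕ Fin m) F) = Cfsg.sympTransvection m w c}

/-- Core lemma: if `f(a,b) ≠ 0`, a single transvection moves `a` to `b` and fixes every `p` with
`f(p,a) = f(p,b)`. -/
lemma exists_move (a b : Fin m ⊕ Fin m → F) (hab : Cfsg.sympForm m F a b ≠ 0) :
    ∃ A ∈ TS (F := F) m, (A : Matrix (Fin m ⊕ Fin m) (Fin m ⊕ Fin m) F) *ᵥ a = b ∧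
      ∀ p : Fin m ⊕ Fin m → F, Cfsg.sympForm m F p a = Cfsg.sympForm m F p b →
        (A : Matrix (Fin m ⊕ Fin m) (Fin m ⊕ Fin m) F) *ᵥ p = p := by
  refine ⟨⟨Cfsg.sympTransvection m (b - a) (Cfsg.sympForm m F a b)⁻¹,
    Cfsg.Agent.Helper2.sympTransvection_mem m _ _⟩, Subgroup.subset_closure ⟨_, _, rfl⟩, ?_, ?_⟩
  · show Cfsg.sympTransvection m (b - a) (Cfsg.sympForm m F a b)⁻¹ *ᵥ a = b
    rw [trans_mulVec, form_sub_right, form_self, sub_zero, inv_mul_cancel₀ hab, one_smul]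
    abel
  · intro p hp
    show Cfsg.sympTransvection m (b - a) (Cfsg.sympForm m F a b)⁻¹ *ᵥ p = p
    rw [trans_mulVec, form_sub_right, hp, sub_self, mul_zero, zero_smul, add_zero]

/-- The transvection subgroup is transitive on nonzero vectors. -/
lemma exists_move_ne_zero (v w : Fin m ⊕ Fin m → F) (hv : v ≠ 0) (hw : w ≠ 0) :
    ∃ A ∈ TS (F := F) m, (A : Matrix (Fin m ⊕ Fin m) (Fin m ⊕ Fin m) F) *ᵥ v = w := by
  by_cases hvw : Cfsg.sympForm m F v w = 0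
  · obtain ⟨x1, hx1⟩ := form_nondeg m v hv
    obtain ⟨x2, hx2⟩ := form_nondeg m w hw
    have hx2' : Cfsg.sympForm m F x2 w ≠ 0 := by rw [form_swap]; exact neg_ne_zero.mpr hx2
    obtain ⟨x, hvx, hxw⟩ : ∃ x, Cfsg.sympForm m F v x ≠ 0 ∧ Cfsg.sympForm m F x w ≠ 0 := by
      by_cases h1 : Cfsg.sympForm m F x1 w = 0
      · by_cases h2 : Cfsg.sympForm m F v x2 = 0
        · refine ⟨x1 + x2, ?_, ?_⟩
          · rw [form_add_right, h2, add_zero]; exact hx1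
          · rw [form_add_left, h1, zero_add]; exact hx2'
        · exact ⟨x2, h2, hx2'⟩
      · exact ⟨x1, hx1, h1⟩
    obtain ⟨A1, hA1, hA1v, -⟩ := exists_move m v x hvx
    obtain ⟨A2, hA2, hA2x, -⟩ := exists_move m x w hxw
    refine ⟨A2 * A1, mul_mem hA2 hA1, ?_⟩
    show ((A2 : Matrix (Fin m ⊕ Fin m) (Fin m ⊕ Fin m) F) * (A1 : Matrix (Fin m ⊕ Fin m) (Fin m ⊕ Fin m) F)) *ᵥ v = w
    rw [← mulVec_mulVec, hA1v, hA2x]
  · obtain ⟨A, hA, hAv, -⟩ := exists_move m v w hvw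
    exact ⟨A, hA, hAv⟩

/-- The transvection subgroup is transitive on hyperbolic pairs. -/
lemma exists_move_pair (u v u' v' : Fin m ⊕ Fin m → F) (h : Cfsg.sympForm m F u v = 1)
    (h' : Cfsg.sympForm m F u' v' = 1) :
    ∃ A ∈ TS (F := F) m, (A : Matrix (Fin m ⊕ Fin m) (Fin m ⊕ Fin m) F) *ᵥ u = u' ∧
      (A : Matrix (Fin m ⊕ Fin m) (Fin m ⊕ Fin m) F) *ᵥ v = v' := by
  have hu : u ≠ 0 := by
    rintro rfl
    rw [form_zero_left] at h
    exact zero_ne_one h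
  have hu' : u' ≠ 0 := by
    rintro rfl
    rw [form_zero_left] at h'
    exact zero_ne_one h'
  obtain ⟨A1, hA1, hA1u⟩ := exists_move_ne_zero m u u' hu hu'
  have hv1 : Cfsg.sympForm m F u' ((A1 : Matrix (Fin m ⊕ Fin m) (Fin m ⊕ Fin m) F) *ᵥ v) = 1 := by
    rw [← hA1u, form_invariant m _ A1.2, h]
  set v1 := (A1 : Matrix (Fin m ⊕ Fin m) (Fin m ⊕ Fin m) F) *ᵥ v with hv1def
  obtain ⟨B, hB, hBu, hBv⟩ : ∃ B ∈ TS (F := F) m,
      (B : Matrix (Fin m ⊕ Fin m) (Fin m ⊕ Fin m) F) *ᵥ u' = u' ∧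
      (B : Matrix (Fin m ⊕ Fin m) (Fin m ⊕ Fin m) F) *ᵥ v1 = v' := by
    by_cases hc : Cfsg.sympForm m F v1 v' = 0
    · have hz1 : Cfsg.sympForm m F v1 (v1 + u') ≠ 0 := by
        rw [form_add_right, form_self, zero_add, form_swap, hv1]
        exact neg_ne_zero.mpr one_ne_zero
      have hz2 : Cfsg.sympForm m F (v1 + u') v' ≠ 0 := by
        rw [form_add_left, hc, zero_add, h']
        exact one_ne_zero
      have hz3 : Cfsg.sympForm m F u' (v1 + u') = 1 := by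
        rw [form_add_right, form_self, add_zero, hv1]
      obtain ⟨B1, hB1, hB1v, hB1fix⟩ := exists_move m v1 (v1 + u') hz1
      obtain ⟨B2, hB2, hB2v, hB2fix⟩ := exists_move m (v1 + u') v' hz2
      refine ⟨B2 * B1, mul_mem hB2 hB1, ?_, ?_⟩
      · show ((B2 : Matrix (Fin m ⊕ Fin m) (Fin m ⊕ Fin m) F) * (B1 : Matrix (Fin m ⊕ Fin m) (Fin m ⊕ Fin m) F)) *ᵥ u' = u'
        rw [← mulVec_mulVec, hB1fix u' (by rw [hv1, hz3]), hB2fix u' (by rw [hz3, h'])]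
      · show ((B2 : Matrix (Fin m ⊕ Fin m) (Fin m ⊕ Fin m) F) * (B1 : Matrix (Fin m ⊕ Fin m) (Fin m ⊕ Fin m) F)) *ᵥ v1 = v'
        rw [← mulVec_mulVec, hB1v, hB2v]
    · obtain ⟨B, hB, hBv, hBfix⟩ := exists_move m v1 v' hc
      exact ⟨B, hB, hBfix u' (by rw [hv1, h']), hBv⟩
  refine ⟨B * A1, mul_mem hB hA1, ?_, ?_⟩
  · show ((B : Matrix (Fin m ⊕ Fin m) (Fin m ⊕ Fin m) F) * (A1 : Matrix (Fin m ⊕ Fin m) (Fin m ⊕ Fin m) F)) *ᵥ u = u'
    rw [← mulVec_mulVec, hA1u, hBu]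
  · show ((B : Matrix (Fin m ⊕ Fin m) (Fin m ⊕ Fin m) F) * (A1 : Matrix (Fin m ⊕ Fin m) (Fin m ⊕ Fin m) F)) *ᵥ v = v'
    rw [← mulVec_mulVec, ← hv1def, hBv]

end Cfsg.Agent.Helper7.SympTrans
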