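import Mathlib
import Cfsg.Prelude.Def_ClassicalGeometry
import Cfsg.Agent.Helper2.Symp
import Cfsg.Agent.Helper7.SympTrans

set_option autoImplicit false

namespace Cfsg.Agent.Helper7.SympGen

open Matrix Cfsg.Agent.Helper7.SympTrans

variable {F : Type*} [Field F] (m : ℕ)

/-- `A` is a product of transvections along vectors of `U`: we only record what we need. -/
def Good (U : Submodule F (Fin m ⊕ Fin m → F)) (A : Matrix.symplecticGroup (Fin m) F) : Prop :=
  A ∈ TS (F := F) m ∧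
    (∀ x ∈ U, (A : Matrix (Fin m ⊕ Fin m) (Fin m ⊕ Fin m) F) *ᵥ x ∈ U) ∧
    (∀ y : Fin m ⊕ Fin m → F, (∀ w ∈ U, Cfsg.sympForm m F y w = 0) →
      (A : Matrix (Fin m ⊕ Fin m) (Fin m ⊕ Fin m) F) *ᵥ y = y)

lemma good_mul (U : Submodule F (Fin m ⊕ Fin m → F)) (A B : Matrix.symplecticGroup (Fin m) F)
    (hA : Good m U A) (hB : Good m U B) : Good m U (A * B) := by
  refine ⟨mul_mem hA.1 hB.1, ?_, ?_⟩
  · intro x hx
    show ((A : Matrix (Fin m ⊕ Fin m) (Fin m ⊕ Fin m) F) * (B : Matrix (Fin m ⊕ Fin m) (Fin m ⊕ Fin m) F)) *ᵥ x ∈ U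
    rw [← mulVec_mulVec]
    exact hA.2.1 _ (hB.2.1 x hx)
  · intro y hy
    show ((A : Matrix (Fin m ⊕ Fin m) (Fin m ⊕ Fin m) F) * (B : Matrix (Fin m ⊕ Fin m) (Fin m ⊕ Fin m) F)) *ᵥ y = y
    rw [← mulVec_mulVec, hB.2.2 y hy, hA.2.2 y hy]

lemma exists_move (U : Submodule F (Fin m ⊕ Fin m → F)) (a b : Fin m ⊕ Fin m → F)
    (ha : a ∈ U) (hb : b ∈ U) (hab : Cfsg.sympForm m F a b ≠ 0) :
    ∃ A, Good m U A ∧ (A : Matrix (Fin m ⊕ Fin m) (Fin m ⊕ Fin m) F) *ᵥ a = b ∧
      ∀ p : Fin m ⊕ Fin m → F, Cfsg.sympForm m F p a = Cfsg.sympForm m F p b →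
        (A : Matrix (Fin m ⊕ Fin m) (Fin m ⊕ Fin m) F) *ᵥ p = p := by
  refine ⟨⟨Cfsg.sympTransvection m (b - a) (Cfsg.sympForm m F a b)⁻¹,
    Cfsg.Agent.Helper2.sympTransvection_mem m _ _⟩, ⟨Subgroup.subset_closure ⟨_, _, rfl⟩, ?_, ?_⟩, ?_, ?_⟩
  · intro x hx
    show Cfsg.sympTransvection m (b - a) (Cfsg.sympForm m F a b)⁻¹ *ᵥ x ∈ U
    rw [trans_mulVec]
    exact U.add_mem hx (U.smul_mem _ (U.sub_mem hb ha))
  · intro y hy
    show Cfsg.sympTransvection m (b - a) (Cfsg.sympForm m F a b)⁻¹ *ᵥ y = y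
    rw [trans_mulVec, hy _ (U.sub_mem hb ha), mul_zero, zero_smul, add_zero]
  · show Cfsg.sympTransvection m (b - a) (Cfsg.sympForm m F a b)⁻¹ *ᵥ a = b
    rw [trans_mulVec, form_sub_right, form_self, sub_zero, inv_mul_cancel₀ hab, one_smul]
    abel
  · intro p hp
    show Cfsg.sympTransvection m (b - a) (Cfsg.sympForm m F a b)⁻¹ *ᵥ p = p
    rw [trans_mulVec, form_sub_right, hp, sub_self, mul_zero, zero_smul, add_zero]

lemma exists_move_ne_zero (U : Submodule F (Fin m ⊕ Fin m → F))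
    (hU : ∀ v ∈ U, v ≠ 0 → ∃ x ∈ U, Cfsg.sympForm m F v x ≠ 0)
    (v w : Fin m ⊕ Fin m → F) (hvU : v ∈ U) (hwU : w ∈ U) (hv : v ≠ 0) (hw : w ≠ 0) :
    ∃ A, Good m U A ∧ (A : Matrix (Fin m ⊕ Fin m) (Fin m ⊕ Fin m) F) *ᵥ v = w := by
  by_cases hvw : Cfsg.sympForm m F v w = 0
  · obtain ⟨x1, hx1U, hx1⟩ := hU v hvU hv
    obtain ⟨x2, hx2U, hx2⟩ := hU w hwU hw
    have hx2' : Cfsg.sympForm m F x2 w ≠ 0 := by rw [form_swap]; exact neg_ne_zero.mpr hx2
    obtain ⟨x, hxU, hvx, hxw⟩ : ∃ x ∈ U, Cfsg.sympForm m F v x ≠ 0 ∧ Cfsg.sympForm m F x w ≠ 0 := by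
      by_cases h1 : Cfsg.sympForm m F x1 w = 0
      · by_cases h2 : Cfsg.sympForm m F v x2 = 0
        · refine ⟨x1 + x2, U.add_mem hx1U hx2U, ?_, ?_⟩
          · rw [form_add_right, h2, add_zero]; exact hx1
          · rw [form_add_left, h1, zero_add]; exact hx2'
        · exact ⟨x2, hx2U, h2, hx2'⟩
      · exact ⟨x1, hx1U, hx1, h1⟩
    obtain ⟨A1, hA1, hA1v, -⟩ := exists_move m U v x hvU hxU hvx
    obtain ⟨A2, hA2, hA2x, -⟩ := exists_move m U x w hxU hwU hxw
    refine ⟨A2 * A1, good_mul m U _ _ hA2 hA1, ?_⟩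
    show ((A2 : Matrix (Fin m ⊕ Fin m) (Fin m ⊕ Fin m) F) * (A1 : Matrix (Fin m ⊕ Fin m) (Fin m ⊕ Fin m) F)) *ᵥ v = w
    rw [← mulVec_mulVec, hA1v, hA2x]
  · obtain ⟨A, hA, hAv, -⟩ := exists_move m U v w hvU hwU hvw
    exact ⟨A, hA, hAv⟩

lemma exists_move_pair (U : Submodule F (Fin m ⊕ Fin m → F))
    (hU : ∀ v ∈ U, v ≠ 0 → ∃ x ∈ U, Cfsg.sympForm m F v x ≠ 0)
    (u v u' v' : Fin m ⊕ Fin m → F) (huU : u ∈ U) (hvU : v ∈ U) (hu'U : u' ∈ U) (hv'U : v' ∈ U)
    (h : Cfsg.sympForm m F u v = 1) (h' : Cfsg.sympForm m F u' v' = 1) :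
    ∃ A, Good m U A ∧ (A : Matrix (Fin m ⊕ Fin m) (Fin m ⊕ Fin m) F) *ᵥ u = u' ∧
      (A : Matrix (Fin m ⊕ Fin m) (Fin m ⊕ Fin m) F) *ᵥ v = v' := by
  have hu : u ≠ 0 := by
    rintro rfl
    rw [form_zero_left] at h
    exact zero_ne_one h
  have hu' : u' ≠ 0 := by
    rintro rfl
    rw [form_zero_left] at h'
    exact zero_ne_one h'
  obtain ⟨A1, hA1, hA1u⟩ := exists_move_ne_zero m U hU u u' huU hu'U hu hu'
  have hv1 : Cfsg.sympForm m F u' ((A1 : Matrix (Fin m ⊕ Fin m) (Fin m ⊕ Fin m) F) *ᵥ v) = 1 := by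
    rw [← hA1u, form_invariant m _ A1.2, h]
  have hv1U : (A1 : Matrix (Fin m ⊕ Fin m) (Fin m ⊕ Fin m) F) *ᵥ v ∈ U := hA1.2.1 v hvU
  set v1 := (A1 : Matrix (Fin m ⊕ Fin m) (Fin m ⊕ Fin m) F) *ᵥ v with hv1def
  obtain ⟨B, hB, hBu, hBv⟩ : ∃ B, Good m U B ∧
      (B : Matrix (Fin m ⊕ Fin m) (Fin m ⊕ Fin m) F) *ᵥ u' = u' ∧
      (B : Matrix (Fin m ⊕ Fin m) (Fin m ⊕ Fin m) F) *ᵥ v1 = v' := by
    by_cases hc : Cfsg.sympForm m F v1 v' = 0
    · have hz1 : Cfsg.sympForm m F v1 (v1 + u') ≠ 0 := by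
        rw [form_add_right, form_self, zero_add, form_swap, hv1]
        exact neg_ne_zero.mpr one_ne_zero
      have hz2 : Cfsg.sympForm m F (v1 + u') v' ≠ 0 := by
        rw [form_add_left, hc, zero_add, h']
        exact one_ne_zero
      have hz3 : Cfsg.sympForm m F u' (v1 + u') = 1 := by
        rw [form_add_right, form_self, add_zero, hv1]
      obtain ⟨B1, hB1, hB1v, hB1fix⟩ := exists_move m U v1 (v1 + u') hv1U (U.add_mem hv1U hu'U) hz1
      obtain ⟨B2, hB2, hB2v, hB2fix⟩ := exists_move m U (v1 + u') v' (U.add_mem hv1U hu'U) hv'U hz2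
      refine ⟨B2 * B1, good_mul m U _ _ hB2 hB1, ?_, ?_⟩
      · show ((B2 : Matrix (Fin m ⊕ Fin m) (Fin m ⊕ Fin m) F) * (B1 : Matrix (Fin m ⊕ Fin m) (Fin m ⊕ Fin m) F)) *ᵥ u' = u'
        rw [← mulVec_mulVec, hB1fix u' (by rw [hv1, hz3]), hB2fix u' (by rw [hz3, h'])]
      · show ((B2 : Matrix (Fin m ⊕ Fin m) (Fin m ⊕ Fin m) F) * (B1 : Matrix (Fin m ⊕ Fin m) (Fin m ⊕ Fin m) F)) *ᵥ v1 = v'
        rw [← mulVec_mulVec, hB1v, hB2v]
    · obtain ⟨B, hB, hBv, hBfix⟩ := exists_move m U v1 v' hv1U hv'U hc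
      exact ⟨B, hB, hBfix u' (by rw [hv1, h']), hBv⟩
  refine ⟨B * A1, good_mul m U _ _ hB hA1, ?_, ?_⟩
  · show ((B : Matrix (Fin m ⊕ Fin m) (Fin m ⊕ Fin m) F) * (A1 : Matrix (Fin m ⊕ Fin m) (Fin m ⊕ Fin m) F)) *ᵥ u = u'
    rw [← mulVec_mulVec, hA1u, hBu]
  · show ((B : Matrix (Fin m ⊕ Fin m) (Fin m ⊕ Fin m) F) * (A1 : Matrix (Fin m ⊕ Fin m) (Fin m ⊕ Fin m) F)) *ᵥ v = v'
    rw [← mulVec_mulVec, ← hv1def, hBv]

/-- coordinate extraction -/
lemma form_single_inl (x : Fin m ⊕ Fin m → F) (i : Fin m) :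
    Cfsg.sympForm m F x (Pi.single (Sum.inl i) 1) = x (Sum.inr i) := by
  unfold Cfsg.sympForm
  rw [Matrix.mulVec_single_one]
  simp [dotProduct, Fintype.sum_sum_type, Matrix.J, Matrix.one_apply]

lemma form_single_inr (x : Fin m ⊕ Fin m → F) (i : Fin m) :
    Cfsg.sympForm m F x (Pi.single (Sum.inr i) 1) = - x (Sum.inl i) := by
  unfold Cfsg.sympForm
  rw [Matrix.mulVec_single_one]
  simp [dotProduct, Fintype.sum_sum_type, Matrix.J, Matrix.one_apply]

/-- vectors supported on the first `k` hyperbolic pairs -/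
def Uk (k : ℕ) : Submodule F (Fin m ⊕ Fin m → F) where
  carrier := {v | ∀ i : Fin m, k ≤ i.val → v (Sum.inl i) = 0 ∧ v (Sum.inr i) = 0}
  add_mem' := by
    intro a b ha hb i hi
    simp [ha i hi, hb i hi]
  zero_mem' := by
    intro i hi
    simp
  smul_mem' := by
    intro c a ha i hi
    simp [ha i hi]

lemma mem_Uk (k : ℕ) (v : Fin m ⊕ Fin m → F) :
    v ∈ Uk (F := F) m k ↔ ∀ i : Fin m, k ≤ i.val → v (Sum.inl i) = 0 ∧ v (Sum.inr i) = 0 := Iff.rfl

lemma single_inl_mem_Uk (k : ℕ) (i : Fin m) (hi : i.val < k) :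
    (Pi.single (Sum.inl i) 1 : Fin m ⊕ Fin m → F) ∈ Uk (F := F) m k := by
  intro j hj
  have hne : j ≠ i := by
    rintro rfl
    omega
  simp [Pi.single_apply, hne]

lemma single_inr_mem_Uk (k : ℕ) (i : Fin m) (hi : i.val < k) :
    (Pi.single (Sum.inr i) 1 : Fin m ⊕ Fin m → F) ∈ Uk (F := F) m k := by
  intro j hj
  have hne : j ≠ i := by
    rintro rfl
    omega
  simp [Pi.single_apply, hne]

lemma Uk_nondeg (k : ℕ) : ∀ v ∈ Uk (F := F) m k, v ≠ 0 →
    ∃ x ∈ Uk (F := F) m k, Cfsg.sympForm m F v x ≠ 0 := by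
  intro v hv hv0
  obtain ⟨j, hj⟩ : ∃ j, v j ≠ 0 := by
    by_contra hcon
    push Not at hcon
    exact hv0 (funext hcon)
  rcases j with i | i
  · have hik : i.val < k := by
      by_contra hcon
      exact hj (hv i (not_lt.mp hcon)).1
    refine ⟨Pi.single (Sum.inr i) 1, single_inr_mem_Uk m k i hik, ?_⟩
    rw [form_single_inr]
    exact neg_ne_zero.mpr hj
  · have hik : i.val < k := by
      by_contra hcon
      exact hj (hv i (not_lt.mp hcon)).2
    refine ⟨Pi.single (Sum.inl i) 1, single_inl_mem_Uk m k i hik, ?_⟩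
    rw [form_single_inl]
    exact hj

/-- the induction -/
lemma mem_TS_of_fix (k : ℕ) : ∀ A : Matrix.symplecticGroup (Fin m) F,
    (∀ i : Fin m, k ≤ i.val →
      (A : Matrix (Fin m ⊕ Fin m) (Fin m ⊕ Fin m) F) *ᵥ (Pi.single (Sum.inl i) 1) = Pi.single (Sum.inl i) 1 ∧
      (A : Matrix (Fin m ⊕ Fin m) (Fin m ⊕ Fin m) F) *ᵥ (Pi.single (Sum.inr i) 1) = Pi.single (Sum.inr i) 1) →
    A ∈ TS (F := F) m := by
  induction k with
  | zero =>
    intro A hA
    have h1 : A = 1 := by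
      apply Subtype.ext
      show (A : Matrix (Fin m ⊕ Fin m) (Fin m ⊕ Fin m) F) = 1
      ext r j
      rcases j with i | i
      · have := congrFun (hA i (Nat.zero_le _)).1 r
        rw [Matrix.mulVec_single_one] at this
        rw [Matrix.one_apply]
        simpa [Pi.single_apply] using this
      · have := congrFun (hA i (Nat.zero_le _)).2 r
        rw [Matrix.mulVec_single_one] at this
        rw [Matrix.one_apply]
        simpa [Pi.single_apply] using this
    rw [h1]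
    exact one_mem _
  | succ k ih =>
    intro A hA
    by_cases hk : k < m
    · set i0 : Fin m := ⟨k, hk⟩ with hi0
      obtain ⟨a, ha⟩ : ∃ a, a = (A : Matrix (Fin m ⊕ Fin m) (Fin m ⊕ Fin m) F) *ᵥ (Pi.single (Sum.inr i0) 1) := ⟨_, rfl⟩
      obtain ⟨b, hb⟩ : ∃ b, b = (A : Matrix (Fin m ⊕ Fin m) (Fin m ⊕ Fin m) F) *ᵥ (Pi.single (Sum.inl i0) 1) := ⟨_, rfl⟩
      have hab : Cfsg.sympForm m F a b = 1 := by
        rw [ha, hb, form_invariant m _ A.2, form_single_inl]
        simp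
      have haU : a ∈ Uk (F := F) m (k + 1) := by
        intro i hi
        have hne : i ≠ i0 := by
          intro h
          rw [h, hi0] at hi
          simp at hi
        constructor
        · have h1 : Cfsg.sympForm m F a (Pi.single (Sum.inr i) 1) = - a (Sum.inl i) := form_single_inr m a i
          have h2 : Cfsg.sympForm m F a (Pi.single (Sum.inr i) 1) = 0 := by
            rw [← (hA i hi).2, ha, form_invariant m _ A.2, form_single_inr]
            simp [Pi.single_apply]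
          rw [h2] at h1
          exact neg_eq_zero.mp h1.symm
        · have h1 : Cfsg.sympForm m F a (Pi.single (Sum.inl i) 1) = a (Sum.inr i) := form_single_inl m a i
          have h2 : Cfsg.sympForm m F a (Pi.single (Sum.inl i) 1) = 0 := by
            rw [← (hA i hi).1, ha, form_invariant m _ A.2, form_single_inl]
            simp [Pi.single_apply, hne, Ne.symm hne]
          rw [h2] at h1
          exact h1.symm
      have hbU : b ∈ Uk (F := F) m (k + 1) := by
        intro i hi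
        have hne : i ≠ i0 := by
          intro h
          rw [h, hi0] at hi
          simp at hi
        constructor
        · have h1 : Cfsg.sympForm m F b (Pi.single (Sum.inr i) 1) = - b (Sum.inl i) := form_single_inr m b i
          have h2 : Cfsg.sympForm m F b (Pi.single (Sum.inr i) 1) = 0 := by
            rw [← (hA i hi).2, hb, form_invariant m _ A.2, form_single_inr]
            simp [Pi.single_apply, hne, Ne.symm hne]
          rw [h2] at h1
          exact neg_eq_zero.mp h1.symm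
        · have h1 : Cfsg.sympForm m F b (Pi.single (Sum.inl i) 1) = b (Sum.inr i) := form_single_inl m b i
          have h2 : Cfsg.sympForm m F b (Pi.single (Sum.inl i) 1) = 0 := by
            rw [← (hA i hi).1, hb, form_invariant m _ A.2, form_single_inl]
            simp [Pi.single_apply]
          rw [h2] at h1
          exact h1.symm
      have htarget : Cfsg.sympForm m F (Pi.single (Sum.inr i0) 1 : Fin m ⊕ Fin m → F) (Pi.single (Sum.inl i0) 1) = 1 := by
        rw [form_single_inl]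
        simp
      obtain ⟨T, hT, hTa, hTb⟩ := exists_move_pair m (Uk (F := F) m (k + 1)) (Uk_nondeg m (k + 1))
        a b (Pi.single (Sum.inr i0) 1) (Pi.single (Sum.inl i0) 1) haU hbU
        (single_inr_mem_Uk m (k + 1) i0 (by rw [hi0]; simp))
        (single_inl_mem_Uk m (k + 1) i0 (by rw [hi0]; simp)) hab htarget
      have hTA : T * A ∈ TS (F := F) m := by
        apply ih
        intro i hi
        by_cases hik : i = i0
        · rw [hik]
          constructor
          · show ((T : Matrix (Fin m ⊕ Fin m) (Fin m ⊕ Fin m) F) * (A : Matrix (Fin m ⊕ Fin m) (Fin m ⊕ Fin m) F)) *ᵥ _ = _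
            rw [← mulVec_mulVec, ← hb, hTb]
          · show ((T : Matrix (Fin m ⊕ Fin m) (Fin m ⊕ Fin m) F) * (A : Matrix (Fin m ⊕ Fin m) (Fin m ⊕ Fin m) F)) *ᵥ _ = _
            rw [← mulVec_mulVec, ← ha, hTa]
        · have hi' : k + 1 ≤ i.val := by
            rcases Nat.lt_or_ge k i.val with h | h
            · exact h
            · exfalso
              apply hik
              apply Fin.ext
              rw [hi0]
              simp
              omega
          constructor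
          · show ((T : Matrix (Fin m ⊕ Fin m) (Fin m ⊕ Fin m) F) * (A : Matrix (Fin m ⊕ Fin m) (Fin m ⊕ Fin m) F)) *ᵥ _ = _
            rw [← mulVec_mulVec, (hA i hi').1]
            apply hT.2.2
            intro w hw
            rw [form_swap, form_single_inl, (hw i hi').2, neg_zero]
          · show ((T : Matrix (Fin m ⊕ Fin m) (Fin m ⊕ Fin m) F) * (A : Matrix (Fin m ⊕ Fin m) (Fin m ⊕ Fin m) F)) *ᵥ _ = _
            rw [← mulVec_mulVec, (hA i hi').2]
            apply hT.2.2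
            intro w hw
            rw [form_swap, form_single_inr, (hw i hi').1, neg_zero, neg_zero]
      have : A = T⁻¹ * (T * A) := by group
      rw [this]
      exact mul_mem (inv_mem hT.1) hTA
    · apply ih
      intro i hi
      exfalso
      have := i.2
      omega

theorem closure_eq_top : TS (F := F) m = ⊤ := by
  rw [eq_top_iff]
  intro A _
  apply mem_TS_of_fix m m A
  intro i hi
  exfalso
  have := i.2
  omega

end Cfsg.Agent.Helper7.SympGen
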