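import Mathlib
import Cfsg.Prelude.Def_ClassicalGeometry
import Cfsg.Agent.Helper2.Symp
import Cfsg.Agent.Helper7.SympTrans
import Cfsg.Agent.Helper7.SympGen
import Cfsg.Agent.Helper7.QuadCount

set_option autoImplicit false

namespace Cfsg.Agent.Helper7.SympCard

open Matrix Cfsg.Agent.Helper7.SympTrans Cfsg.Agent.Helper7.SympGen

variable {F : Type*} [Field F] (m : ℕ)

lemma inv_mulVec_of (B : Matrix.symplecticGroup (Fin m) F) (u w : Fin m ⊕ Fin m → F)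
    (h : (B : Matrix (Fin m ⊕ Fin m) (Fin m ⊕ Fin m) F) *ᵥ u = w) :
    ((B⁻¹ : Matrix.symplecticGroup (Fin m) F) : Matrix (Fin m ⊕ Fin m) (Fin m ⊕ Fin m) F) *ᵥ w = u := by
  have h1 : ((B⁻¹ : Matrix.symplecticGroup (Fin m) F) : Matrix (Fin m ⊕ Fin m) (Fin m ⊕ Fin m) F) *
      (B : Matrix (Fin m ⊕ Fin m) (Fin m ⊕ Fin m) F) = 1 := congrArg Subtype.val (inv_mul_cancel B)
  rw [← h, mulVec_mulVec, h1, one_mulVec]

lemma form_smul_right (c : F) (x y : Fin m ⊕ Fin m → F) :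
    Cfsg.sympForm m F x (c • y) = c * Cfsg.sympForm m F x y := by
  unfold Cfsg.sympForm
  rw [mulVec_smul, dotProduct_smul, smul_eq_mul]

/-- pointwise stabilizer of the standard hyperbolic pairs with index `≥ k` -/
def Gk (k : ℕ) : Subgroup (Matrix.symplecticGroup (Fin m) F) where
  carrier := {A | ∀ i : Fin m, k ≤ i.val →
      (A : Matrix (Fin m ⊕ Fin m) (Fin m ⊕ Fin m) F) *ᵥ (Pi.single (Sum.inl i) 1) = Pi.single (Sum.inl i) 1 ∧
      (A : Matrix (Fin m ⊕ Fin m) (Fin m ⊕ Fin m) F) *ᵥ (Pi.single (Sum.inr i) 1) = Pi.single (Sum.inr i) 1}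
  mul_mem' := by
    intro A B hA hB i hi
    constructor
    · show ((A : Matrix (Fin m ⊕ Fin m) (Fin m ⊕ Fin m) F) * (B : Matrix (Fin m ⊕ Fin m) (Fin m ⊕ Fin m) F)) *ᵥ _ = _
      rw [← mulVec_mulVec, (hB i hi).1, (hA i hi).1]
    · show ((A : Matrix (Fin m ⊕ Fin m) (Fin m ⊕ Fin m) F) * (B : Matrix (Fin m ⊕ Fin m) (Fin m ⊕ Fin m) F)) *ᵥ _ = _
      rw [← mulVec_mulVec, (hB i hi).2, (hA i hi).2]
  one_mem' := by
    intro i hi
    constructor
    · show (1 : Matrix (Fin m ⊕ Fin m) (Fin m ⊕ Fin m) F) *ᵥ _ = _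
      rw [one_mulVec]
    · show (1 : Matrix (Fin m ⊕ Fin m) (Fin m ⊕ Fin m) F) *ᵥ _ = _
      rw [one_mulVec]
  inv_mem' := by
    intro A hA i hi
    exact ⟨inv_mulVec_of m A _ _ (hA i hi).1, inv_mulVec_of m A _ _ (hA i hi).2⟩

lemma mem_Gk (k : ℕ) (A : Matrix.symplecticGroup (Fin m) F) :
    A ∈ Gk (F := F) m k ↔ ∀ i : Fin m, k ≤ i.val →
      (A : Matrix (Fin m ⊕ Fin m) (Fin m ⊕ Fin m) F) *ᵥ (Pi.single (Sum.inl i) 1) = Pi.single (Sum.inl i) 1 ∧
      (A : Matrix (Fin m ⊕ Fin m) (Fin m ⊕ Fin m) F) *ᵥ (Pi.single (Sum.inr i) 1) = Pi.single (Sum.inr i) 1 :=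
  Iff.rfl

lemma Gk_zero : Gk (F := F) m 0 = ⊥ := by
  rw [eq_bot_iff]
  intro A hA
  rw [Subgroup.mem_bot]
  apply Subtype.ext
  show (A : Matrix (Fin m ⊕ Fin m) (Fin m ⊕ Fin m) F) = 1
  ext r j
  rcases j with i | i
  · have := congrFun (hA i (Nat.zero_le _)).1 r
    rw [Matrix.mulVec_single_one] at this
    rw [Matrix.one_apply]
    simpa [Pi.single_apply] using this
  · have := congrFun (hA i (Nat.zero_le _)).2 r
    rw [Matrix.mulVec_single_one] at this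
    rw [Matrix.one_apply]
    simpa [Pi.single_apply] using this

lemma Gk_top : Gk (F := F) m m = ⊤ := by
  rw [eq_top_iff]
  intro A _ i hi
  exfalso
  have := i.2
  omega

lemma Gk_preserves_Uk (k : ℕ) (A : Matrix.symplecticGroup (Fin m) F) (hA : A ∈ Gk (F := F) m k)
    (x : Fin m ⊕ Fin m → F) (hx : x ∈ Uk (F := F) m k) :
    (A : Matrix (Fin m ⊕ Fin m) (Fin m ⊕ Fin m) F) *ᵥ x ∈ Uk (F := F) m k := by
  intro i hi
  constructor
  · have h1 := form_single_inr m ((A : Matrix (Fin m ⊕ Fin m) (Fin m ⊕ Fin m) F) *ᵥ x) i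
    have h2 : Cfsg.sympForm m F ((A : Matrix (Fin m ⊕ Fin m) (Fin m ⊕ Fin m) F) *ᵥ x) (Pi.single (Sum.inr i) 1) = 0 := by
      rw [← (hA i hi).2, form_invariant m _ A.2, form_single_inr, (hx i hi).1, neg_zero]
    rw [h2] at h1
    exact neg_eq_zero.mp h1.symm
  · have h1 := form_single_inl m ((A : Matrix (Fin m ⊕ Fin m) (Fin m ⊕ Fin m) F) *ᵥ x) i
    have h2 : Cfsg.sympForm m F ((A : Matrix (Fin m ⊕ Fin m) (Fin m ⊕ Fin m) F) *ᵥ x) (Pi.single (Sum.inl i) 1) = 0 := by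
      rw [← (hA i hi).1, form_invariant m _ A.2, form_single_inl, (hx i hi).2]
    rw [h2] at h1
    exact h1.symm

/-- hyperbolic pairs inside `Uk n` -/
def Pairs (n : ℕ) : Set ((Fin m ⊕ Fin m → F) × (Fin m ⊕ Fin m → F)) :=
  {p | p.1 ∈ Uk (F := F) m n ∧ p.2 ∈ Uk (F := F) m n ∧ Cfsg.sympForm m F p.1 p.2 = 1}

lemma exists_T (i0 : Fin m) (x : (Fin m ⊕ Fin m → F) × (Fin m ⊕ Fin m → F))
    (hx : x ∈ Pairs (F := F) m (i0.val + 1)) :
    ∃ T : Matrix.symplecticGroup (Fin m) F, T ∈ Gk (F := F) m (i0.val + 1) ∧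
      (T : Matrix (Fin m ⊕ Fin m) (Fin m ⊕ Fin m) F) *ᵥ (Pi.single (Sum.inr i0) 1) = x.1 ∧
      (T : Matrix (Fin m ⊕ Fin m) (Fin m ⊕ Fin m) F) *ᵥ (Pi.single (Sum.inl i0) 1) = x.2 := by
  have htarget : Cfsg.sympForm m F (Pi.single (Sum.inr i0) 1 : Fin m ⊕ Fin m → F) (Pi.single (Sum.inl i0) 1) = 1 := by
    rw [form_single_inl]
    simp
  obtain ⟨T, hT, hTa, hTb⟩ := exists_move_pair m (Uk (F := F) m (i0.val + 1)) (Uk_nondeg m (i0.val + 1))
    (Pi.single (Sum.inr i0) 1) (Pi.single (Sum.inl i0) 1) x.1 x.2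
    (single_inr_mem_Uk m (i0.val + 1) i0 (Nat.lt_succ_self _))
    (single_inl_mem_Uk m (i0.val + 1) i0 (Nat.lt_succ_self _)) hx.1 hx.2.1 htarget hx.2.2
  refine ⟨T, ?_, hTa, hTb⟩
  intro i hi
  constructor
  · apply hT.2.2
    intro w hw
    rw [form_swap, form_single_inl, (hw i hi).2, neg_zero]
  · apply hT.2.2
    intro w hw
    rw [form_swap, form_single_inr, (hw i hi).1, neg_zero, neg_zero]

/-- chosen element moving the standard pair to `x` -/
noncomputable def T (i0 : Fin m) (x : ↥(Pairs (F := F) m (i0.val + 1))) :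
    Matrix.symplecticGroup (Fin m) F :=
  Classical.choose (exists_T m i0 x.1 x.2)

lemma T_mem (i0 : Fin m) (x : ↥(Pairs (F := F) m (i0.val + 1))) :
    T m i0 x ∈ Gk (F := F) m (i0.val + 1) :=
  (Classical.choose_spec (exists_T m i0 x.1 x.2)).1

lemma T_inr (i0 : Fin m) (x : ↥(Pairs (F := F) m (i0.val + 1))) :
    (T m i0 x : Matrix (Fin m ⊕ Fin m) (Fin m ⊕ Fin m) F) *ᵥ (Pi.single (Sum.inr i0) 1) = x.1.1 :=
  (Classical.choose_spec (exists_T m i0 x.1 x.2)).2.1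

lemma T_inl (i0 : Fin m) (x : ↥(Pairs (F := F) m (i0.val + 1))) :
    (T m i0 x : Matrix (Fin m ⊕ Fin m) (Fin m ⊕ Fin m) F) *ᵥ (Pi.single (Sum.inl i0) 1) = x.1.2 :=
  (Classical.choose_spec (exists_T m i0 x.1 x.2)).2.2

/-- the pair of images of the standard pair -/
def pairOf (i0 : Fin m) (A : ↥(Gk (F := F) m (i0.val + 1))) : ↥(Pairs (F := F) m (i0.val + 1)) :=
  ⟨((A.1 : Matrix (Fin m ⊕ Fin m) (Fin m ⊕ Fin m) F) *ᵥ (Pi.single (Sum.inr i0) 1),
    (A.1 : Matrix (Fin m ⊕ Fin m) (Fin m ⊕ Fin m) F) *ᵥ (Pi.single (Sum.inl i0) 1)),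
    Gk_preserves_Uk m _ A.1 A.2 _ (single_inr_mem_Uk m (i0.val + 1) i0 (Nat.lt_succ_self _)),
    Gk_preserves_Uk m _ A.1 A.2 _ (single_inl_mem_Uk m (i0.val + 1) i0 (Nat.lt_succ_self _)), by
      show Cfsg.sympForm m F _ _ = 1
      rw [form_invariant m _ A.1.2, form_single_inl]
      simp⟩

lemma Gk_succ_of (i0 : Fin m) (B : Matrix.symplecticGroup (Fin m) F)
    (hB : B ∈ Gk (F := F) m (i0.val + 1))
    (h1 : (B : Matrix (Fin m ⊕ Fin m) (Fin m ⊕ Fin m) F) *ᵥ (Pi.single (Sum.inl i0) 1) = Pi.single (Sum.inl i0) 1)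
    (h2 : (B : Matrix (Fin m ⊕ Fin m) (Fin m ⊕ Fin m) F) *ᵥ (Pi.single (Sum.inr i0) 1) = Pi.single (Sum.inr i0) 1) :
    B ∈ Gk (F := F) m i0.val := by
  intro i hi
  by_cases hik : i = i0
  · rw [hik]
    exact ⟨h1, h2⟩
  · have hi' : i0.val + 1 ≤ i.val := by
      rcases Nat.lt_or_ge i0.val i.val with h | h
      · exact h
      · exfalso
        apply hik
        apply Fin.ext
        omega
    exact hB i hi'

lemma Gk_mono (k : ℕ) : Gk (F := F) m k ≤ Gk (F := F) m (k + 1) := by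
  intro A hA i hi
  exact hA i (by omega)

noncomputable def GkEquiv (i0 : Fin m) :
    ↥(Gk (F := F) m (i0.val + 1)) ≃ ↥(Pairs (F := F) m (i0.val + 1)) × ↥(Gk (F := F) m i0.val) where
  toFun A := (pairOf m i0 A, ⟨(T m i0 (pairOf m i0 A))⁻¹ * A.1, by
    apply Gk_succ_of m i0 _ (mul_mem (inv_mem (T_mem m i0 _)) A.2)
    · show ((((T m i0 (pairOf m i0 A))⁻¹ : Matrix.symplecticGroup (Fin m) F) : Matrix (Fin m ⊕ Fin m) (Fin m ⊕ Fin m) F) * (A.1 : Matrix (Fin m ⊕ Fin m) (Fin m ⊕ Fin m) F)) *ᵥ _ = _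
      rw [← mulVec_mulVec]
      exact inv_mulVec_of m _ _ _ (T_inl m i0 (pairOf m i0 A))
    · show ((((T m i0 (pairOf m i0 A))⁻¹ : Matrix.symplecticGroup (Fin m) F) : Matrix (Fin m ⊕ Fin m) (Fin m ⊕ Fin m) F) * (A.1 : Matrix (Fin m ⊕ Fin m) (Fin m ⊕ Fin m) F)) *ᵥ _ = _
      rw [← mulVec_mulVec]
      exact inv_mulVec_of m _ _ _ (T_inr m i0 (pairOf m i0 A))⟩)
  invFun p := ⟨T m i0 p.1 * p.2.1, mul_mem (T_mem m i0 p.1) (Gk_mono m _ p.2.2)⟩
  left_inv A := by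
    apply Subtype.ext
    show T m i0 (pairOf m i0 A) * ((T m i0 (pairOf m i0 A))⁻¹ * A.1) = A.1
    group
  right_inv p := by
    obtain ⟨x, B⟩ := p
    have h1 : pairOf m i0 ⟨T m i0 x * B.1, mul_mem (T_mem m i0 x) (Gk_mono m _ B.2)⟩ = x := by
      apply Subtype.ext
      apply Prod.ext
      · show ((T m i0 x : Matrix (Fin m ⊕ Fin m) (Fin m ⊕ Fin m) F) * (B.1 : Matrix (Fin m ⊕ Fin m) (Fin m ⊕ Fin m) F)) *ᵥ _ = _
        rw [← mulVec_mulVec, (B.2 i0 le_rfl).2, T_inr]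
      · show ((T m i0 x : Matrix (Fin m ⊕ Fin m) (Fin m ⊕ Fin m) F) * (B.1 : Matrix (Fin m ⊕ Fin m) (Fin m ⊕ Fin m) F)) *ᵥ _ = _
        rw [← mulVec_mulVec, (B.2 i0 le_rfl).1, T_inl]
    apply Prod.ext
    · exact h1
    · apply Subtype.ext
      show (T m i0 (pairOf m i0 ⟨T m i0 x * B.1, _⟩))⁻¹ * (T m i0 x * B.1) = B.1
      rw [h1]
      group


/-! ### counting -/

/-- `Uk n` is the set of functions on the first `n` pairs. -/
def UkEquiv (n : ℕ) (hn : n ≤ m) : ↥(Uk (F := F) m n) ≃ (Fin n ⊕ Fin n → F) where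
  toFun v := fun j => v.1 (Sum.map (Fin.castLE hn) (Fin.castLE hn) j)
  invFun g := ⟨fun j => Sum.elim (fun i : Fin m => if h : i.val < n then g (Sum.inl ⟨i.val, h⟩) else 0)
      (fun i : Fin m => if h : i.val < n then g (Sum.inr ⟨i.val, h⟩) else 0) j, by
    intro i hi
    have : ¬ i.val < n := by omega
    simp [this]⟩
  left_inv v := by
    apply Subtype.ext
    funext j
    rcases j with i | i
    · by_cases h : i.val < n
      · simp [h]
      · simp only [Sum.elim_inl, h, dite_false]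
        exact ((v.2 i (not_lt.mp h)).1).symm
    · by_cases h : i.val < n
      · simp [h]
      · simp only [Sum.elim_inr, h, dite_false]
        exact ((v.2 i (not_lt.mp h)).2).symm
  right_inv g := by
    funext j
    rcases j with i | i
    · simp
    · simp

lemma card_Uk [Fintype F] (n : ℕ) (hn : n ≤ m) :
    Nat.card ↥(Uk (F := F) m n) = Fintype.card F ^ (2 * n) := by
  rw [Nat.card_congr (UkEquiv m n hn), Nat.card_eq_fintype_card, Fintype.card_fun, Fintype.card_sum,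
    Fintype.card_fin, two_mul]

lemma card_fiber [Fintype F] (n : ℕ) (a : ↥(Uk (F := F) m n)) (ha : a ≠ 0) :
    Nat.card {b : ↥(Uk (F := F) m n) // Cfsg.sympForm m F a.1 b.1 = 1} * Fintype.card F =
      Nat.card ↥(Uk (F := F) m n) := by
  have ha' : a.1 ≠ 0 := fun h => ha (Subtype.ext h)
  obtain ⟨x, hxU, hx⟩ := Uk_nondeg m n a.1 a.2 ha'
  let φ : ↥(Uk (F := F) m n) →+ F :=
    { toFun := fun b => Cfsg.sympForm m F a.1 b.1
      map_zero' := form_zero_right m a.1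
      map_add' := fun b c => form_add_right m a.1 b.1 c.1 }
  have hsurj : Function.Surjective φ := by
    intro t
    refine ⟨⟨(t / Cfsg.sympForm m F a.1 x) • x, (Uk (F := F) m n).smul_mem _ hxU⟩, ?_⟩
    show Cfsg.sympForm m F a.1 ((t / Cfsg.sympForm m F a.1 x) • x) = t
    rw [form_smul_right, div_mul_cancel₀ _ hx]
  haveI : Finite ↥(Uk (F := F) m n) := Finite.of_injective (fun v => v.1) Subtype.val_injective
  have := Cfsg.Agent.Helper7.card_fiber_mul φ hsurj 1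
  rw [Nat.card_eq_fintype_card (α := F)] at this
  exact this

/-- hyperbolic pairs as a sigma type -/
def PairsEquiv (n : ℕ) : ↥(Pairs (F := F) m n) ≃
    Σ a : {a : ↥(Uk (F := F) m n) // a ≠ 0},
      {b : ↥(Uk (F := F) m n) // Cfsg.sympForm m F a.1.1 b.1 = 1} where
  toFun p := ⟨⟨⟨p.1.1, p.2.1⟩, by
    intro h
    have h1 := p.2.2.2
    rw [show p.1.1 = 0 from congrArg Subtype.val h, form_zero_left] at h1
    exact zero_ne_one h1⟩, ⟨⟨p.1.2, p.2.2.1⟩, p.2.2.2⟩⟩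
  invFun s := ⟨(s.1.1.1, s.2.1.1), s.1.1.2, s.2.1.2, s.2.2⟩
  left_inv p := rfl
  right_inv s := rfl

lemma card_Pairs [Fintype F] (n : ℕ) (hn : n + 1 ≤ m) :
    Nat.card ↥(Pairs (F := F) m (n + 1)) =
      (Fintype.card F ^ (2 * (n + 1)) - 1) * Fintype.card F ^ (2 * n + 1) := by
  classical
  haveI : Finite ↥(Uk (F := F) m (n + 1)) := Finite.of_injective (fun v => v.1) Subtype.val_injective
  haveI : Fintype ↥(Uk (F := F) m (n + 1)) := Fintype.ofFinite _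
  have hq : 0 < Fintype.card F := Fintype.card_pos
  have hfib : ∀ a : {a : ↥(Uk (F := F) m (n + 1)) // a ≠ 0},
      Nat.card {b : ↥(Uk (F := F) m (n + 1)) // Cfsg.sympForm m F a.1.1 b.1 = 1} =
        Fintype.card F ^ (2 * n + 1) := by
    intro a
    have h1 := card_fiber m (n + 1) a.1 a.2
    rw [card_Uk m (n + 1) hn, show 2 * (n + 1) = (2 * n + 1) + 1 by ring, pow_succ] at h1
    exact Nat.eq_of_mul_eq_mul_right hq h1
  rw [Nat.card_congr (PairsEquiv m (n + 1)), Nat.card_sigma]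
  simp only [hfib]
  rw [Finset.sum_const, Finset.card_univ, smul_eq_mul]
  congr 1
  rw [← Nat.card_eq_fintype_card]
  have h2 : Nat.card {a : ↥(Uk (F := F) m (n + 1)) // a ≠ 0} =
      ({(0 : ↥(Uk (F := F) m (n + 1)))}ᶜ : Set ↥(Uk (F := F) m (n + 1))).ncard := by
    rw [← Nat.card_coe_set_eq]
    rfl
  rw [h2, Set.ncard_compl, Set.ncard_singleton, card_Uk m (n + 1) hn]

lemma card_Gk [Fintype F] (k : ℕ) (hk : k ≤ m) :
    Nat.card ↥(Gk (F := F) m k) =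
      Fintype.card F ^ (k ^ 2) * ∏ i ∈ Finset.range k, (Fintype.card F ^ (2 * (i + 1)) - 1) := by
  induction k with
  | zero =>
    rw [Gk_zero]
    simp
  | succ k ih =>
    have hk' : k < m := hk
    have h1 := Nat.card_congr (GkEquiv (F := F) m ⟨k, hk'⟩)
    rw [Nat.card_prod] at h1
    have h2 := card_Pairs (F := F) m k hk
    simp only at h1
    rw [h1, h2, ih (by omega), Finset.prod_range_succ]
    have : (k + 1) ^ 2 = (2 * k + 1) + k ^ 2 := by ring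
    rw [this, pow_add]
    ring

theorem card_symplectic [Fintype F] :
    Nat.card (Matrix.symplecticGroup (Fin m) F) =
      Fintype.card F ^ (m ^ 2) * ∏ i ∈ Finset.range m, (Fintype.card F ^ (2 * (i + 1)) - 1) := by
  rw [← card_Gk m m le_rfl, Gk_top, Subgroup.card_top]

end Cfsg.Agent.Helper7.SympCard
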