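import Mathlib

set_option autoImplicit false

namespace Cfsg.Agent.Helper7

/-- If `M` is a nontrivial TI subgroup that is its own normalizer (in the strong form: only
elements of `M` conjugate a nonidentity element of `M` into `M`), then the nonidentity elements
of the conjugates of `M` make up at least half of the group. -/
theorem card_le_two_mul_card_conj_of_TI {G : Type*} [Group G] [Finite G] (M : Subgroup G)
    (hM : M ≠ ⊥) (hTI : ∀ g : G, g ∉ M → ∀ y ∈ M, g * y * g⁻¹ ∈ M → y = 1) :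
    Nat.card G ≤ 2 * Nat.card {x : G // x ≠ 1 ∧ ∃ g : G, g⁻¹ * x * g ∈ M} := by
  classical
  have hinj : Function.Injective (fun z : (G ⧸ M) × {m : M // m ≠ 1} =>
      (⟨z.1.out * (z.2.1 : G) * z.1.out⁻¹, by
        intro h
        apply z.2.2
        apply Subtype.ext
        have h1 : (z.2.1 : G) = z.1.out⁻¹ * (z.1.out * (z.2.1 : G) * z.1.out⁻¹) * z.1.out := by group
        rw [h1, h]
        simp, ⟨z.1.out, by
        have h1 : z.1.out⁻¹ * (z.1.out * (z.2.1 : G) * z.1.out⁻¹) * z.1.out = (z.2.1 : G) := by group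
        rw [h1]
        exact z.2.1.2⟩⟩ : {x : G // x ≠ 1 ∧ ∃ g : G, g⁻¹ * x * g ∈ M})) := by
    rintro ⟨q, y⟩ ⟨q', y'⟩ hqy
    have h1 : q.out * (y.1 : G) * q.out⁻¹ = q'.out * (y'.1 : G) * q'.out⁻¹ :=
      congrArg Subtype.val hqy
    have h2 : (q'.out⁻¹ * q.out) * (y.1 : G) * (q'.out⁻¹ * q.out)⁻¹ = (y'.1 : G) := by
      have h3 : (y'.1 : G) = q'.out⁻¹ * (q'.out * (y'.1 : G) * q'.out⁻¹) * q'.out := by group
      rw [h3, ← h1]
      group
    have h4 : q'.out⁻¹ * q.out ∈ M := by
      by_contra hnot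
      have h5 := hTI _ hnot (y.1 : G) y.1.2 (h2 ▸ y'.1.2)
      exact y.2 (Subtype.ext h5)
    have h7 : q' = q := by
      rw [← QuotientGroup.out_eq' q, ← QuotientGroup.out_eq' q']
      exact QuotientGroup.eq.2 h4
    subst h7
    have h8 : (y.1 : G) = y'.1 := by
      have h9 := mul_right_cancel h1
      exact mul_left_cancel h9
    exact Prod.ext rfl (Subtype.ext (Subtype.ext h8))
  have h1 := Nat.card_le_card_of_injective _ hinj
  rw [Nat.card_prod] at h1
  have h2 : Nat.card M = Nat.card {m : M // m ≠ 1} + 1 := by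
    rw [← Finite.card_option]
    exact Nat.card_congr (Equiv.optionSubtypeNe (1 : M)).symm
  have h3 := Subgroup.card_eq_card_quotient_mul_card_subgroup M
  have h4 : 1 < Nat.card M := (Subgroup.one_lt_card_iff_ne_bot M).2 hM
  have h5 : 0 < Nat.card (G ⧸ M) := Nat.card_pos
  rw [h3, h2]
  have h6 : 1 ≤ Nat.card {m : M // m ≠ 1} := by omega
  nlinarith

end Cfsg.Agent.Helper7
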