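import Mathlib
import Cfsg.Agent.Helper7.SylowLemmas
import Cfsg.Agent.Helper7.Conj

set_option autoImplicit false
open scoped Pointwise

namespace Cfsg.Agent.Helper7

/-- If one Sylow `p`-subgroup is TI, then for every Sylow `p`-subgroup `P₁`, an element
conjugating a nonidentity element of `P₁` into `P₁` normalizes `P₁`. -/
theorem mem_normalizer_of_TI_sylow {G : Type*} [Group G] [Finite G] {p : ℕ} [Fact p.Prime]
    (P : Sylow p G)
    (hTI : ∀ g : G, g ∉ Subgroup.normalizer ((P : Subgroup G) : Set G) →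
      (P : Subgroup G) ⊓ (MulAut.conj g • (P : Subgroup G)) = ⊥)
    (P₁ : Sylow p G) (w y : G) (hy : y ∈ P₁) (hwy : w⁻¹ * y * w ∈ P₁) (hy1 : y ≠ 1) :
    w ∈ Subgroup.normalizer ((P₁ : Subgroup G) : Set G) := by
  obtain ⟨g, hg⟩ := MulAction.exists_smul_eq G P P₁
  by_contra hcon
  have h3 : g⁻¹ * w * g ∉ Subgroup.normalizer ((P : Subgroup G) : Set G) := by
    intro h
    apply hcon
    have h' : (g⁻¹ * w * g) • P = P := Sylow.smul_eq_iff_mem_normalizer.2 h
    apply Sylow.smul_eq_iff_mem_normalizer.1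
    rw [← hg, ← mul_smul]
    have e : w * g = g * (g⁻¹ * w * g) := by group
    rw [e, mul_smul, h']
  have h4 := hTI _ h3
  have h5 : g⁻¹ * y * g ∈
      (P : Subgroup G) ⊓ (MulAut.conj (g⁻¹ * w * g) • (P : Subgroup G)) := by
    rw [Subgroup.mem_inf, mem_conj_smul_iff]
    constructor
    · have h6 := hy
      rw [← hg, mem_smul_sylow_iff] at h6
      exact h6
    · have h6 := hwy
      rw [← hg, mem_smul_sylow_iff] at h6
      have e : (g⁻¹ * w * g)⁻¹ * (g⁻¹ * y * g) * (g⁻¹ * w * g) = g⁻¹ * (w⁻¹ * y * w) * g := by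
        group
      rw [e]
      exact h6
  rw [h4, Subgroup.mem_bot] at h5
  apply hy1
  have e : y = g * (g⁻¹ * y * g) * g⁻¹ := by group
  rw [e, h5]
  group

end Cfsg.Agent.Helper7
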