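import Mathlib
import Cfsg.Prelude.Def_Classical
import Cfsg.Prelude.Def_LieClassical
import Cfsg.Agent.Helper7.HermCount
import Cfsg.Agent.S0281

set_option autoImplicit false

namespace Cfsg.Agent.Helper7.UnitCard

open Matrix

section Forms

variable {F : Type*} [Field F] {q : ℕ} (n : ℕ) (σ : F →+* F) (hσ : ∀ x, σ x = x ^ q)

include hσ

lemma h_eq (u v : Fin n → F) : Cfsg.hermForm n F q u v = ∑ i, u i * σ (v i) := by
  unfold Cfsg.hermForm
  simp only [hσ]

lemma h_add_left (u u' v : Fin n → F) :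
    Cfsg.hermForm n F q (u + u') v = Cfsg.hermForm n F q u v + Cfsg.hermForm n F q u' v := by
  rw [h_eq n σ hσ, h_eq n σ hσ, h_eq n σ hσ, ← Finset.sum_add_distrib]
  exact Finset.sum_congr rfl (fun i _ => by rw [Pi.add_apply]; ring)

lemma h_add_right (u v v' : Fin n → F) :
    Cfsg.hermForm n F q u (v + v') = Cfsg.hermForm n F q u v + Cfsg.hermForm n F q u v' := by
  rw [h_eq n σ hσ, h_eq n σ hσ, h_eq n σ hσ, ← Finset.sum_add_distrib]
  exact Finset.sum_congr rfl (fun i _ => by rw [Pi.add_apply, map_add]; ring)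

lemma h_smul_left (c : F) (u v : Fin n → F) :
    Cfsg.hermForm n F q (c • u) v = c * Cfsg.hermForm n F q u v := by
  rw [h_eq n σ hσ, h_eq n σ hσ, Finset.mul_sum]
  exact Finset.sum_congr rfl (fun i _ => by rw [Pi.smul_apply, smul_eq_mul]; ring)

lemma h_smul_right (c : F) (u v : Fin n → F) :
    Cfsg.hermForm n F q u (c • v) = σ c * Cfsg.hermForm n F q u v := by
  rw [h_eq n σ hσ, h_eq n σ hσ, Finset.mul_sum]
  exact Finset.sum_congr rfl (fun i _ => by rw [Pi.smul_apply, smul_eq_mul, map_mul]; ring)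

lemma h_neg_left (u v : Fin n → F) :
    Cfsg.hermForm n F q (-u) v = - Cfsg.hermForm n F q u v := by
  have := h_smul_left n σ hσ (-1) u v
  rwa [neg_one_smul, neg_one_mul] at this

lemma h_neg_right (u v : Fin n → F) :
    Cfsg.hermForm n F q u (-v) = - Cfsg.hermForm n F q u v := by
  have := h_smul_right n σ hσ (-1) u v
  rwa [neg_one_smul, map_neg, map_one, neg_one_mul] at this

lemma h_sub_left (u u' v : Fin n → F) :
    Cfsg.hermForm n F q (u - u') v = Cfsg.hermForm n F q u v - Cfsg.hermForm n F q u' v := by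
  rw [sub_eq_add_neg, h_add_left n σ hσ, h_neg_left n σ hσ, sub_eq_add_neg]

lemma h_sub_right (u v v' : Fin n → F) :
    Cfsg.hermForm n F q u (v - v') = Cfsg.hermForm n F q u v - Cfsg.hermForm n F q u v' := by
  rw [sub_eq_add_neg, h_add_right n σ hσ, h_neg_right n σ hσ, sub_eq_add_neg]

lemma h_zero_left (v : Fin n → F) : Cfsg.hermForm n F q 0 v = 0 := by
  rw [h_eq n σ hσ]
  simp

lemma h_single_right (x : Fin n → F) (i : Fin n) :
    Cfsg.hermForm n F q x (Pi.single i 1) = x i := by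
  classical
  rw [h_eq n σ hσ, Finset.sum_eq_single i]
  · rw [Pi.single_eq_same, map_one, mul_one]
  · intro j _ hj
    rw [Pi.single_eq_of_ne hj, map_zero, mul_zero]
  · intro h
    exact absurd (Finset.mem_univ i) h

lemma h_single_left (x : Fin n → F) (i : Fin n) :
    Cfsg.hermForm n F q (Pi.single i 1) x = σ (x i) := by
  classical
  rw [h_eq n σ hσ, Finset.sum_eq_single i]
  · rw [Pi.single_eq_same, one_mul]
  · intro j _ hj
    rw [Pi.single_eq_of_ne hj, zero_mul]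
  · intro h
    exact absurd (Finset.mem_univ i) h

lemma h_conj (hσσ : ∀ x, σ (σ x) = x) (u v : Fin n → F) :
    σ (Cfsg.hermForm n F q u v) = Cfsg.hermForm n F q v u := by
  rw [h_eq n σ hσ, h_eq n σ hσ, map_sum]
  exact Finset.sum_congr rfl (fun i _ => by rw [map_mul, hσσ, mul_comm])

omit hσ in
/-- quasi-reflection matrix `x ↦ x - α h(x,w) w` -/
def Rw (w : Fin n → F) (α : F) : Matrix (Fin n) (Fin n) F :=
  1 - α • vecMulVec w (fun i => σ (w i))

lemma Rw_mulVec (w : Fin n → F) (α : F) (x : Fin n → F) :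
    Rw n σ w α *ᵥ x = x - (α * Cfsg.hermForm n F q x w) • w := by
  unfold Rw
  rw [sub_mulVec, one_mulVec, smul_mulVec, vecMulVec_mulVec, op_smul_eq_smul, smul_smul]
  congr 3
  rw [h_eq n σ hσ, dotProduct]
  exact Finset.sum_congr rfl (fun i _ => mul_comm _ _)

lemma Rw_preserve (hσσ : ∀ x, σ (σ x) = x) (w : Fin n → F) (α : F)
    (hα : α + σ α = α * σ α * Cfsg.hermForm n F q w w) (x y : Fin n → F) :
    Cfsg.hermForm n F q (Rw n σ w α *ᵥ x) (Rw n σ w α *ᵥ y) = Cfsg.hermForm n F q x y := by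
  rw [Rw_mulVec n σ hσ, Rw_mulVec n σ hσ, h_sub_left n σ hσ, h_sub_right n σ hσ, h_sub_right n σ hσ,
    h_smul_left n σ hσ, h_smul_right n σ hσ, h_smul_right n σ hσ, h_smul_left n σ hσ, map_mul,
    h_conj n σ hσ hσσ y w]
  linear_combination (-(Cfsg.hermForm n F q x w * Cfsg.hermForm n F q w y)) * hα

lemma Rw_det_ne_zero (hσσ : ∀ x, σ (σ x) = x) (w : Fin n → F) (α : F)
    (hα : α + σ α = α * σ α * Cfsg.hermForm n F q w w) : (Rw n σ w α).det ≠ 0 := by
  classical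
  intro hdet
  obtain ⟨v, hv0, hv⟩ := Matrix.exists_mulVec_eq_zero_iff.mpr hdet
  apply hv0
  funext i
  have h1 := Rw_preserve n σ hσ hσσ w α hα v (Pi.single i 1)
  rw [hv, h_zero_left n σ hσ, h_single_right n σ hσ] at h1
  exact h1.symm

/-- basic mover: if `h(u,v) ≠ 1` for unit vectors `u, v`, a quasi-reflection along `u - v`
maps `u` to `v`, is unitary, and fixes every basis vector `e_i` with `u i = v i = 0`. -/
lemma exists_mover_aux (hσσ : ∀ x, σ (σ x) = x) (u v : Fin n → F)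
    (hu : Cfsg.hermForm n F q u u = 1) (hv : Cfsg.hermForm n F q v v = 1)
    (huv : Cfsg.hermForm n F q u v ≠ 1) :
    ∃ T : GL (Fin n) F, T ∈ Cfsg.GU n F q ∧ (T : Matrix (Fin n) (Fin n) F) *ᵥ u = v ∧
      ∀ i : Fin n, u i = 0 → v i = 0 →
        (T : Matrix (Fin n) (Fin n) F) *ᵥ (Pi.single i 1) = Pi.single i 1 := by
  classical
  have hβ : Cfsg.hermForm n F q u (u - v) ≠ 0 := by
    rw [h_sub_right n σ hσ, hu]
    exact sub_ne_zero.mpr (Ne.symm huv)
  have hβ' : σ (Cfsg.hermForm n F q u (u - v)) ≠ 0 := by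
    intro h
    apply hβ
    rw [← hσσ (Cfsg.hermForm n F q u (u - v)), h, map_zero]
  have hww : Cfsg.hermForm n F q (u - v) (u - v) =
      Cfsg.hermForm n F q u (u - v) + σ (Cfsg.hermForm n F q u (u - v)) := by
    rw [h_conj n σ hσ hσσ u (u - v), h_sub_left n σ hσ u v (u - v), h_sub_right n σ hσ u u v,
      h_sub_right n σ hσ v u v, h_sub_left n σ hσ u v u, hu, hv]
    ring
  have hα : (Cfsg.hermForm n F q u (u - v))⁻¹ + σ ((Cfsg.hermForm n F q u (u - v))⁻¹) =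
      (Cfsg.hermForm n F q u (u - v))⁻¹ * σ ((Cfsg.hermForm n F q u (u - v))⁻¹) *
        Cfsg.hermForm n F q (u - v) (u - v) := by
    rw [hww, map_inv₀]
    field_simp
    ring
  refine ⟨Matrix.GeneralLinearGroup.mkOfDetNeZero _ (Rw_det_ne_zero n σ hσ hσσ (u - v) _ hα),
    ?_, ?_, ?_⟩
  · exact fun x y => Rw_preserve n σ hσ hσσ (u - v) _ hα x y
  · show Rw n σ (u - v) _ *ᵥ u = v
    rw [Rw_mulVec n σ hσ, inv_mul_cancel₀ hβ, one_smul]
    abel
  · intro i hui hvi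
    show Rw n σ (u - v) _ *ᵥ (Pi.single i 1) = Pi.single i 1
    rw [Rw_mulVec n σ hσ, h_single_left n σ hσ, Pi.sub_apply, hui, hvi, sub_zero, map_zero, mul_zero,
      zero_smul, sub_zero]

/-- general mover -/
lemma exists_mover [Fintype F] (hF : Fintype.card F = q ^ 2) (hσσ : ∀ x, σ (σ x) = x)
    (u v : Fin n → F) (hu : Cfsg.hermForm n F q u u = 1) (hv : Cfsg.hermForm n F q v v = 1) :
    ∃ T : GL (Fin n) F, T ∈ Cfsg.GU n F q ∧ (T : Matrix (Fin n) (Fin n) F) *ᵥ u = v ∧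
      ∀ i : Fin n, u i = 0 → v i = 0 →
        (T : Matrix (Fin n) (Fin n) F) *ᵥ (Pi.single i 1) = Pi.single i 1 := by
  by_cases huv : Cfsg.hermForm n F q u v = 1
  · obtain ⟨ζ, hζ0, hζ1, hζ⟩ := Cfsg.Agent.S0279.exists_norm_one hF
    have hσζ : ζ * σ ζ = 1 := by rw [hσ, ← pow_succ']; exact hζ
    have hz : Cfsg.hermForm n F q (ζ • u) (ζ • u) = 1 := by
      rw [h_smul_left n σ hσ, h_smul_right n σ hσ, hu, mul_one, hσζ]
    have huz : Cfsg.hermForm n F q u (ζ • u) ≠ 1 := by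
      rw [h_smul_right n σ hσ, hu, mul_one]
      intro h1
      apply hζ1
      rw [← hσσ ζ, h1, map_one]
    have hzv : Cfsg.hermForm n F q (ζ • u) v ≠ 1 := by
      rw [h_smul_left n σ hσ, huv, mul_one]
      exact hζ1
    obtain ⟨T1, hT1, hT1u, hT1fix⟩ := exists_mover_aux n σ hσ hσσ u (ζ • u) hu hz huz
    obtain ⟨T2, hT2, hT2u, hT2fix⟩ := exists_mover_aux n σ hσ hσσ (ζ • u) v hz hv hzv
    refine ⟨T2 * T1, mul_mem hT2 hT1, ?_, ?_⟩
    · show ((T2 : Matrix (Fin n) (Fin n) F) * (T1 : Matrix (Fin n) (Fin n) F)) *ᵥ u = v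
      rw [← mulVec_mulVec, hT1u, hT2u]
    · intro i hui hvi
      show ((T2 : Matrix (Fin n) (Fin n) F) * (T1 : Matrix (Fin n) (Fin n) F)) *ᵥ _ = _
      rw [← mulVec_mulVec, hT1fix i hui (by rw [Pi.smul_apply, hui, smul_zero]),
        hT2fix i (by rw [Pi.smul_apply, hui, smul_zero]) hvi]
  · exact exists_mover_aux n σ hσ hσσ u v hu hv huv

end Forms

section Chain

variable {F : Type*} [Field F] {q : ℕ} (n : ℕ)

lemma gl_inv_mulVec (g : GL (Fin n) F) (u w : Fin n → F)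
    (h : (g : Matrix (Fin n) (Fin n) F) *ᵥ u = w) :
    ((g⁻¹ : GL (Fin n) F) : Matrix (Fin n) (Fin n) F) *ᵥ w = u := by
  rw [← h, mulVec_mulVec, Units.inv_mul, one_mulVec]

/-- pointwise stabilizer in `GU` of the basis vectors with index `≥ k` -/
def Hk (q : ℕ) (k : ℕ) : Subgroup (GL (Fin n) F) where
  carrier := {g | g ∈ Cfsg.GU n F q ∧ ∀ i : Fin n, k ≤ i.val →
    (g : Matrix (Fin n) (Fin n) F) *ᵥ (Pi.single i 1) = Pi.single i 1}
  mul_mem' := by
    rintro a b ⟨ha, ha'⟩ ⟨hb, hb'⟩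
    refine ⟨mul_mem ha hb, fun i hi => ?_⟩
    show ((a : Matrix (Fin n) (Fin n) F) * (b : Matrix (Fin n) (Fin n) F)) *ᵥ _ = _
    rw [← mulVec_mulVec, hb' i hi, ha' i hi]
  one_mem' := ⟨one_mem _, fun i _ => by
    show (1 : Matrix (Fin n) (Fin n) F) *ᵥ _ = _
    rw [one_mulVec]⟩
  inv_mem' := by
    rintro a ⟨ha, ha'⟩
    exact ⟨inv_mem ha, fun i hi => gl_inv_mulVec n a _ _ (ha' i hi)⟩

lemma Hk_top : Hk (F := F) n q n = Cfsg.GU n F q := by
  ext g
  constructor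
  · exact fun h => h.1
  · intro h
    refine ⟨h, fun i hi => ?_⟩
    exfalso
    have := i.2
    omega

lemma Hk_zero : Hk (F := F) n q 0 = ⊥ := by
  rw [eq_bot_iff]
  intro g hg
  rw [Subgroup.mem_bot]
  apply Units.ext
  show (g : Matrix (Fin n) (Fin n) F) = 1
  ext r j
  have := congrFun (hg.2 j (Nat.zero_le _)) r
  rw [Matrix.mulVec_single_one] at this
  rw [Matrix.one_apply]
  simpa [Pi.single_apply] using this

lemma Hk_mono (k : ℕ) : Hk (F := F) n q k ≤ Hk (F := F) n q (k + 1) := by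
  intro g hg
  exact ⟨hg.1, fun i hi => hg.2 i (by omega)⟩

lemma Hk_succ_of (i0 : Fin n) (g : GL (Fin n) F) (hg : g ∈ Hk (F := F) n q (i0.val + 1))
    (h1 : (g : Matrix (Fin n) (Fin n) F) *ᵥ (Pi.single i0 1) = Pi.single i0 1) :
    g ∈ Hk (F := F) n q i0.val := by
  refine ⟨hg.1, fun i hi => ?_⟩
  by_cases hik : i = i0
  · rw [hik]
    exact h1
  · have hi' : i0.val + 1 ≤ i.val := by
      rcases Nat.lt_or_ge i0.val i.val with h | h
      · exact h
      · exfalso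
        apply hik
        apply Fin.ext
        omega
    exact hg.2 i hi'

/-- unit vectors supported on the first `k` coordinates -/
abbrev Sk (q : ℕ) (k : ℕ) : Type _ :=
  {v : Fin n → F // (∀ i : Fin n, k ≤ i.val → v i = 0) ∧ Cfsg.hermForm n F q v v = 1}

variable (σ : F →+* F) (hσ : ∀ x, σ x = x ^ q)

include hσ in
lemma vecOf_mem (i0 : Fin n) (g : GL (Fin n) F) (hg : g ∈ Hk (F := F) n q (i0.val + 1)) :
    (∀ i : Fin n, i0.val + 1 ≤ i.val → ((g : Matrix (Fin n) (Fin n) F) *ᵥ (Pi.single i0 1)) i = 0) ∧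
      Cfsg.hermForm n F q ((g : Matrix (Fin n) (Fin n) F) *ᵥ (Pi.single i0 1))
        ((g : Matrix (Fin n) (Fin n) F) *ᵥ (Pi.single i0 1)) = 1 := by
  classical
  constructor
  · intro i hi
    have hne : i0 ≠ i := by
      intro h
      rw [h] at hi
      omega
    rw [← h_single_right n σ hσ ((g : Matrix (Fin n) (Fin n) F) *ᵥ (Pi.single i0 1)) i]
    conv_lhs => rw [← hg.2 i hi]
    rw [(Cfsg.Agent.S0783.mem_GU_iff g).mp hg.1, h_single_right n σ hσ, Pi.single_eq_of_ne' hne]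
  · rw [(Cfsg.Agent.S0783.mem_GU_iff g).mp hg.1, h_single_right n σ hσ, Pi.single_eq_same]

include hσ in
lemma exists_Tm [Fintype F] (hF : Fintype.card F = q ^ 2) (hσσ : ∀ x, σ (σ x) = x) (i0 : Fin n)
    (v : Sk (F := F) n q (i0.val + 1)) :
    ∃ T : GL (Fin n) F, T ∈ Hk (F := F) n q (i0.val + 1) ∧
      (T : Matrix (Fin n) (Fin n) F) *ᵥ (Pi.single i0 1) = v.1 := by
  classical
  have he : Cfsg.hermForm n F q (Pi.single i0 (1 : F)) (Pi.single i0 1) = 1 := by
    rw [h_single_right n σ hσ, Pi.single_eq_same]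
  obtain ⟨T, hT, hTu, hTfix⟩ := exists_mover n σ hσ hF hσσ (Pi.single i0 1) v.1 he v.2.2
  refine ⟨T, ⟨hT, fun i hi => ?_⟩, hTu⟩
  have hne : i0 ≠ i := by
    intro h
    rw [h] at hi
    omega
  exact hTfix i (Pi.single_eq_of_ne' hne _) (v.2.1 i hi)

end Chain

section Count

variable {F : Type*} [Field F] [Fintype F] {q : ℕ} (n : ℕ) (σ : F →+* F) (hσ : ∀ x, σ x = x ^ q)
  (hF : Fintype.card F = q ^ 2) (hσσ : ∀ x, σ (σ x) = x)

/-- chosen mover -/
noncomputable def Tm (i0 : Fin n) (v : Sk (F := F) n q (i0.val + 1)) : GL (Fin n) F :=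
  Classical.choose (exists_Tm n σ hσ hF hσσ i0 v)

lemma Tm_mem (i0 : Fin n) (v : Sk (F := F) n q (i0.val + 1)) :
    Tm n σ hσ hF hσσ i0 v ∈ Hk (F := F) n q (i0.val + 1) :=
  (Classical.choose_spec (exists_Tm n σ hσ hF hσσ i0 v)).1

lemma Tm_spec (i0 : Fin n) (v : Sk (F := F) n q (i0.val + 1)) :
    (Tm n σ hσ hF hσσ i0 v : Matrix (Fin n) (Fin n) F) *ᵥ (Pi.single i0 1) = v.1 :=
  (Classical.choose_spec (exists_Tm n σ hσ hF hσσ i0 v)).2

/-- image of the `i0`-th basis vector -/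
def vecOf (i0 : Fin n) (g : ↥(Hk (F := F) n q (i0.val + 1))) : Sk (F := F) n q (i0.val + 1) :=
  ⟨(g.1 : Matrix (Fin n) (Fin n) F) *ᵥ (Pi.single i0 1), vecOf_mem n σ hσ i0 g.1 g.2⟩

noncomputable def HkEquiv (i0 : Fin n) :
    ↥(Hk (F := F) n q (i0.val + 1)) ≃ Sk (F := F) n q (i0.val + 1) × ↥(Hk (F := F) n q i0.val) where
  toFun g := (vecOf n σ hσ i0 g, ⟨(Tm n σ hσ hF hσσ i0 (vecOf n σ hσ i0 g))⁻¹ * g.1, by
    apply Hk_succ_of n i0 _ (mul_mem (inv_mem (Tm_mem n σ hσ hF hσσ i0 _)) g.2)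
    show ((((Tm n σ hσ hF hσσ i0 (vecOf n σ hσ i0 g))⁻¹ : GL (Fin n) F) : Matrix (Fin n) (Fin n) F) *
      (g.1 : Matrix (Fin n) (Fin n) F)) *ᵥ _ = _
    rw [← mulVec_mulVec]
    exact gl_inv_mulVec n _ _ _ (Tm_spec n σ hσ hF hσσ i0 (vecOf n σ hσ i0 g))⟩)
  invFun p := ⟨Tm n σ hσ hF hσσ i0 p.1 * p.2.1,
    mul_mem (Tm_mem n σ hσ hF hσσ i0 p.1) (Hk_mono n _ p.2.2)⟩
  left_inv g := by
    apply Subtype.ext
    show Tm n σ hσ hF hσσ i0 (vecOf n σ hσ i0 g) * ((Tm n σ hσ hF hσσ i0 (vecOf n σ hσ i0 g))⁻¹ * g.1) = g.1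
    group
  right_inv p := by
    obtain ⟨x, B⟩ := p
    have h1 : vecOf n σ hσ i0 ⟨Tm n σ hσ hF hσσ i0 x * B.1,
        mul_mem (Tm_mem n σ hσ hF hσσ i0 x) (Hk_mono n _ B.2)⟩ = x := by
      apply Subtype.ext
      show ((Tm n σ hσ hF hσσ i0 x : Matrix (Fin n) (Fin n) F) * (B.1 : Matrix (Fin n) (Fin n) F)) *ᵥ _ = _
      rw [← mulVec_mulVec, B.2.2 i0 le_rfl, Tm_spec]
    apply Prod.ext
    · exact h1
    · apply Subtype.ext
      show (Tm n σ hσ hF hσσ i0 (vecOf n σ hσ i0 ⟨Tm n σ hσ hF hσσ i0 x * B.1, _⟩))⁻¹ *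
        (Tm n σ hσ hF hσσ i0 x * B.1) = B.1
      rw [h1]
      group

omit [Fintype F] in
lemma herm_restrict (k : ℕ) (hk : k ≤ n) (v : Fin n → F) (hv : ∀ i : Fin n, k ≤ i.val → v i = 0) :
    Cfsg.hermForm n F q v v =
      Cfsg.hermForm k F q (fun j => v (Fin.castLE hk j)) (fun j => v (Fin.castLE hk j)) := by
  unfold Cfsg.hermForm
  rw [Finset.sum_fin_eq_sum_range, Finset.sum_fin_eq_sum_range]
  symm
  apply Finset.sum_subset_zero_on_sdiff (Finset.range_subset_range.mpr hk)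
  · intro x hx
    rw [Finset.mem_sdiff, Finset.mem_range, Finset.mem_range] at hx
    rw [dif_pos hx.1, hv ⟨x, hx.1⟩ (not_lt.mp hx.2), zero_mul]
  · intro x hx
    rw [Finset.mem_range] at hx
    rw [dif_pos hx, dif_pos (lt_of_lt_of_le hx hk)]
    rfl

omit [Fintype F] in
/-- unit vectors supported on the first `k` coordinates are unit vectors of `F^k` -/
def SkEquiv (k : ℕ) (hk : k ≤ n) :
    Sk (F := F) n q k ≃ {x : Fin k → F // Cfsg.hermForm k F q x x = 1} where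
  toFun v := ⟨fun j => v.1 (Fin.castLE hk j), by
    rw [← herm_restrict n k hk v.1 v.2.1]
    exact v.2.2⟩
  invFun x := ⟨fun i => if h : i.val < k then x.1 ⟨i.val, h⟩ else 0,
    ⟨fun i hi => dif_neg (by omega), by
      rw [herm_restrict n k hk _ (fun i hi => dif_neg (by omega))]
      have : (fun j : Fin k => if h : (Fin.castLE hk j).val < k then
          x.1 ⟨(Fin.castLE hk j).val, h⟩ else 0) = x.1 := by
        funext j
        rw [dif_pos (by simp)]
        rfl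
      rw [this]
      exact x.2⟩⟩
  left_inv v := by
    apply Subtype.ext
    funext i
    by_cases h : i.val < k
    · show (if h : i.val < k then v.1 (Fin.castLE hk ⟨i.val, h⟩) else 0) = v.1 i
      rw [dif_pos h]
      rfl
    · show (if h : i.val < k then v.1 (Fin.castLE hk ⟨i.val, h⟩) else 0) = v.1 i
      rw [dif_neg h]
      exact (v.2.1 i (not_lt.mp h)).symm
  right_inv x := by
    apply Subtype.ext
    funext j
    show (if h : (Fin.castLE hk j).val < k then x.1 ⟨(Fin.castLE hk j).val, h⟩ else 0) = x.1 j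
    rw [dif_pos (by simp)]
    rfl

include hF in
lemma card_Sk_succ (k : ℕ) (hk : k + 1 ≤ n) :
    Nat.card (Sk (F := F) n q (k + 1)) =
      q ^ k * (if Even k then q ^ (k + 1) + 1 else q ^ (k + 1) - 1) := by
  have hq := Cfsg.Agent.Helper7.herm_two_le hF
  have hq0 : (q : ℤ) ≠ 0 := by
    have : (2 : ℤ) ≤ q := by exact_mod_cast hq
    omega
  have h := (Cfsg.Agent.Helper7.herm_int hF (k + 1)).2
  rw [← Nat.card_congr (SkEquiv (F := F) (q := q) n (k + 1) hk)] at h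
  by_cases he : Even k
  · rw [if_pos he]
    have h1 : (-1 : ℤ) ^ (k + 1) = -1 := Odd.neg_one_pow (Even.add_one he)
    rw [h1] at h
    have h2 : ((Nat.card (Sk (F := F) n q (k + 1)) : ℕ) : ℤ) = (q : ℤ) ^ k * ((q : ℤ) ^ (k + 1) + 1) := by
      apply mul_right_cancel₀ hq0
      rw [h]
      ring
    exact_mod_cast h2
  · rw [if_neg he]
    have h1 : (-1 : ℤ) ^ (k + 1) = 1 := Even.neg_one_pow (Nat.not_even_iff_odd.mp he).add_one
    rw [h1] at h
    have h3 : 1 ≤ q ^ (k + 1) := Nat.one_le_pow _ _ (by omega)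
    have h2 : ((Nat.card (Sk (F := F) n q (k + 1)) : ℕ) : ℤ) =
        ((q ^ k * (q ^ (k + 1) - 1) : ℕ) : ℤ) := by
      rw [Nat.cast_mul, Nat.cast_sub h3]
      push_cast
      apply mul_right_cancel₀ hq0
      rw [h]
      ring
    exact_mod_cast h2

include hσ hF hσσ in
lemma card_Hk (k : ℕ) (hk : k ≤ n) :
    Nat.card ↥(Hk (F := F) n q k) =
      q ^ (k * (k - 1) / 2) * ∏ i ∈ Finset.range k, (if Even i then q ^ (i + 1) + 1 else q ^ (i + 1) - 1) := by
  induction k with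
  | zero =>
    rw [Hk_zero]
    simp
  | succ k ih =>
    have hk' : k < n := hk
    have h1 := Nat.card_congr (HkEquiv n σ hσ hF hσσ ⟨k, hk'⟩)
    rw [Nat.card_prod] at h1
    simp only at h1
    rw [h1, card_Sk_succ n hF k hk, ih (by omega), Finset.prod_range_succ, Nat.triangle_succ, pow_add]
    ring

include hσ hF hσσ in
theorem card_GU_aux :
    Nat.card ↥(Cfsg.GU n F q) =
      q ^ (n * (n - 1) / 2) * ∏ i ∈ Finset.range n, (if Even i then q ^ (i + 1) + 1 else q ^ (i + 1) - 1) := by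
  rw [← Hk_top n]
  exact card_Hk n σ hσ hF hσσ n le_rfl

end Count

/-- the order of the general unitary group -/
theorem card_GU {F : Type*} [Field F] [Fintype F] {q : ℕ} (hF : Fintype.card F = q ^ 2) (n : ℕ) :
    Nat.card ↥(Cfsg.GU n F q) =
      q ^ (n * (n - 1) / 2) * ∏ i ∈ Finset.range n, (if Even i then q ^ (i + 1) + 1 else q ^ (i + 1) - 1) := by
  obtain ⟨σ, hσ, hσσ⟩ := Cfsg.Agent.S0281.exists_sigma hF
  exact card_GU_aux n σ hσ hF hσσ

end Cfsg.Agent.Helper7.UnitCard
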